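import Cfsg.Agent.Lib.Bd.TwoC

/-!
# The case `Z ≤ G_y`: the lines `F t`
-/

set_option autoImplicit false

namespace Cfsg.Agent.Bd

open MulAction Cfsg.Agent.AIC

variable {G Ω : Type*} [Group G] [MulAction G Ω] {q Q : ℕ}

namespace St

variable (S : St G Ω q Q) {x y w p r x' y' : Ω} {g t u v b n z a c s k : G}

variable [Finite G] [Finite Ω]

theorem Full.comm (h : S.Full) (hxy : x ≠ y) (ht : t ∈ S.IK x y) (hu : u ∈ S.IK x y) :
    Commute t u := S.bor_of_full h x y hxy t ht.1 u hu.1 ht.2 hu.2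

/-- two lines with two common points coincide -/
theorem Full.line (h : S.Full) (ht : t ∈ I (S.N x)) (hu : u ∈ I (S.N y)) (hpr : p ≠ r)
    (h1 : t • p = p) (h2 : t • r = r) (h3 : u • p = p) (h4 : u • r = r) (w : Ω) :
    t • w = w ↔ u • w = w :=
  Full.iff S h (S.closedI ht h1) (S.closedI hu h3)
    (Full.comm S h hpr ⟨S.closedI ht h1, h2⟩ ⟨S.closedI hu h3, h4⟩) w

theorem Full.IK_eq (h : S.Full) (hxy : x ≠ y) (ht : t ∈ S.IK x y) :
    S.IK x y = (ZZ (S.N x) t : Set G) \ {1} := by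
  ext u
  exact ⟨fun hu => ⟨(S.loc x).memZ' ht.1 hu.1 (Full.comm S h hxy hu ht), hu.1.2.1⟩,
    fun hu => ⟨(S.loc x).Z_I ht.1 hu.1 hu.2, h x y t ht.1 ht.2 u hu.1⟩⟩

theorem Full.ncard_IK (h : S.Full) (hxy : x ≠ y) : (S.IK x y).ncard = q - 1 := by
  obtain ⟨t, ht, e⟩ := S.even x y hxy
  rw [Full.IK_eq S h hxy ⟨ht, e⟩, (S.loc x).ncard_Z ht]

/-- `S` is semiregular off its axis -/
theorem Full.semi (h : S.Full) (ht : t ∈ I (S.N x)) (hs : s ∈ SS (S.N x) t) (hp : t • p ≠ p)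
    (e : s • p = p) : s = 1 := by
  have hxp : x ≠ p := fun e' => hp (e' ▸ S.fixI ht)
  obtain ⟨u, hu, e1⟩ := S.even x p hxp
  exact (S.loc x).runiq ht hu (fun e' => hp ((Full.iff S h ht hu e' p).2 e1)) hs
    (Full.comm S h hxp (S.IK_conj' ⟨hu, e1⟩ (S.fixS ht hs) e) ⟨hu, e1⟩)

theorem two_le_k (ht : t ∈ I (S.N x)) : 2 ≤ (F Ω t).ncard := by
  obtain ⟨y, hy⟩ := S.exists_ne x
  obtain ⟨u, hu, e⟩ := S.even x y hy.symm
  rw [S.ncard_F ht hu]
  exact (Set.one_lt_ncard (Set.toFinite _)).2 ⟨x, S.fixI hu, y, e, hy.symm⟩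

theorem Full.card_v (h : S.Full) (ht : t ∈ I (S.N x)) :
    Nat.card Ω = (F Ω t).ncard + Q * ((F Ω t).ncard - 1) := by
  obtain ⟨y, hy⟩ := S.exists_ne x
  have h1 := S.count_IK hy.symm ht
  have h2 := (S.loc x).four_le
  have h3 := S.two_le_k ht
  have h4 : 0 < Nat.card Ω := @Nat.card_pos Ω ⟨x⟩ _
  rw [Full.ncard_IK S h hy.symm, mul_right_comm] at h1
  have := Nat.eq_of_mul_eq_mul_right (by omega) h1
  rw [add_mul] at this
  omega

theorem Full.ncard_compl (h : S.Full) (ht : t ∈ I (S.N x)) :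
    (F Ω t)ᶜ.ncard = Q * ((F Ω t).ncard - 1) := by
  have h1 := Set.ncard_add_ncard_compl (F Ω t)
  have h2 := Full.card_v S h ht
  omega

/-- the `t`-invariant line through a point off the axis -/
theorem Full.exists_perp (h : S.Full) (ht : t ∈ I (S.N x)) (hp : t • p ≠ p) :
    ∃ u ∈ I (S.N p), Commute u t := by
  obtain ⟨u, hu, e⟩ := exists_fixed_cj_elt (p := 2) (g := t) (k := 1) (X := S.IK p (t • p))
    (by simpa [sq] using ht.2.2) (Set.toFinite _) (fun u hu => S.IK_symm (S.IK_conj' hu rfl (by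
      rw [← mul_smul, ht.2.2, one_smul]))) (by
      rw [Full.ncard_IK S h hp.symm]
      have := (S.loc x).four_dvd
      have := (S.loc x).four_le
      omega)
  exact ⟨u, hu.1, e.symm⟩

theorem Full.disj (h : S.Full) (ht : t ∈ I (S.N x)) (hu : u ∈ I (S.N p)) (e : Commute u t)
    (hp : t • p ≠ p) (h1 : u • w = w) : t • w ≠ w := fun h2 =>
  hp ((Full.iff S h (S.closedI hu h1) (S.closedI ht h2) e p).1 (S.fixI hu))

theorem Full.perp_eq (h : S.Full) (hu : u ∈ I (S.N p)) (hv : v ∈ I (S.N r)) (e : Commute u t)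
    (e' : Commute v t) (hw : t • w ≠ w) (h1 : u • w = w) (h2 : v • w = w) (y : Ω) :
    u • y = y ↔ v • y = y :=
  Full.line S h hu hv hw.symm h1 (comm_fix e.symm h1) h2 (comm_fix e'.symm h2) y

theorem Full.k_dvd (h : S.Full) (ht : t ∈ I (S.N x)) : (F Ω t).ncard ∣ Q := by
  have h1 := dvd_ncard_of_blocks (X := (F Ω t)ᶜ) (Set.toFinite _)
    (fun p => {w | ∀ u ∈ S.IK p (t • p), u • w = w}) (k := (F Ω t).ncard)
    (fun p _ u hu => S.fixI hu.1) (fun p hp w hw => ?_) (fun p hp => ?_) fun p hp w hw => ?_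
  · rw [Full.ncard_compl S h ht] at h1
    have h2 := S.two_le_k ht
    refine Nat.Coprime.dvd_of_dvd_mul_right ?_ h1
    obtain ⟨j, hj⟩ : ∃ j, (F Ω t).ncard = j + 1 := ⟨(F Ω t).ncard - 1, by omega⟩
    rw [hj]; simp
  all_goals obtain ⟨u, hu, e⟩ := Full.exists_perp S h ht hp
  all_goals have uK : u ∈ S.IK p (t • p) := ⟨hu, comm_fix e.symm (S.fixI hu)⟩
  · exact Full.disj S h ht hu e hp (hw u uK)
  · rw [S.ncard_F ht hu]
    congr 1; ext w
    exact ⟨fun hw => hw u uK, fun hw v hv =>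
      (Full.iff S h hu hv.1 (Full.comm S h (Ne.symm hp) uK hv) w).1 hw⟩
  · have h2 := Full.disj S h ht hu e hp (hw u uK)
    have key : ∀ v ∈ S.IK p (t • p), v • t • w = t • w := fun v hv =>
      (Full.iff S h hu hv.1 (Full.comm S h (Ne.symm hp) uK hv) _).1 (comm_fix e.symm (hw u uK))
    simp only [S.IK_eq (Ne.symm hp) (Ne.symm h2) hw key]

theorem Full.k_pow (h : S.Full) (ht : t ∈ I (S.N x)) : ∃ c, (F Ω t).ncard = 2 ^ (c + 1) := by
  obtain ⟨n, -, e⟩ := (S.loc x).powQ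
  obtain ⟨c, -, hc⟩ := (Nat.dvd_prime_pow Nat.prime_two).1 (e ▸ Full.k_dvd S h ht)
  have := S.two_le_k ht
  rcases c with _ | c
  · omega
  · exact ⟨c, hc⟩

theorem Full.odd_k (h : S.Full) (ht : t ∈ I (S.N x)) : ¬ 2 ∣ (F Ω t \ {x}).ncard := by
  obtain ⟨c, hc⟩ := Full.k_pow S h ht
  rw [Set.ncard_sdiff_singleton_of_mem (show x ∈ F Ω t from S.fixI ht), hc, pow_succ]
  have : 0 < 2 ^ c := by positivity
  omega

theorem Full.S_fix (h : S.Full) (ht : t ∈ I (S.N x)) (hs : s ∈ SS (S.N x) t) (e : t • y = y) :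
    s • y = y := by
  by_cases hxy : x = y
  · exact hxy ▸ S.fixS ht hs
  have L := S.loc x
  obtain ⟨p, hp, e1⟩ := exists_fixed (L.isPGroup_S ht) (X := F Ω t \ {x}) (Set.toFinite _)
    (fun g hg p hp => ⟨comm_fix (L.S_comm ht hg) hp.1, fun e' => hp.2
      (smul_left_cancel g (e'.trans (S.fixS ht hg).symm))⟩) (Full.odd_k S h ht)
  obtain ⟨g, g1, g2, g3, -⟩ := S.exists_map hxy (Ne.symm hp.2) ht ht e hp.1
  rw [← conj_fix (g := g), g2]
  exact e1 _ (L.nmS ht (S.nm g1) g3 s hs)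

theorem Full.S_le (h : S.Full) (ht : t ∈ I (S.N x)) (e : t • y = y) :
    SS (S.N x) t ≤ SS (S.N y) t := fun s hs => by
  have L := S.loc x
  have ty := S.closedI ht e
  by_cases h1 : s * s = 1
  · exact (S.loc y).Z_le_S ty (Full.Z_eq S h ht e ▸ L.memZ_of_sq ht hs h1)
  have hQ : Q ≠ q := fun e' => h1 (L.Z_sq ht (L.S_eq_Z ht e' ▸ hs))
  have h2 : s * s ∈ ZZ (S.N y) t := Full.Z_eq S h ht e ▸ L.sq_mem ht hs
  have h3 := (S.loc y).Z_I ty h2 h1
  obtain ⟨r, hr, e1⟩ := (S.loc y).four hQ (S.nm (Full.S_fix S h ht hs e)) h3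
  rw [(S.loc y).S_eq h3 ty ((S.loc y).Z_comm ty h2)] at hr
  rw [← inv_mul_eq_one.1 (S.ce_eq_one ty e1.ce fun w hw => by
    rw [mul_smul, Full.S_fix S h ht hs hw, inv_smul_eq_iff, Full.S_fix S h ty hr hw])]
  exact hr

theorem Full.S_eq (h : S.Full) (ht : t ∈ I (S.N x)) (e : t • y = y) :
    SS (S.N x) t = SS (S.N y) t :=
  le_antisymm (Full.S_le S h ht e) (Full.S_le S h (S.closedI ht e) (S.fixI ht))

theorem Full.ce_move (h : S.Full) (hc : Ce (S.N x) c) (h1 : c • x = x) (h2 : c • y = y) :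
    Ce (S.N y) c := by
  by_cases hxy : x = y
  · exact hxy ▸ hc
  obtain ⟨t, ht, e⟩ := S.even x y hxy
  have L := S.loc x
  have ty := S.closedI ht e
  obtain ⟨z, hz, e1⟩ := (S.loc y).inn_of_ce ty (S.nm h2) fun s hs =>
    hc s (L.S_le ht (Full.S_eq S h ht e ▸ hs))
  obtain ⟨u, hu, e2⟩ := L.exists_nc ht
  have p1 : u • y ≠ y := fun e' => e2 (Full.comm S h hxy ⟨ht, e⟩ ⟨hu, e'⟩)
  have p2 : t • u • y ≠ u • y := fun e' => L.nc_conj hu ht (fun e3 => e2 e3.symm)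
    (Full.comm S h (y := u • y) (fun e3 => hxy (smul_left_cancel u ((S.fixI hu).trans e3)))
      (S.IK_conj' ⟨ht, e⟩ (S.fixI hu) rfl) ⟨ht, e'⟩)
  obtain ⟨v, hv, e3⟩ := S.even y (u • y) p1.symm
  have e4 := Full.comm S h p1.symm (S.IK_conj' ⟨hv, e3⟩ h2 (comm_fix (hc u hu.1).symm h2)) ⟨hv, e3⟩
  rw [e1 v hv.1] at e4
  obtain rfl := (S.loc y).runiq ty hv (fun e' => p2 ((Full.iff S h ty hv e' _).2 e3))
    ((S.loc y).Z_le_S ty hz) e4
  simpa using e1.ce

/-- the centralizer of `N x` in `G_x` is semiregular -/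
theorem Full.ce_semi (h : S.Full) (hc : Ce (S.N x) c) (h1 : c • x = x) (hxy : x ≠ y)
    (h2 : c • y = y) : c = 1 := by
  obtain ⟨t, ht, e⟩ := S.even x y hxy
  obtain ⟨u, hu, e2⟩ := (S.loc x).exists_nc ht
  have p2 : t • u • y ≠ u • y := fun e' => (S.loc x).nc_conj hu ht (fun e3 => e2 e3.symm)
    (Full.comm S h (y := u • y) (fun e3 => hxy (smul_left_cancel u ((S.fixI hu).trans e3)))
      (S.IK_conj' ⟨ht, e⟩ (S.fixI hu) rfl) ⟨ht, e'⟩)
  have p3 := Full.ce_move S h hc h1 (comm_fix (hc u hu.1).symm h2)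
  refine S.ce_eq_one ht hc fun p hp => ?_
  by_contra hne
  obtain ⟨v, hv, e3⟩ := S.even (u • y) p fun e' => p2 (e' ▸ hp)
  exact p2 ((Full.line S h ht hv (Ne.symm hne) hp (comm_fix (hc t ht.1) hp) e3
    (comm_fix (p3 v hv.1) e3) _).2 (S.fixI hv))

theorem Full.ce_two (h : S.Full) (hc : Ce (S.N x) c) (h1 : c • x = x) {j : ℕ}
    (h2 : c ^ 2 ^ j = 1) : c = 1 := by
  obtain ⟨y, hy⟩ := S.exists_ne x
  obtain ⟨t, ht, -⟩ := S.even x y hy.symm
  obtain ⟨p, hp, e⟩ := exists_fixed_elt h2 (X := F Ω t \ {x}) (Set.toFinite _)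
    (fun p hp => ⟨comm_fix (hc t ht.1) hp.1, fun e' => hp.2 (smul_left_cancel c
      (e'.trans h1.symm))⟩) (Full.odd_k S h ht)
  exact Full.ce_semi S h hc h1 (Ne.symm hp.2) e

theorem Full.nmS (h : S.Full) (ht : t ∈ I (S.N x)) (hg : Commute g t) : Nm (SS (S.N x) t) g :=
  fun s hs => by
    have := S.conjS g ht hs
    rwa [conj_eq_of_commute hg, ← Full.S_eq S h ht (comm_fix hg (S.fixI ht))] at this

theorem Full.nmZ (h : S.Full) (ht : t ∈ I (S.N x)) (hg : Commute g t) : Nm (ZZ (S.N x) t) g :=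
  fun s hs => by
    have := S.conjZ g ht hs
    rwa [conj_eq_of_commute hg, ← Full.Z_eq S h ht (comm_fix hg (S.fixI ht))] at this

/-- the stabilizers in `S t`, `S u` of the other axis centralize each other -/
theorem Full.AA_comm (h : S.Full) (ht : t ∈ I (S.N x)) (hu : u ∈ I (S.N p)) (e : Commute u t)
    (hp : t • p ≠ p) (hs : s ∈ SS (S.N x) t) (h1 : u • s • p = s • p) (ha : a ∈ SS (S.N p) u)
    (h2 : t • a • x = a • x) : Commute s a := by
  have hx : u • x ≠ x := fun e' => Full.disj S h ht hu e hp e' (S.fixI ht)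
  have key : ∀ {x p : Ω} {t u s a : G}, t ∈ I (S.N x) → u ∈ I (S.N p) → Commute u t → t • p ≠ p →
      s ∈ SS (S.N x) t → u • s • p = s • p → a ∈ SS (S.N p) u → s * a * s⁻¹ ∈ SS (S.N p) u := by
    intro x p t u s a ht hu e hp hs h1 ha
    have c1 := S.conjI s hu
    have c2 := S.closedI hu h1
    have c3 := (S.loc x).S_comm ht hs
    have c4 : Commute (s * u * s⁻¹) u := Full.comm S h (y := t • s • p)
      (Full.disj S h ht hu e hp h1).symm ⟨c1, comm_fix ((c3.mul_left e).mul_left c3.inv_left).symm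
        (S.fixI c1)⟩ ⟨c2, comm_fix e.symm h1⟩
    rw [Full.S_eq S h hu h1, ← (S.loc _).S_eq c1 c2 c4]
    exact S.conjS s hu ha
  have k1 := key ht hu e hp hs h1 ha
  have k2 := key hu ht e.symm hx ha h2 ((SS _ _).inv_mem hs)
  have := Full.semi S h ht ((SS _ _).mul_mem hs k2) hp (by
    rw [show s * (a * s⁻¹ * a⁻¹) = s * a * s⁻¹ * a⁻¹ by group]
    exact S.fixS hu ((SS _ _).mul_mem k1 ((SS _ _).inv_mem ha)))
  exact commute_of_conj_eq (mul_inv_eq_one.1 (by rw [← this]; group))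

end St

end Cfsg.Agent.Bd
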