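import Cfsg.Agent.Lib.Bd.Two

/-!
# The case `|Z ∩ G_y| = 2` with nonabelian Sylow subgroups does not occur
-/

set_option autoImplicit false

namespace Cfsg.Agent.Bd

open MulAction Cfsg.Agent.AIC

variable {G Ω : Type*} [Group G] [MulAction G Ω] {q Q : ℕ}

theorem Loc.eq_one_of_ce {M : Subgroup G} (h : Loc M q Q) {t z : G} (ht : t ∈ I M)
    (hz : z ∈ SS M t) (e : Ce M z) : z = 1 := by
  obtain ⟨u, hu, e1⟩ := h.exists_nc ht
  exact h.eq_one_of_comm ht hu e1 hz (e u hu.1)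

namespace St

variable (S : St G Ω q Q) {x y w p : Ω} {g t u b n z a c s : G}

variable [Finite G] [Finite Ω]

omit [Finite G] [Finite Ω] in
theorem Two.sq_eq (h : S.Two) (hxy : x ≠ y) (ht : t ∈ I (S.N x)) (e : t • y = y)
    (hs : s ∈ SS (S.N x) t) (e' : s • y = y) (h1 : s ≠ 1) (h2 : s ≠ t) : s * s = t := by
  refine (h x y hxy t ht e _ ((S.loc x).sq_mem ht hs) (by rw [mul_smul, e', e'])).resolve_left
    fun e2 => ?_
  rcases h x y hxy t ht e _ ((S.loc x).memZ_of_sq ht hs e2) e' with a | a <;> contradiction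

theorem Two.exists_four (h : S.Two) (hQ : Q ≠ q) (hxy : x ≠ y) (ht : t ∈ I (S.N x))
    (e : t • y = y) : ∃ s ∈ SS (S.N x) t, s • y = y ∧ s * s = t := by
  by_contra hne
  have hR : ∀ w p : Ω, t • w = w → t • p = p → w ≠ p → ∀ s ∈ SS (S.N w) t, s • p = p →
      s = 1 ∨ s = t := fun w p hw hp hwp s hs e1 => by
    by_contra h1
    push Not at h1
    obtain ⟨g, g1, g2, g3⟩ := Two.map S h hwp hxy (S.closedI ht hw) ht hp e
    refine hne ⟨g * s * g⁻¹, ?_, by rw [← g2, conj_fix, e1], ?_⟩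
    · have := S.conjS g (S.closedI ht hw) hs
      rwa [g1, g3] at this
    · rw [← g3, ← Two.sq_eq S h hwp (S.closedI ht hw) hp hs e1 h1.1 h1.2]; group
  have se : SE (F Ω t) (Subgroup.centralizer {t})
      fun w => {s | s ∈ SS (S.N w) t ∧ s ≠ 1 ∧ s ≠ t ∧ (s * s = 1 ∨ s * s = t)} := by
    refine ⟨fun g hg p hp => comm_fix (mem_T.1 hg) hp,
      fun w hw a ha => mem_T.2 ((S.loc w).S_comm (S.closedI ht hw) ha.1),
      fun w hw a ha => S.fixS (S.closedI ht hw) ha.1, fun w hw a ha p hp => ?_,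
      fun w hw a ha p hp e1 => ?_, fun g hg w hw a ha => ⟨?_, fun e1 => ha.2.1 ?_,
        fun e1 => ha.2.2.1 ?_, ?_⟩, fun w hw a ha b hb _ p hp e1 e2 r hr => ?_⟩
    · rcases ha.2.2.2 with e1 | e1 <;> rw [e1]
      exacts [one_smul _ _, hp]
    · by_contra h1
      rcases hR w p hw hp (Ne.symm h1) a ha.1 e1 with e2 | e2
      exacts [ha.2.1 e2, ha.2.2.1 e2]
    · have := S.conjS g (S.closedI ht hw) ha.1
      rwa [conj_eq_of_commute (mem_T.1 hg)] at this
    · exact conj_eq_one_iff.1 e1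
    · rw [← conj_eq_of_commute (mem_T.1 hg)] at e1
      simpa using e1
    · rw [show g * a * g⁻¹ * (g * a * g⁻¹) = g * (a * a) * g⁻¹ by group]
      rcases ha.2.2.2 with e1 | e1 <;> rw [e1]
      exacts [Or.inl (by group), Or.inr (conj_eq_of_commute (mem_T.1 hg))]
    · rcases hR w p hw hp e1.symm _ ((SS _ _).mul_mem ha.1 hb.1) e2 with e3 | e3 <;> rw [e3]
      exacts [one_smul _ _, hr]
  have L := S.loc x
  have hy := S.closedI ht e
  obtain ⟨a, ha⟩ := S.exists_TT ht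
  obtain ⟨c, hc⟩ := S.exists_TT hy
  obtain ⟨a', ha', a1⟩ := L.sq ht hQ (L.self_mem ht)
  obtain ⟨w, hw, s, hs, w', hw', s', hs', f1, f2, f3, f4, f5⟩ := se.conj2 (S.fixI ht) e hxy
    (a := a) (a' := a') (c := c) ⟨L.Z_le_S ht ha.1, ha.2.1, ha.2.2, Or.inl (L.Z_sq ht ha.1)⟩
    ⟨ha', fun e1 => ht.2.1 (by rw [← a1, e1, one_mul]),
      fun e1 => ht.2.1 (by rw [← a1, e1, ht.2.2]), Or.inr a1⟩
    ⟨(S.loc y).Z_le_S hy hc.1, hc.2.1, hc.2.2, Or.inl ((S.loc y).Z_sq hy hc.1)⟩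
  have g1 : Commute (s' * s) t :=
    mem_T.1 (Subgroup.mul_mem _ (se.mem w' hw' s' hs') (se.mem w hw s hs))
  have g2 : s' * s * a * (s' * s)⁻¹ ∈ ZZ (S.N x) t := by
    have := S.conjZ (s' * s) ht ha.1
    rwa [conj_eq_of_commute g1, mul_smul, f1, f4] at this
  have g3 := hR x y (S.fixI ht) e hxy _
    ((SS _ _).mul_mem ((SS _ _).inv_mem (L.Z_le_S ht g2)) ha') (by
      rw [mul_smul, ← f5 y e, inv_smul_smul])
  generalize s' * s * a * (s' * s)⁻¹ = r at *
  have g4 : a' ∈ ZZ (S.N x) t := by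
    rw [← mul_inv_cancel_left r a']
    refine (ZZ _ _).mul_mem g2 ?_
    rcases g3 with e1 | e1 <;> rw [e1]
    exacts [Subgroup.one_mem _, L.self_mem ht]
  exact ht.2.1 (by rw [← a1, L.Z_sq ht g4])

theorem sq_comm (hs : s * s = t) : Commute s t := hs ▸ (Commute.refl s).mul_right (Commute.refl s)

theorem four_act (hQ : Q ≠ q) (ht : t ∈ I (S.N x)) (hs : s * s = t) (hw : s • w = w) :
    (∀ z ∈ ZZ (S.N w) t, Commute s z) ∧
    ∀ z ∈ ZZ (S.N w) t, (F Ω (s * z)).ncard = (F Ω s).ncard := by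
  have hI := S.closedI ht (show t • w = w by rw [← hs, mul_smul, hw, hw])
  have L := S.loc w
  obtain ⟨r, hr, e⟩ := L.four hQ (S.nm hw) (hs ▸ hI)
  rw [hs] at hr
  refine ⟨fun z hz => (e.commute_iff (L.Z_le hI hz)).2 (L.comm hI hz hr), fun z hz => ?_⟩
  have hc := e.ce
  have e1 : s = r * (r⁻¹ * s) := by group
  generalize r⁻¹ * s = c at *
  have c1 := hc r (L.S_le hI hr)
  have e2 : t = r * r * (c * c) := by
    rw [← hs, e1, mul_assoc r c, ← mul_assoc c, c1.eq]; group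
  have e3 : c * c = 1 := L.eq_one_of_ce hI (by
    rw [show c * c = (r * r)⁻¹ * t by rw [e2]; group]
    exact (SS _ _).mul_mem ((SS _ _).inv_mem ((SS _ _).mul_mem hr hr))
      (L.Z_le_S hI (L.self_mem hI))) (hc.mul hc)
  rw [e3, mul_one] at e2
  have e4 : s * z = r * z * c := by rw [e1, mul_assoc, (hc z (L.Z_le hI hz)).eq, mul_assoc]
  obtain ⟨k, hk, e5⟩ := L.cj hI hr (e2 ▸ ht.2.1) hz
  have e6 : k * s * k⁻¹ = k * r * k⁻¹ * c := by
    rw [e1, mul_assoc _ _ c, ← (hc k (L.S_le hI hk)).inv_right.eq]; group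
  rw [← ncard_F_conj k s, e6]
  rcases e5 with e5 | e5 <;> rw [e5]
  · rw [e4]
  · have : (r * z)⁻¹ * c = (s * z)⁻¹ := by
      rw [e4, mul_inv_rev _ c, inv_eq_of_mul_eq_one_right e3]
      exact (hc _ ((S.N w).inv_mem ((S.N w).mul_mem (L.S_le hI hr) (L.Z_le hI hz)))).eq.symm
    rw [this]
    congr 1; ext p
    rw [mem_F, mem_F, inv_smul_eq_iff, eq_comm]

theorem Two.count_four (h : S.Two) (hQ : Q ≠ q) (ht : t ∈ I (S.N x)) (hs : s * s = t) :
    (F Ω s).ncard * (q - 2) * ((F Ω s).ncard - 1) = ((F Ω t).ncard - (F Ω s).ncard) * 2 := by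
  have sub : ∀ w : Ω, s • w = w → t • w = w := fun w hw => by rw [← hs, mul_smul, hw, hw]
  have st := sq_comm hs
  rw [← Set.ncard_sdiff (show F Ω s ⊆ F Ω t from sub) (Set.toFinite _),
    ← ncard_eq_fibers (X := {r : Ω × G | s • r.1 = r.1 ∧ r.2 ∈ S.TT t r.1}) (Set.toFinite _)
      Prod.fst (fun r hr => hr.1) (fun w hw => ?_) (Set.toFinite _)]
  swap
  · rw [← S.ncard_TT (S.closedI ht (sub w hw)), ← Set.ncard_image_of_injective (S.TT t w)
      (Prod.mk_right_injective w)]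
    congr 1; ext ⟨p, a⟩
    exact ⟨fun ⟨⟨_, h1⟩, h2⟩ => ⟨a, h2 ▸ h1, by rw [← h2]⟩,
      by rintro ⟨a, h1, ⟨⟩⟩; exact ⟨⟨hw, h1⟩, rfl⟩⟩
  have mv : ∀ {p : Ω} {z : G}, t • p = p → ((s * z) • p = p ↔ z • p = s • p) := fun {p z} hp => by
    rw [mul_smul]
    refine ⟨fun e => smul_left_cancel s ?_, fun e => ?_⟩
    · rw [e, ← mul_smul, hs, hp]
    · rw [e, ← mul_smul, hs, hp]
  refine double_count (Set.toFinite _) (Set.toFinite _) (fun r p => (s * r.2) • p = p) ?_ ?_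
  · rintro ⟨w, z⟩ ⟨hw, hz⟩
    have hI := S.closedI ht (sub w hw)
    obtain ⟨c1, c2⟩ := S.four_act hQ ht hs hw
    have zw := S.fixZ hI hz.1
    rw [← c2 z hz.1, ← Set.ncard_sdiff_singleton_of_mem (a := w)
      (show w ∈ F Ω (s * z) by rw [mem_F, mul_smul, zw]; exact hw)]
    congr 1; ext p
    refine ⟨fun ⟨⟨_, h2⟩, h3⟩ => ⟨h3, fun e => h2 (e ▸ hw)⟩, fun ⟨h1, h2⟩ => ?_⟩
    have h3 : t • p = p := by
      have : t = s * z * (s * z) := by
        rw [mul_assoc, ← mul_assoc z, ← (c1 z hz.1).eq, mul_assoc s z, (S.TT_I hI hz).2.2, mul_one,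
          hs]
      rw [this, mul_smul, h1, h1]
    exact ⟨⟨h3, fun e => h2 (Two.uniq S h hI hz h3 (((mv h3).1 h1).trans e))⟩, h1⟩
  · rintro p ⟨hp, hp'⟩
    have hI := S.closedI ht hp
    obtain ⟨a, ha⟩ := S.exists_TT hI
    have ac := S.TT_comm hI ha
    obtain ⟨w, hw, z, hz, z1, -, -, -, z2⟩ := Two.mid S h hI (comm_fix st hp) (Ne.symm hp') ha
      (S.TT_conj hI st ha)
    have sw := z2 s st rfl (by
      rw [show s * (s * a * s⁻¹) * s⁻¹ = s * s * a * (s * s)⁻¹ by group, hs,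
        conj_eq_of_commute ac.symm])
    have hwI := S.closedI ht hw
    rw [← Set.ncard_pair (a := (w, z)) (b := (w, z * t)) (by simpa using ht.2.1)]
    congr 1; ext ⟨w', z'⟩
    constructor
    · rintro ⟨⟨h1, h2⟩, h3⟩
      have hI' := S.closedI ht (sub w' h1)
      have z3 := (S.TT_I hI' h2).2.2
      have c1 := (S.four_act hQ ht hs h1).1 z' h2.1
      have c2 := (S.four_act hQ ht (s := s * z') (by
        rw [mul_assoc, ← mul_assoc z', ← c1.eq, mul_assoc s z', z3, mul_one, hs]) h3).1 a ha.1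
      have c3 : z' * a * z'⁻¹ = s * a * s⁻¹ := by
        calc _ = s⁻¹ * (s * z' * a * (s * z')⁻¹) * s := by group
          _ = s * ((s * s)⁻¹ * a * (s * s)) * s⁻¹ := by rw [conj_eq_of_commute c2]; group
          _ = _ := by rw [hs, mul_assoc t⁻¹, ac.eq, inv_mul_cancel_left]
      have c4 := z2 z' (S.TT_comm hI' h2) c3 (by
        rw [← c3, show z' * (z' * a * z'⁻¹) * z'⁻¹ = z' * z' * a * (z' * z')⁻¹ by group, z3]
        group)
      obtain rfl := Two.uniq S h hI' h2 hw c4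
      have c5 := h w p (fun e => hp' (e ▸ sw)) t hwI hp _
        ((ZZ _ _).mul_mem ((ZZ _ _).inv_mem hz.1) h2.1) (by
          rw [mul_smul, (mv hp).1 h3, ← z1, inv_smul_smul])
      rcases c5 with e | e
      · left; rw [inv_mul_eq_one.1 e]
      · right; rw [← e]; simp
    · rintro (e | e) <;> obtain ⟨rfl, rfl⟩ := Prod.mk.inj e
      · exact ⟨⟨sw, hz⟩, (mv hp).2 z1⟩
      · exact ⟨⟨sw, S.TT_mul hwI hz⟩, (mv hp).2 (by rw [mul_smul, hp, z1])⟩

theorem Two.Q_eq (h : S.Two) (hq : q = 4 ∨ q = 8) (x : Ω) : Q = q := by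
  by_contra hQ
  obtain ⟨y, hy⟩ := S.exists_ne x
  obtain ⟨t, ht, e⟩ := S.even x y hy.symm
  have L := S.loc x
  obtain ⟨s, hs, s1, s2⟩ := Two.exists_four S h hQ hy.symm ht e
  have sub : ∀ {s : G} {w : Ω}, s * s = t → s • w = w → t • w = w := fun hs hw => by
    rw [← hs, mul_smul, hw, hw]
  have dv : ∀ r ∈ SS (S.N x) t, r * r = t → q ∣ ((F Ω r).ncard - 1) * 2 := fun r hr r1 => by
    rw [← Set.ncard_sdiff_singleton_of_mem (show x ∈ F Ω r from S.fixS ht hr)]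
    refine (L.cardZ ht).symm.dvd.trans (card_dvd_mul (Set.toFinite _) (fun z hz p hp =>
      ⟨comm_fix (L.comm ht hz hr).symm hp.1, fun e' => hp.2 ?_⟩) fun p hp =>
      Two.card_V S h (Ne.symm hp.2) ht (sub r1 hp.1))
    exact smul_left_cancel z (e'.trans (S.fixZ ht hz).symm)
  have ge : ∀ r ∈ SS (S.N x) t, (∃ y, y ≠ x ∧ r • y = y) → 1 < (F Ω r).ncard := fun r hr
    ⟨y, h1, h2⟩ => (Set.one_lt_ncard (Set.toFinite _)).2 ⟨y, h2, x, S.fixS ht hr, h1⟩
  have c0 := Two.count_four S h hQ ht s2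
  have le : ∀ r, r * r = t → (F Ω r).ncard ≤ (F Ω t).ncard := fun r hr =>
    Set.ncard_le_ncard (fun w hw => sub hr hw) (Set.toFinite _)
  have φ1 := ge s hs ⟨y, hy, s1⟩
  have φ2 := le s s2
  have φ3 := dv s hs s2
  set σ := {r | r ∈ SS (S.N x) t ∧ r * r = t ∧ ∃ y, y ≠ x ∧ r • y = y} with hσ
  have hR : ∀ p : Ω, t • p = p → p ≠ x → Nat.card ↥(SS (S.N x) t ⊓ stabilizer G p) =
      Nat.card ↥(SS (S.N x) t ⊓ stabilizer G y) := fun p hp hpx => by
    obtain ⟨g, g1, g2, g3⟩ := Two.map S h hpx.symm hy.symm ht ht hp e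
    refine card_eq_of_conj g fun a => ?_
    have := S.conjS_iff g ht (z := a)
    rw [g1, g3] at this
    simp only [Subgroup.mem_inf, this, mem_stabilizer_iff, ← g2, conj_fix]
  have c1 : σ.ncard * ((F Ω s).ncard - 1) =
      (F Ω t \ {x}).ncard * (Nat.card ↥(SS (S.N x) t ⊓ stabilizer G y) - 2) := by
    refine double_count (Set.toFinite _) (Set.toFinite _) (fun r p => r • p = p) ?_ ?_
    · rintro r ⟨r1, r2, r3⟩
      have : (F Ω r).ncard = (F Ω s).ncard := by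
        have a1 := Two.count_four S h hQ ht r2
        have a2 := ge r r1 r3
        have a3 := le r r2
        have a4 := L.four_le
        generalize (F Ω r).ncard = a at *
        generalize (F Ω s).ncard = b at *
        obtain ⟨a, rfl⟩ : ∃ c, a = c + 1 := ⟨a - 1, by omega⟩
        obtain ⟨b, rfl⟩ : ∃ c, b = c + 1 := ⟨b - 1, by omega⟩
        simp only [Nat.add_sub_cancel] at a1 c0
        rcases lt_trichotomy a b with a5 | a5 | a5
        · have := Nat.mul_le_mul (Nat.mul_le_mul_right (q - 2) (Nat.add_le_add_right a5.le 1)) a5.le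
          omega
        · rw [a5]
        · have := Nat.mul_le_mul (Nat.mul_le_mul_right (q - 2) (Nat.add_le_add_right a5.le 1)) a5.le
          omega
      rw [← this, ← Set.ncard_sdiff_singleton_of_mem (show x ∈ F Ω r from S.fixS ht r1)]
      congr 1; ext p
      exact ⟨fun ⟨h1, h2⟩ => ⟨h2, h1.2⟩, fun ⟨h1, h2⟩ => ⟨⟨sub r2 h1, h2⟩, h1⟩⟩
    · rintro p ⟨p1, p2⟩
      rw [← hR p p1 p2, ← ncard_sub, ← Set.ncard_pair ht.2.1.symm, ← Set.ncard_sdiff _
        (Set.toFinite _)]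
      · congr 1; ext r
        refine ⟨fun ⟨⟨h1, h2, _⟩, h3⟩ => ⟨⟨h1, h3⟩, ?_⟩, fun ⟨⟨h1, h2⟩, h3⟩ => ?_⟩
        · rintro (rfl | rfl)
          · exact ht.2.1 (by rw [← h2, one_mul])
          · exact ht.2.1 (h2.symm.trans ht.2.2)
        · simp only [Set.mem_insert_iff, Set.mem_singleton_iff, not_or] at h3
          exact ⟨⟨h1, Two.sq_eq S h (Ne.symm p2) ht p1 h1 h2 h3.1 h3.2, p, p2, h2⟩, h2⟩
      · rintro _ (rfl | rfl)
        exacts [Subgroup.one_mem _, ⟨L.Z_le_S ht (L.self_mem ht), p1⟩]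
  rw [Set.ncard_sdiff_singleton_of_mem (show x ∈ F Ω t from S.fixI ht)] at c1
  have c2 : ∀ (p : ℕ) [Fact p.Prime], Odd p → ∀ k ∈ S.N x, Commute k t → k ≠ 1 → k ^ p = 1 →
      p ∣ σ.ncard := fun p _ hp k hk k1 k2 k3 => by
    by_contra hne
    obtain ⟨r, ⟨r1, r2, -⟩, r3⟩ := exists_fixed_cj_elt (k := 1) (X := σ) (by rw [pow_one, k3])
      (Set.toFinite _) (by
        rintro r ⟨r1, r2, p, p1, p2⟩
        refine ⟨L.nmS ht (Nm.of_mem hk) (by rw [conj_eq_of_commute k1]) r r1, ?_, k • p,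
          fun e' => p1 (smul_left_cancel k (e'.trans (S.fix x k hk).symm)), conj_fix.2 p2⟩
        rw [← conj_eq_of_commute k1, ← r2]; group) hne
    exact k2 (eq_one_of_odd_pow (k := 2) (Odd.of_dvd_nat hp (orderOf_dvd_of_pow_eq_one k3))
      (L.S_four ht (L.c4 ht r1 (r2 ▸ ht.2.1) hk r3)))
  have sub2 : σ ⊆ {r | r ∈ SS (S.N x) t ∧ r * r = t} := fun r hr => ⟨hr.1, hr.2.1⟩
  have s3 : s ≠ 1 := fun e' => ht.2.1 (by rw [← s2, e', one_mul])
  have s4 : s ≠ t := fun e' => ht.2.1 (by rw [← s2, e', ht.2.2])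
  have tR : t ∈ SS (S.N x) t ⊓ stabilizer G y := ⟨L.Z_le_S ht (L.self_mem ht), e⟩
  obtain ⟨j, hj⟩ : ∃ j, Nat.card ↥(SS (S.N x) t ⊓ stabilizer G y) = 2 ^ (j + 2) := by
    obtain ⟨j, hj⟩ := ((L.isPGroup_S ht).to_le
      (inf_le_left : SS (S.N x) t ⊓ stabilizer G y ≤ _)).exists_card_eq
    have h2 := Set.ncard_le_ncard (s := {1, t, s}) (t := ↑(SS (S.N x) t ⊓ stabilizer G y)) (by
      rintro _ (rfl | rfl | rfl)
      exacts [Subgroup.one_mem _, tR, ⟨hs, s1⟩]) (Set.toFinite _)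
    rw [Set.ncard_insert_of_notMem (by simp [ht.2.1.symm, s3.symm]), Set.ncard_pair s4.symm,
      ncard_sub, hj] at h2
    refine ⟨j - 2, ?_⟩
    rw [hj]; congr 1
    by_contra h3
    have : j ≤ 1 := by omega
    interval_cases j <;> omega
  have j1 : 1 ≤ 2 ^ j := Nat.one_le_two_pow
  rw [hj, pow_add] at c1
  have hf : (F Ω t).ncard = (F Ω t).ncard := rfl
  obtain ⟨φ, hφ⟩ : ∃ c, (F Ω s).ncard = c + 1 := ⟨(F Ω s).ncard - 1, by omega⟩
  rw [hφ] at c0 c1 φ1 φ2 φ3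
  simp only [Nat.add_sub_cancel] at c0 c1 φ3
  obtain ⟨ρ, hρ⟩ : ∃ c, 2 ^ j = c + 1 := ⟨2 ^ j - 1, by omega⟩
  rw [hρ, show (ρ + 1) * 2 ^ 2 - 2 = 4 * ρ + 2 by omega] at c1
  have φ0 : 0 < φ := by omega
  rcases hq with rfl | rfl
  · have hQ' : Q = 64 := by
      rcases L.kind with a | ⟨-, a⟩ | a
      exacts [absurd a hQ, absurd ⟨2, rfl⟩ a, a]
    subst hQ'
    have d1 := (Set.ncard_le_ncard sub2 (Set.toFinite _)).trans (L.sig ht rfl)
    have d2 := L.cC4 ht rfl rfl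
    have : Fact (Nat.Prime 5) := ⟨by norm_num⟩
    obtain ⟨k, hk⟩ := exists_prime_orderOf_dvd_card' (G := ↥(S.N x ⊓ Subgroup.centralizer {t})) 5
      (by rw [d2]; norm_num)
    have d3 := c2 5 (by decide) k k.2.1 (mem_T.1 k.2.2) (fun e' => by
      rw [show k = 1 from Subtype.ext e'] at hk; simp at hk) (by
      rw [← hk]; exact congrArg Subtype.val (pow_orderOf_eq_one k))
    have d4 : σ.ncard = (φ + 2) * (4 * ρ + 2) := Nat.eq_of_mul_eq_mul_right φ0 (by
      rw [c1, show (F Ω t).ncard - 1 = (φ + 2) * φ by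
        have : (φ + 1) * (4 - 2) * φ + φ * 2 = (φ + 2) * φ * 2 := by ring
        omega]; ring)
    obtain ⟨rfl, rfl⟩ : φ = 8 ∧ ρ = 0 := by
      rw [d4] at d1 d3
      have a1 : φ ≤ 8 := by nlinarith
      have a2 : ρ ≤ 1 := by nlinarith
      interval_cases φ <;> interval_cases ρ <;> omega
    have d5 : (F Ω t).ncard = 81 := by omega
    have d6 : Nat.card ↥(SS (S.N x) t ⊓ stabilizer G y) = 4 := by rw [hj, pow_add, hρ]; rfl
    have d7 : S.N x ⊓ Subgroup.centralizer {t} ⊓ stabilizer G y = SS (S.N x) t ⊓ stabilizer G y := by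
      refine le_antisymm (fun g hg => ⟨?_, hg.2⟩) fun g hg =>
        ⟨⟨L.S_le ht hg.1, mem_T.2 (L.S_comm ht hg.1)⟩, hg.2⟩
      have g1 := mem_T.1 hg.1.2
      have g2 : Commute (g * g) s := by
        rcases mem_four d6 tR ⟨hs, s1⟩ ht.2.1 s3 s4 ht.2.2 (w := g * s * g⁻¹)
          ⟨L.nmS ht (Nm.of_mem hg.1.1) (by rw [conj_eq_of_commute g1]) s hs,
            Subgroup.mul_mem _ (Subgroup.mul_mem _ hg.2 s1) (Subgroup.inv_mem _ hg.2)⟩ with
          a | a | a | a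
        · exact absurd (conj_eq_one_iff.1 a) s3
        · rw [← conj_eq_of_commute g1] at a
          exact absurd (by simpa using a) s4
        · exact (commute_of_conj_eq a).mul_left (commute_of_conj_eq a)
        · apply commute_of_conj_eq
          calc _ = g * (g * s * g⁻¹) * g⁻¹ := by group
            _ = (g * s * g⁻¹) * (g * t * g⁻¹) := by rw [a]; nth_rw 2 [← a]; group
            _ = s := by rw [a, conj_eq_of_commute g1, mul_assoc, ht.2.2, mul_one]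
      have g3 := L.S_four ht (L.c4 ht hs (s2 ▸ ht.2.1) ((S.N x).mul_mem hg.1.1 hg.1.1) g2)
      exact L.two (k := 3) ht hg.1.1 g1 (by rw [← g3, ← pow_two, ← pow_mul]; rfl)
    have d8 := card_eq_orb_mul (S.N x ⊓ Subgroup.centralizer {t}) y
    rw [d7, d6, d2] at d8
    have d9 : (fun g : G => g • y) '' ↑(S.N x ⊓ Subgroup.centralizer {t}) = F Ω t \ {x} := by
      refine Set.eq_of_subset_of_ncard_le ?_ ?_ (Set.toFinite _)
      · rintro _ ⟨g, hg, rfl⟩
        exact ⟨comm_fix (mem_T.1 hg.2) e, fun e' =>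
          hy (smul_left_cancel g (e'.trans (S.fix x g hg.1).symm))⟩
      · rw [Set.ncard_sdiff_singleton_of_mem (show x ∈ F Ω t from S.fixI ht)]
        omega
    have e1 : (fun g : G => g • y) '' ↑(S.N x) = Set.univ \ {x} := by
      ext p
      refine ⟨?_, fun hp => ?_⟩
      · rintro ⟨g, hg, rfl⟩
        exact ⟨trivial, fun e' => hy (smul_left_cancel g (e'.trans (S.fix x g hg).symm))⟩
      · obtain ⟨u, hu, u1⟩ := S.even x p (Ne.symm hp.2)
        obtain ⟨n, hn, n1⟩ := L.conj_all hu ht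
        obtain ⟨g, hg, g1⟩ : n • p ∈ (fun g : G => g • y) '' ↑(S.N x ⊓ Subgroup.centralizer {t}) :=
          d9 ▸ ⟨n1 ▸ conj_fix.2 u1, fun e' => hp.2 (smul_left_cancel n
            (e'.trans (S.fix x n hn).symm))⟩
        exact ⟨n⁻¹ * g, (S.N x).mul_mem ((S.N x).inv_mem hn) hg.1, by
          simp only [mul_smul] at g1 ⊢; rw [g1, inv_smul_smul]⟩
    have e2 := card_eq_orb_mul (S.N x) y
    rw [e1, L.card_M ht, d2, Set.ncard_sdiff_singleton_of_mem (Set.mem_univ _), Set.ncard_univ]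
      at e2
    obtain ⟨κ, hκ⟩ := d6 ▸ Subgroup.card_dvd_of_le
      (inf_le_inf_right _ (L.S_le ht) : SS (S.N x) t ⊓ stabilizer G y ≤ S.N x ⊓ stabilizer G y)
    have e3 := S.card_D ht
    rw [d5] at e3
    have e4 : 81 < Nat.card Ω := by
      rw [← d5, ← Set.ncard_univ]
      refine Set.ncard_lt_ncard (Set.ssubset_univ_iff.2 fun e' => ht.2.1 (S.faith t fun w => ?_))
        (Set.toFinite _)
      exact (e' ▸ Set.mem_univ w : w ∈ F Ω t)
    rw [hκ] at e2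
    obtain ⟨v, hv⟩ : ∃ v, Nat.card Ω = 27 * v + 27 := ⟨Nat.card Ω / 27 - 1, by omega⟩
    have e5 : 27 * v + 26 ∣ 15600 := ⟨κ, by
      rw [hv, show 27 * v + 27 - 1 = 27 * v + 26 from rfl] at e2; linarith⟩
    have e6 : ∀ d ∈ Nat.divisors 15600, d % 27 = 26 → d ≤ 80 := by decide +kernel
    have := e6 _ (Nat.mem_divisors.2 ⟨e5, by norm_num⟩) (by omega)
    omega
  · have d4 : σ.ncard = (3 * φ + 4) * (4 * ρ + 2) := Nat.eq_of_mul_eq_mul_right φ0 (by
      rw [c1, show (F Ω t).ncard - 1 = (3 * φ + 4) * φ by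
        have : (φ + 1) * (8 - 2) * φ + φ * 2 = (3 * φ + 4) * φ * 2 := by ring
        omega]; ring)
    rcases L.kind with a | ⟨a, -⟩ | a
    · exact hQ a
    · have d1 : σ.ncard ≤ 8 := by
        rw [← L.cardZ ht, ← ncard_sub]
        refine Set.ncard_le_ncard_of_injOn (fun r => r * s⁻¹) (fun r hr =>
          L.sqinj ht a hr.1 hs (hr.2.1.trans s2.symm)) (fun r _ r' _ e' => by simpa using e')
          (Set.toFinite _)
      nlinarith
    · have d1 := (Set.ncard_le_ncard sub2 (Set.toFinite _)).trans (L.sig ht a)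
      obtain ⟨k, hk, k1, k2, k3⟩ := L.cC8 ht rfl a
      have d3 := c2 3 (by decide) k hk k1 k2 k3
      rw [d4] at d1 d3
      have a0 : 4 ≤ φ := by omega
      have a1 : ρ = 0 := by nlinarith
      subst a1
      omega

end St

end Cfsg.Agent.Bd
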