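import Cfsg.Agent.Lib.Bd.TwoC

/-!
# The case `|Z ∩ G_y| = 2` with abelian Sylow subgroups: dihedral two-point stabilizers
-/

set_option autoImplicit false

namespace Cfsg.Agent.Bd

open MulAction Cfsg.Agent.AIC

variable {G Ω : Type*} [Group G] [MulAction G Ω] {q Q : ℕ}

theorem mul_self_eq_iff {a b : G} (h : b * b = 1) : a * b = 1 ↔ a = b :=
  ⟨fun e => by rw [← mul_one a, ← h, ← mul_assoc, e, one_mul], fun e => e ▸ h⟩

namespace St

variable (S : St G Ω q Q) {x y w p x' y' : Ω} {g t u v b n z a c s k : G}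

/-- the points fixed by the involutions fixing `x` and `y` -/
def LL (x y : Ω) : Set Ω := {p | ∀ u ∈ S.IK x y, u • p = p}

theorem ncard_LL (hxy : x ≠ y) (hxy' : x' ≠ y') : (S.LL x y).ncard = (S.LL x' y').ncard := by
  obtain ⟨g, rfl, rfl⟩ := S.two x y x' y' hxy hxy'
  rw [← Set.ncard_image_of_injective (S.LL x y) (MulAction.injective g)]
  congr 1; ext p
  refine ⟨?_, fun hp => ⟨g⁻¹ • p, fun u hu => conj_fix'.1 (hp _ (S.IK_conj g hu)), by simp⟩⟩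
  rintro ⟨p, hp, rfl⟩ u hu
  have := hp _ (by simpa using S.IK_conj g⁻¹ hu)
  rwa [mul_smul, mul_smul, inv_smul_eq_iff] at this

variable [Finite G]

theorem exists_IK_ne (hm : (S.IK x y).ncard ≠ 1) (ht : t ∈ S.IK x y) : ∃ u ∈ S.IK x y, u ≠ t := by
  by_contra hne
  push Not at hne
  exact hm (Set.ncard_eq_one.2 ⟨t, Set.eq_singleton_iff_unique_mem.2 ⟨ht, hne⟩⟩)

theorem Two.nz (h : S.Two) (hQ : Q = q) (hxy : x ≠ y) (hm : (S.IK x y).ncard ≠ 1)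
    (ht : t ∈ S.IK x y) (hz : z ∈ S.TT t x) : S.IK x (z • y) ≠ S.IK x y := fun e => by
  obtain ⟨u, hu, u1⟩ := S.exists_IK_ne hm ht
  have zI := S.TT_I ht.1 hz
  have zt := S.TT_comm ht.1 hz
  have a1 := S.mul_mem_AA h hQ hxy ht hu
  have a2 := S.mul_mem_AA h hQ hxy ht (e ▸ S.IK_conj' hu (S.fixI zI) rfl)
  rw [show t * (z * u * z⁻¹) = z * (t * u) * z⁻¹ by rw [← mul_assoc, ← mul_assoc, ← zt.eq]; group]
    at a2
  have a3 := S.AA_eq_one h hQ hxy (Subgroup.mul_mem _ a1 a2) zI (commute_of_conj_eq (by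
    calc _ = z * (t * u) * z⁻¹ * ((z * z) * (t * u) * (z * z)⁻¹) := by group
      _ = _ := by rw [zI.2.2, (S.AA_comm h hQ hxy a1 a2).eq]; group)).symm
  have a4 := (Two.invert S h hQ hxy ht a1.1 a1.2).1
  have a5 := S.AA_eq_one h hQ hxy a1 (S.TT_I ht.1 (S.TT_mul ht.1 hz)) (commute_of_conj_eq (by
    rw [show z * t * (t * u) * (z * t)⁻¹ = z * (t * (t * u) * t⁻¹) * z⁻¹ by group, a4,
      show z * (t * u)⁻¹ * z⁻¹ = (z * (t * u) * z⁻¹)⁻¹ by group,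
      eq_inv_of_mul_eq_one_right a3, inv_inv])).symm
  exact u1 ((mul_self_eq_iff hu.1.2.2).1 a5).symm

variable [Finite Ω]

theorem AA_conj (h : S.Two) (hQ : Q = q) (hxy : x ≠ y) (h1 : z • x = y) (h2 : z • y = x)
    (ha : a ∈ S.AA h hQ hxy) : z * a * z⁻¹ ∈ S.AA h hQ hxy := by
  have := S.KK_conj z ha.1
  rw [h1, h2] at this
  refine ⟨⟨Two.closedK S h hQ this.1 this.2, S.fix y _ this.1⟩, fun e => ha.2 ?_⟩
  simpa [mul_assoc] using S.IK_conj' (S.IK_symm e) (inv_smul_eq_iff.2 h1.symm)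
    (inv_smul_eq_iff.2 h2.symm)

theorem Two.dich (h : S.Two) (hq : q = 4 ∨ q = 8) (hQ : Q = q) (hxy : x ≠ y) (ht : t ∈ S.IK x y)
    (hz : z * z = 1) (h1 : z • x = y) (h2 : z • y = x) :
    (∀ a ∈ S.AA h hQ hxy, Commute z a) ∨ (∀ a ∈ S.AA h hQ hxy, Commute (z * t) a) ∨
      ((S.IK x y).ncard = 9 ∧ ∀ a ∈ S.AA h hQ hxy, a ^ 3 = 1) := by
  by_contra hne
  simp only [not_or] at hne
  obtain ⟨n1, n2, n3⟩ := hne
  set A := S.AA h hQ hxy
  have zz : ∀ a, z * (z * a * z⁻¹) * z⁻¹ = a := fun a => by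
    rw [show z * (z * a * z⁻¹) * z⁻¹ = z * z * a * (z * z)⁻¹ by group, hz]; group
  have c1 : ∀ a ∈ A, a * (z * a * z⁻¹) ∈ A ⊓ Subgroup.centralizer {z} := fun a ha => by
    have := S.AA_conj h hQ hxy h1 h2 ha
    refine ⟨A.mul_mem ha this, mem_T.2 (commute_of_conj_eq ?_).symm⟩
    rw [show z * (a * (z * a * z⁻¹)) * z⁻¹ = z * a * z⁻¹ * (z * (z * a * z⁻¹) * z⁻¹) by group, zz,
      (S.AA_comm h hQ hxy ha this).eq]
  have c2 : ∀ a ∈ A, a * (z * a * z⁻¹)⁻¹ ∈ A ⊓ Subgroup.centralizer {z * t} := fun a ha => by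
    have := A.mul_mem ha (A.inv_mem (S.AA_conj h hQ hxy h1 h2 ha))
    refine ⟨this, mem_T.2 (commute_of_conj_eq ?_).symm⟩
    rw [show z * t * (a * (z * a * z⁻¹)⁻¹) * (z * t)⁻¹ =
      z * (t * (a * (z * a * z⁻¹)⁻¹) * t⁻¹) * z⁻¹ by group,
      (Two.invert S h hQ hxy ht this.1 this.2).1,
      show z * (a * (z * a * z⁻¹)⁻¹)⁻¹ * z⁻¹ = z * (z * a * z⁻¹) * z⁻¹ * (z * a * z⁻¹)⁻¹ by group, zz]
  have c3 : ∀ a ∈ A, a * (z * a * z⁻¹) * (a * (z * a * z⁻¹)⁻¹) = a * a := fun a ha => by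
    rw [mul_assoc, ← mul_assoc _ a, ← (S.AA_comm h hQ hxy ha (S.AA_conj h hQ hxy h1 h2 ha)).eq]
    group
  have odd : ∀ a ∈ A, Odd (orderOf a) := fun a ha => (Two.invert S h hQ hxy ht ha.1 ha.2).2
  have c4 : Nat.card A ≤ Nat.card ↥(A ⊓ Subgroup.centralizer {z}) *
      Nat.card ↥(A ⊓ Subgroup.centralizer {z * t}) := by
    rw [← Nat.card_prod]
    refine Nat.card_le_card_of_injective (fun a : A => (⟨⟨_, c1 a a.2⟩, ⟨_, c2 a a.2⟩⟩ :
      ↥(A ⊓ Subgroup.centralizer {z}) × ↥(A ⊓ Subgroup.centralizer {z * t}))) fun a b e => ?_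
    have e1 : (a : G) * a = b * b := by
      rw [← c3 a a.2, ← c3 b b.2]
      exact congrArg (fun p : ↥(A ⊓ Subgroup.centralizer {z}) ×
        ↥(A ⊓ Subgroup.centralizer {z * t}) => (p.1 : G) * p.2) e
    refine Subtype.ext (mul_inv_eq_one.1 (eq_one_of_odd (odd _ (A.mul_mem a.2 (A.inv_mem b.2))) ?_))
    rw [mul_assoc, ← mul_assoc (b : G)⁻¹, ← (S.AA_comm h hQ hxy a.2 (A.inv_mem b.2)).eq,
      ← mul_assoc, ← mul_assoc, e1]
    group
  have c5 : ∀ g, ¬ (∀ a ∈ A, Commute g a) → Nat.card ↥(A ⊓ Subgroup.centralizer {g}) ∣ Nat.card A ∧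
      Nat.card ↥(A ⊓ Subgroup.centralizer {g}) ≠ Nat.card A := fun g hg =>
    ⟨Subgroup.card_dvd_of_le inf_le_left, fun e => hg fun a ha => by
      rw [← Subgroup.eq_of_le_of_card_ge (inf_le_left : A ⊓ Subgroup.centralizer {g} ≤ _) e.ge] at ha
      exact (mem_T.1 ha.2).symm⟩
  obtain ⟨d1, d2⟩ := c5 z n1
  obtain ⟨d3, d4⟩ := c5 _ n2
  have d5 := Two.m_le S h hxy
  have d6 := Nat.odd_iff.1 (Two.odd_m S h hxy)
  rw [S.card_AA h hQ hxy] at d1 d2 d3 d4 c4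
  obtain ⟨e1, e2, e3⟩ : (S.IK x y).ncard = 9 ∧ Nat.card ↥(A ⊓ Subgroup.centralizer {z}) = 3 ∧
      Nat.card ↥(A ⊓ Subgroup.centralizer {z * t}) = 3 := by
    have d7 := Nat.le_of_dvd (by omega) d1
    have d8 := Nat.le_of_dvd (by omega) d3
    generalize Nat.card ↥(A ⊓ Subgroup.centralizer {z}) = i at *
    generalize Nat.card ↥(A ⊓ Subgroup.centralizer {z * t}) = j at *
    generalize (S.IK x y).ncard = m at *
    have : m ≤ 9 := by omega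
    interval_cases m <;> interval_cases i <;> interval_cases j <;> omega
  refine n3 ⟨e1, fun a ha => eq_one_of_odd (odd _ (A.pow_mem ha 3)) ?_⟩
  rw [← (Commute.refl a).mul_pow, ← c3 a ha,
    (S.AA_comm h hQ hxy (c1 a ha).1 (c2 a ha).1).mul_pow]
  have f1 := congrArg Subtype.val
    (pow_card_eq_one' (x := (⟨_, c1 a ha⟩ : ↥(A ⊓ Subgroup.centralizer {z}))))
  have f2 := congrArg Subtype.val
    (pow_card_eq_one' (x := (⟨_, c2 a ha⟩ : ↥(A ⊓ Subgroup.centralizer {z * t}))))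
  rw [e2] at f1
  rw [e3] at f2
  exact (congrArg₂ (· * ·) f1 f2).trans (one_mul 1)

omit [Finite G] [Finite Ω] in
theorem braid (ht : t * t = 1) (hu : u * u = 1) (e : (t * u) ^ 3 = 1) :
    t * u * t⁻¹ = u * t * u⁻¹ := by
  rw [inv_eq_of_mul_eq_one_right ht, inv_eq_of_mul_eq_one_right hu,
    ← mul_self_eq_iff (b := u * t * u) (by
      rw [show u * t * u * (u * t * u) = u * t * (u * u) * t * u by group, hu, mul_one,
        mul_assoc u, ht, mul_one, hu]), ← e]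
  simp [pow_succ, mul_assoc]

theorem Two.swap_cent (h : S.Two) (hq : q = 4 ∨ q = 8) (hQ : Q = q) (hxy : x ≠ y)
    (hm : (S.IK x y).ncard ≠ 1) (ht : t ∈ S.IK x y) (hw : t • w = w) (hz : z ∈ S.TT t w)
    (h1 : z • x = y) (h2 : z • y = x) :
    ∃ u ∈ S.TT t w, (u = z ∨ u = z * t) ∧ ∀ v ∈ S.IK x y, Commute u v := by
  have hI := S.closedI ht.1 hw
  have key : ∀ u ∈ S.TT t w, (∀ a ∈ S.AA h hQ hxy, Commute u a) → ∀ v ∈ S.IK x y, Commute u v :=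
    fun u hu e v hv => by
      have := (S.TT_comm hI hu).mul_right (e _ (S.mul_mem_AA h hQ hxy ht hv))
      rwa [← mul_assoc, ht.1.2.2, one_mul] at this
  rcases Two.dich S h hq hQ hxy ht (S.TT_I hI hz).2.2 h1 h2 with e | e | ⟨e1, e2⟩
  · exact ⟨z, hz, Or.inl rfl, key z hz e⟩
  · exact ⟨_, S.TT_mul hI hz, Or.inr rfl, key _ (S.TT_mul hI hz) e⟩
  exfalso
  obtain ⟨a, ha⟩ := S.exists_TT ht.1
  have L := S.loc x
  have aI := S.TT_I ht.1 ha
  have at' := S.TT_comm ht.1 ha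
  have n1 : x ≠ a • y := fun e => hxy (smul_left_cancel a ((S.fixI aI).trans e))
  have br : ∀ v ∈ S.IK x y, t * v * t⁻¹ = v * t * v⁻¹ := fun v hv =>
    braid ht.1.2.2 hv.1.2.2 (e2 _ (S.mul_mem_AA h hQ hxy ht hv))
  refine Two.nz S h hQ hxy hm ht ha (Set.eq_of_subset_of_ncard_le (fun v hv => ?_)
    (S.ncard_IK hxy n1).le (Set.toFinite _))
  by_contra hne
  have t1 : t ∈ S.IK x (a • y) := ⟨ht.1, comm_fix at' ht.2⟩
  have v1 : ¬ Commute t v := fun e => hne (Two.eq_of_comm S h n1 t1 hv e ▸ ht)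
  have v2 : t * v * t⁻¹ = v * t * v⁻¹ := by
    have := br _ (S.IK_conj' hv (inv_smul_eq_iff.2 (S.fixI aI).symm) (inv_smul_smul a y))
    rw [← conj_eq_of_commute at'.inv_left] at this
    apply (MulAut.conj a⁻¹).injective
    simpa [mul_assoc] using this
  have := L.ncard_le_of_nc (X := insert v (S.IK x y)) (by
    rintro _ (rfl | e); exacts [hv.1, e.1]) (by
    have key : ∀ u ∈ S.IK x y, Commute v u → v = u := fun u hu e =>
      L.uniq3 ht.1 hv.1 hu.1 v1 e v2 (br u hu)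
    rintro _ (rfl | e) _ (rfl | e') e''
    exacts [rfl, key _ e' e'', (key _ e e''.symm).symm, Two.eq_of_comm S h hxy e e' e''])
  rw [Set.ncard_insert_of_notMem hne (Set.toFinite _)] at this
  omega

theorem Two.lines (h : S.Two) (hQ : Q = q) (hxy : x ≠ y) (hm : (S.IK x y).ncard ≠ 1)
    (ht : t ∈ S.IK x y) : ∃ r : ℕ, (F Ω t).ncard - 1 = r * ((S.LL x y).ncard - 1) ∧ q ∣ r * 2 ∧
      (S.LL x y).ncard ≤ r ∧ (((S.IK x y).ncard).Prime →
        r * ((S.IK x y).ncard - 1) =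
          {u | ¬ Commute t u ∧ ∃ p, t • p = p ∧ p ≠ x ∧ u ∈ S.IK x p}.ncard) := by
  have l1 : ∀ {x y : Ω}, x ∈ S.LL x y := fun u hu => S.fixI hu.1
  have l2 : ∀ {x y : Ω}, y ∈ S.LL x y := fun u hu => hu.2
  have key : ∀ x' : Ω, t • x' = x' → (F Ω t).ncard - 1 =
      (S.IK x' '' (F Ω t \ {x'})).ncard * ((S.LL x y).ncard - 1) := fun x' hx' => by
    rw [← Set.ncard_sdiff_singleton_of_mem (show x' ∈ F Ω t from hx')]
    refine ncard_eq_fibers (Set.toFinite _) (S.IK x') (fun p hp => ⟨p, hp, rfl⟩) ?_ (Set.toFinite _)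
    rintro _ ⟨p, hp, rfl⟩
    rw [S.ncard_LL hxy (Ne.symm hp.2), ← Set.ncard_sdiff_singleton_of_mem (l1 (y := p))]
    congr 1; ext r
    exact ⟨fun ⟨h1, h2⟩ => ⟨fun u hu => (h2 ▸ hu : u ∈ S.IK x' r).2, h1.2⟩, fun ⟨h1, h2⟩ =>
      ⟨⟨h1 t ⟨S.closedI ht.1 hx', hp.1⟩, h2⟩, (S.IK_eq (Ne.symm hp.2) (Ne.symm h2) l1 h1).symm⟩⟩
  have cj : ∀ (g : G) (p : Ω), g • x = x →
      (fun u => g * u * g⁻¹) '' S.IK x p = S.IK x (g • p) := fun g p hg => by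
    ext u
    refine ⟨by rintro ⟨a, ha, rfl⟩; exact S.IK_conj' ha hg rfl, fun hu => ⟨g⁻¹ * u * g, ?_, by
      simp [mul_assoc]⟩⟩
    simpa using S.IK_conj' hu (inv_smul_eq_iff.2 hg.symm) (inv_smul_smul g p)
  have L := S.loc x
  refine ⟨_, key x (S.fixI ht.1), ?_, ?_, fun hp => ?_⟩
  · let := cjSet G
    refine (L.cardZ ht.1).symm.dvd.trans (card_dvd_mul (Ω := Set G) (Set.toFinite _) ?_ ?_)
    · rintro z hz _ ⟨p, hp, rfl⟩
      exact ⟨z • p, ⟨comm_fix (L.Z_comm ht.1 hz) hp.1, fun e => hp.2 (smul_left_cancel z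
        (e.trans (S.fixZ ht.1 hz).symm))⟩, (cj z p (S.fixZ ht.1 hz)).symm⟩
    · rintro _ ⟨p, hp, rfl⟩
      refine card_eq_two (b := t) ⟨L.self_mem ht.1, (cj t p (S.fixI ht.1)).trans (by rw [hp.1])⟩
        ht.1.2.1 fun z hz => ?_
      by_contra hne
      push Not at hne
      exact Two.nz S h hQ (Ne.symm hp.2) (S.ncard_IK hxy (Ne.symm hp.2) ▸ hm) ⟨ht.1, hp.1⟩
        ⟨hz.1, hne⟩ ((cj z p (S.fixZ ht.1 hz.1)).symm.trans hz.2)
  · obtain ⟨a, ha⟩ := S.exists_TT ht.1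
    have n1 : x ≠ a • y := fun e => hxy (smul_left_cancel a ((S.fixZ ht.1 ha.1).trans e))
    have n2 : a • y ∉ S.LL x y := fun e => Two.nz S h hQ hxy hm ht ha (S.IK_eq hxy n1 l1 e).symm
    have n3 := comm_fix (S.TT_comm ht.1 ha) ht.2
    have n4 : 1 < (S.LL x y).ncard := (Set.one_lt_ncard (Set.toFinite _)).2 ⟨x, l1, y, l2, hxy⟩
    rw [Nat.eq_of_mul_eq_mul_right (by omega) ((key x (S.fixI ht.1)).symm.trans (key _ n3))]
    refine Set.ncard_le_ncard_of_injOn (S.IK (a • y)) (fun p hp =>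
      ⟨p, ⟨hp t ht, fun e => n2 (e ▸ hp)⟩, rfl⟩) (fun p hp r hr e => ?_) (Set.toFinite _)
    by_contra hne
    refine n2 ?_
    change ∀ u ∈ S.IK x y, _
    rw [S.IK_eq hxy hne hp hr, ← S.IK_eq (x := a • y) (y := p) (fun e' => n2 (by rw [e']; exact hp))
      hne l2 (by rw [e]; exact l2)]
    exact l1
  · rw [← mul_one (Set.ncard {u | _ ∧ _})]
    refine double_count (Set.toFinite _) (Set.toFinite _) (fun X u => u ∈ X) ?_ ?_
    · rintro _ ⟨p, hp, rfl⟩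
      rw [S.ncard_IK hxy (Ne.symm hp.2), ← Set.ncard_sdiff_singleton_of_mem
        (show t ∈ S.IK x p from ⟨ht.1, hp.1⟩)]
      congr 1; ext u
      exact ⟨fun ⟨h1, h2⟩ => ⟨h2, fun e => h1.1 (by rw [e])⟩, fun ⟨h1, h2⟩ => ⟨⟨fun e => h2
        (Two.eq_of_comm S h (Ne.symm hp.2) ⟨ht.1, hp.1⟩ h1 e).symm, p, hp.1, hp.2, h1⟩, h1⟩⟩
    · rintro u ⟨u1, p, p1, p2, p3⟩
      refine Set.ncard_eq_one.2 ⟨S.IK x p, Set.eq_singleton_iff_unique_mem.2
        ⟨⟨⟨p, ⟨p1, p2⟩, rfl⟩, p3⟩, ?_⟩⟩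
      rintro _ ⟨⟨r, hr, rfl⟩, r1⟩
      have hxr : x ≠ r := Ne.symm hr.2
      have tr : t ∈ S.IK x r := ⟨ht.1, hr.1⟩
      refine S.IK_eq hxr p2.symm l1 fun v hv => ?_
      have : Fact (Nat.card (S.AA h hQ hxr)).Prime := ⟨by
        rw [S.card_AA, S.ncard_IK hxr hxy]; exact hp⟩
      obtain ⟨j, hj⟩ := mem_zpowers_of_prime_card (G := S.AA h hQ hxr) rfl
        (g := ⟨_, S.mul_mem_AA h hQ hxr tr r1⟩) (g' := ⟨_, S.mul_mem_AA h hQ hxr tr hv⟩)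
        fun e => u1 (by rw [(mul_self_eq_iff p3.1.2.2).1 (congrArg Subtype.val e)])
      have e1 : (t * u) ^ j = t * v := congrArg Subtype.val hj
      have e2 : t * v ∈ stabilizer G p :=
        e1 ▸ Subgroup.zpow_mem _ (Subgroup.mul_mem _ p1 p3.2) j
      exact ((stabilizer G p).mul_mem_cancel_left p1).1 e2

end St

end Cfsg.Agent.Bd
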