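import Cfsg.Agent.Lib.Bd.CI
import Cfsg.Agent.Lib.Bd.TwoB
import Cfsg.Agent.Lib.Bd.TwoE

/-!
# The case `Z ≤ G_y`: the non-affine case
-/

set_option autoImplicit false

namespace Cfsg.Agent.Bd

open MulAction Cfsg.Agent.AIC

variable {G Ω : Type*} [Group G] [MulAction G Ω] {q Q : ℕ}

theorem card_le_comm [Finite G] {A : Subgroup G} {u : G} {W : Set G}
    (h : ∀ s ∈ A, s * u * s⁻¹ * u⁻¹ ∈ W) :
    Nat.card A ≤ W.ncard * Nat.card ↥(A ⊓ Subgroup.centralizer {u}) := by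
  rw [card_eq_cls_mul A u]
  refine Nat.mul_le_mul_right _ (Set.ncard_le_ncard_of_injOn (fun a => a * u⁻¹) ?_
    (fun a _ b _ e => by simpa using e) (Set.toFinite _))
  rintro _ ⟨s, hs, rfl⟩
  exact h s hs

namespace St

variable (S : St G Ω q Q) {x y w p r x' y' : Ω} {g t u v b n z a c s k : G}

variable [Finite G] [Finite Ω]

theorem Full.cent_of (h : S.Full) (ht : t ∈ I (S.N x)) (hu : u ∈ I (S.N p)) (e : Commute u t)
    (hp : t • p ≠ p) (hs : s ∈ SS (S.N x) t) (h1 : u • s • p = s • p) : Commute s u :=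
  Full.AA_comm S h ht hu e hp hs h1 ((S.loc p).Z_le_S hu ((S.loc p).self_mem hu))
    (comm_fix e (S.fixI ht))

theorem Full.exists_not_comm (h : S.Full) (ht : t ∈ I (S.N x)) (hk : (F Ω t).ncard ≠ Q)
    (hu : u ∈ I (S.N p)) (hp : t • p ≠ p) : ∃ s ∈ SS (S.N x) t, ¬ Commute s u := by
  by_contra hne
  push Not at hne
  have := card_le_of_semireg (H := SS (S.N x) t) (X := F Ω u) (Set.toFinite _) (x := p)
    (fun s hs => comm_fix (hne s hs) (S.fixI hu)) fun s hs => Full.semi S h ht hs hp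
  rw [(S.loc x).cardS ht, S.ncard_F hu ht] at this
  exact hk (le_antisymm (Nat.le_of_dvd (by have := (S.loc x).four_leQ; omega)
    (Full.k_dvd S h ht)) this)

theorem Full.comm_mem (h : S.Full) (ht : t ∈ I (S.N x)) (hu : u * u = 1) (e : Commute u t)
    (hz : z ∈ ZZ (S.N x) t) : z * u * z⁻¹ * u⁻¹ ∈ ZZ (S.N x) t ⊓ Subgroup.centralizer {u} := by
  have h1 := Full.nmZ S h ht e _ ((ZZ _ _).inv_mem hz)
  refine ⟨by simpa [mul_assoc] using (ZZ _ _).mul_mem hz h1, mem_T.2 (commute_of_conj_eq ?_).symm⟩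
  have h2 := ((S.loc x).ZZ_comm ht hz h1).eq
  have h3 := inv_eq_of_mul_eq_one_right ((S.loc x).Z_sq ht hz)
  rw [h3] at h2 ⊢
  calc _ = u * z * u⁻¹ * (u * u * z * (u * u)⁻¹) := by group
    _ = _ := by rw [hu, one_mul, inv_one, mul_one, ← h2]; group

theorem Full.typeB (h : S.Full) (ht : t ∈ I (S.N x)) (hu : u ∈ I (S.N p)) (e : Commute u t)
    (hp : t • p ≠ p) (hz : z ∈ ZZ (S.N x) t) (h1 : ¬ Commute z u) :
    Nat.card ↥(ZZ (S.N x) t ⊓ Subgroup.centralizer {u}) ^ 2 = q := by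
  have L := S.loc x
  have key : ∀ {v s : G}, s ∈ ZZ (S.N x) t → s ≠ 1 → v * v = 1 → Commute v s →
      q ≤ Nat.card ↥(ZZ (S.N x) t ⊓ Subgroup.centralizer {v}) ^ 2 := fun {v s} hs s1 hv e => by
    have sI := L.Z_I ht hs s1
    rw [← L.Z_eq sI ht (L.Z_comm ht hs)]
    have := card_le_comm (W := ↑(ZZ (S.N x) s ⊓ Subgroup.centralizer {v}))
      fun z hz => Full.comm_mem S h sI hv e hz
    rwa [ncard_sub, L.cardZ sI, ← sq] at this
  have z1 : z ≠ 1 := fun e' => h1 (by rw [e']; simp)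
  have zI := L.Z_I ht hz z1
  have zp : z • p ≠ p := fun e' => hp ((Full.iff S h zI ht (L.Z_comm ht hz) p).1 e')
  obtain ⟨v, hv, e1⟩ := Full.exists_perp S h zI zp
  have h2 := key (L.self_mem ht) ht.2.1 hu.2.2 e
  have h3 := key hz z1 hv.2.2 e1
  have h4 := card_mul_le_of_inf (Z := ZZ (S.N x) t)
    (A := ZZ (S.N x) t ⊓ Subgroup.centralizer {u}) (B := ZZ (S.N x) t ⊓ Subgroup.centralizer {v})
    inf_le_left inf_le_left fun a ha hb => by
      by_contra a1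
      have a2 : a • p ≠ p := fun e' => a1 (Full.semi S h ht (L.Z_le_S ht ha.1) hp e')
      exact h1 (Full.cent_of S h ht hu e hp (L.Z_le_S ht hz) ((Full.line S h hu hv a2.symm
        (S.fixI hu) (comm_fix (mem_T.1 ha.2) (S.fixI hu)) (S.fixI hv)
        (comm_fix (mem_T.1 hb.2) (S.fixI hv)) _).2 (comm_fix e1.symm (S.fixI hv))))
  rw [L.cardZ ht] at h4
  generalize Nat.card ↥(ZZ (S.N x) t ⊓ Subgroup.centralizer {u}) = i at *
  generalize Nat.card ↥(ZZ (S.N x) t ⊓ Subgroup.centralizer {v}) = j at *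
  have : i ≤ j := by
    by_contra h5
    have : j * j < i * j := Nat.mul_lt_mul_of_pos_right (by omega) (by
      have := L.four_le
      rcases j with _ | j <;> omega)
    nlinarith
  nlinarith

theorem exists_not_fix (ht : t ∈ I (S.N x)) : ∃ p : Ω, t • p ≠ p := by
  by_contra hne
  push Not at hne
  exact ht.2.1 (S.faith t hne)

theorem Full.six (h : S.Full) (hQ : Q = q) (ht : t ∈ I (S.N x)) (hk : (F Ω t).ncard ≠ Q) :
    q = 4 ∧ Nat.card Ω = 6 := by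
  have L := S.loc x
  obtain ⟨p, hp⟩ := S.exists_not_fix ht
  obtain ⟨u, hu, e⟩ := Full.exists_perp S h ht hp
  have L' := S.loc p
  have hx : u • x ≠ x := fun e' => Full.disj S h ht hu e hp e' (S.fixI ht)
  obtain ⟨z, hz, z1⟩ := Full.exists_not_comm S h ht hk hu hp
  obtain ⟨z', hz', z1'⟩ := Full.exists_not_comm S h hu (S.ncard_F hu ht ▸ hk) ht hx
  rw [L.S_eq_Z ht hQ] at hz
  rw [L'.S_eq_Z hu hQ] at hz'
  have b1 := Full.typeB S h ht hu e hp hz z1
  have b2 := Full.typeB S h hu ht e.symm hx hz' z1'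
  set T' := ZZ (S.N p) u ⊓ Subgroup.centralizer {t}
  have nm : ∀ a ∈ T', Nm (ZZ (S.N x) t) a := fun a ha => Full.nmZ S h ht (mem_T.1 ha.2)
  let Y : Subgroup G :=
    { carrier := {g | ∃ z ∈ ZZ (S.N x) t, ∃ a ∈ T', g = z * a}
      one_mem' := ⟨1, Subgroup.one_mem _, 1, Subgroup.one_mem _, by simp⟩
      mul_mem' := by
        rintro _ _ ⟨z, hz, a, ha, rfl⟩ ⟨w, hw, b, hb, rfl⟩
        exact ⟨_, (ZZ _ _).mul_mem hz (nm a ha w hw), _, T'.mul_mem ha hb, by group⟩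
      inv_mem' := by
        rintro _ ⟨z, hz, a, ha, rfl⟩
        exact ⟨_, nm _ (T'.inv_mem ha) _ ((ZZ _ _).inv_mem hz), _, T'.inv_mem ha, by group⟩ }
  have c1 : Nat.card Y = q * Nat.card T' := by
    rw [← L.cardZ ht]
    refine le_antisymm ?_ (card_mul_le_of_inf (fun z hz => ⟨z, hz, 1, T'.one_mem, by simp⟩)
      (fun a ha => ⟨1, Subgroup.one_mem _, a, ha, by simp⟩) fun a ha hb =>
        Full.semi S h ht (L.Z_le_S ht ha) hp (S.fixZ hu hb.1))
    rw [← Nat.card_prod]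
    refine Nat.card_le_card_of_surjective (fun r : ZZ (S.N x) t × T' =>
      (⟨r.1 * r.2, r.1, r.1.2, r.2, r.2.2, rfl⟩ : Y)) ?_
    rintro ⟨_, z, hz, a, ha, rfl⟩
    exact ⟨(⟨z, hz⟩, ⟨a, ha⟩), rfl⟩
  set U : Set Ω := {w | ∃ z ∈ ZZ (S.N x) t, u • z • w = z • w}
  have U1 : U ⊆ (F Ω t)ᶜ := by
    rintro w ⟨z, hz, e1⟩ hw
    exact Full.disj S h ht hu e hp e1 (comm_fix (L.Z_comm ht hz) hw)
  have c2 : q * (F Ω t).ncard = U.ncard * Nat.card ↥(ZZ (S.N x) t ⊓ Subgroup.centralizer {u}) := by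
    refine (congrArg (· * _) (L.cardZ ht).symm).trans ?_
    rw [← ncard_sub, S.ncard_F ht hu]
    refine double_count (Set.toFinite _) (Set.toFinite _) (fun z w => u • z • w = z • w)
      (fun z hz => ?_) ?_
    · rw [← ncard_F_conj z⁻¹]
      congr 1; ext w
      rw [mem_F, conj_fix', inv_inv]
      exact ⟨fun hw => hw.2, fun hw => ⟨⟨z, hz, hw⟩, hw⟩⟩
    · rintro w ⟨z, hz, e1⟩
      rw [← ncard_sub, ← Set.ncard_image_of_injective
        (↑(ZZ (S.N x) t ⊓ Subgroup.centralizer {u}) : Set G) (mul_left_injective z)]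
      congr 1; ext a
      refine ⟨fun ⟨h1, h2⟩ => ⟨a * z⁻¹, ⟨(ZZ _ _).mul_mem h1 ((ZZ _ _).inv_mem hz), mem_T.2
        (Full.cent_of S h ht (S.closedI hu e1) e (Full.disj S h ht hu e hp e1)
          (L.Z_le_S ht ((ZZ _ _).mul_mem h1 ((ZZ _ _).inv_mem hz))) (by
            rwa [mul_smul, inv_smul_smul]))⟩, by simp⟩, ?_⟩
      rintro ⟨b, hb, rfl⟩
      exact ⟨(ZZ _ _).mul_mem hb.1 hz, by
        simpa only [mul_smul] using comm_fix (mem_T.1 hb.2) e1⟩
  have fx : ∀ a ∈ T', ∀ w : Ω, u • w = w → a • w = w := fun a ha w hw =>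
    h p w u hu hw a ha.1
  have c3 := card_dvd_of_semireg (H := Y) (X := (F Ω t)ᶜ \ U) (Set.toFinite _) (by
    rintro _ ⟨z, hz, a, ha, rfl⟩ w ⟨hw, hw'⟩
    refine ⟨fun e1 => hw ?_, fun ⟨b, hb, e1⟩ => hw' ⟨_, nm _ (T'.inv_mem ha) _
      ((ZZ _ _).mul_mem hb hz), ?_⟩⟩
    · have := comm_fix ((L.Z_comm ht hz).mul_left (mem_T.1 ha.2)).inv_left e1
      rwa [inv_smul_smul] at this
    · have := fx _ (T'.inv_mem ha) _ e1
      simp only [mul_smul, inv_inv] at this e1 ⊢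
      rw [this, e1]) (by
    rintro _ ⟨z, hz, a, ha, rfl⟩ w ⟨hw, hw'⟩ e1
    by_cases a1 : a = 1
    · rw [a1, mul_one] at e1 ⊢
      exact Full.semi S h ht (L.Z_le_S ht hz) hw e1
    exfalso
    have aI := L'.Z_I hu ha.1 a1
    have a2 := mem_T.1 ha.2
    have a3 := Full.semi S h ht (L.Z_le_S ht (Full.comm_mem S h ht aI.2.2 a2 hz).1) hw (by
      rw [inv_eq_of_mul_eq_one_right aI.2.2, inv_eq_of_mul_eq_one_right (L.Z_sq ht hz), mul_assoc,
        mul_smul, e1, e1])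
    have a4 : ZZ (S.N x) t ⊓ Subgroup.centralizer {a} = ZZ (S.N x) t ⊓ Subgroup.centralizer {u} := by
      have iff := Full.iff S h aI hu (L'.Z_comm hu ha.1)
      refine le_antisymm (fun s hs => ⟨hs.1, mem_T.2 (Full.cent_of S h ht hu e hp (L.Z_le_S ht hs.1)
        ((iff _).1 (comm_fix (mem_T.1 hs.2) (S.fixI aI))))⟩) fun s hs => ⟨hs.1, mem_T.2
          (Full.cent_of S h ht aI a2 hp (L.Z_le_S ht hs.1)
            ((iff _).2 (comm_fix (mem_T.1 hs.2) (S.fixI hu))))⟩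
    obtain ⟨b, hb, b3⟩ : ∃ b ∈ ZZ (S.N x) t, b * a * b⁻¹ * a⁻¹ = z := by
      by_contra hne
      push Not at hne
      have zT : z ∈ (↑(ZZ (S.N x) t ⊓ Subgroup.centralizer {a}) : Set G) :=
        ⟨hz, mem_T.2 (commute_of_conj_eq (mul_inv_eq_one.1 a3))⟩
      have := card_le_comm (W := ↑(ZZ (S.N x) t ⊓ Subgroup.centralizer {a}) \ {z})
        fun s hs => ⟨Full.comm_mem S h ht aI.2.2 a2 hs, hne s hs⟩
      rw [Set.ncard_sdiff_singleton_of_mem zT, ncard_sub, a4, L.cardZ ht] at this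
      have h0 : 0 < Nat.card ↥(ZZ (S.N x) t ⊓ Subgroup.centralizer {u}) := Nat.card_pos
      generalize Nat.card ↥(ZZ (S.N x) t ⊓ Subgroup.centralizer {u}) = i at *
      obtain ⟨i, rfl⟩ : ∃ j, i = j + 1 := ⟨i - 1, by omega⟩
      simp only [Nat.add_sub_cancel] at this
      nlinarith
    rw [← b3, inv_mul_cancel_right, conj_fix'] at e1
    exact hw' ⟨_, (ZZ _ _).inv_mem hb, (Full.iff S h aI hu (L'.Z_comm hu ha.1) _).1 e1⟩)
  rw [c1, Set.ncard_sdiff U1 (Set.toFinite _), Full.ncard_compl S h ht, hQ] at c3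
  have c4 := Set.ncard_le_ncard U1 (Set.toFinite _)
  rw [Full.ncard_compl S h ht, hQ] at c4
  have c5 := Full.card_v S h ht
  obtain ⟨c, hc⟩ := Full.k_pow S h ht
  obtain ⟨j, hj⟩ := ((L.isPGroup_Z ht).to_le
    (inf_le_left : ZZ (S.N x) t ⊓ Subgroup.centralizer {u} ≤ _)).exists_card_eq
  have c6 : Nat.card T' = 2 ^ j := by
    rw [← hj]; exact (Nat.pow_left_injective two_ne_zero (b2.trans b1.symm))
  have c7 := L.four_le
  rw [c6] at c3
  rw [hj] at b1 c2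
  generalize U.ncard = μ at *
  generalize (F Ω t).ncard = κ at *
  have r0 : 0 < 2 ^ j := by positivity
  have k0 : 0 < 2 ^ c := by positivity
  obtain rfl : μ = 2 ^ j * κ := Nat.eq_of_mul_eq_mul_right r0 (by rw [← c2, ← b1]; ring)
  have d1 : 2 ^ j * 2 ^ j ∣ 2 ^ j * (κ - 1) - κ := by
    refine Nat.dvd_of_mul_dvd_mul_left r0 ?_
    rw [Nat.mul_sub, ← mul_assoc, ← mul_assoc, ← sq, b1]
    exact c3
  have d2 : κ ≤ 2 ^ j * (κ - 1) := Nat.le_of_mul_le_mul_left (by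
    rw [← mul_assoc, ← sq, b1]; exact c4) r0
  obtain ⟨i, rfl⟩ : 2 ^ j ∣ κ :=
    (Nat.dvd_sub_iff_right d2 (dvd_mul_right _ _)).1 ((dvd_mul_right _ _).trans d1)
  rw [← Nat.mul_sub] at d1
  have d3 := Nat.dvd_of_mul_dvd_mul_left r0 d1
  have d4 := Nat.le_of_mul_le_mul_left d2 r0
  have d5 : 2 ^ j ∣ i + 1 := by
    have : 2 ^ j * i - 1 - i = 2 ^ j * i - (i + 1) := by omega
    rw [this] at d3
    exact (Nat.dvd_sub_iff_right (by rw [pow_succ] at hc; omega) (dvd_mul_right _ _)).1 d3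
  obtain ⟨l, -, rfl⟩ := (Nat.dvd_prime_pow Nat.prime_two).1 (hc ▸ dvd_mul_left i (2 ^ j))
  rcases j with _ | j
  · omega
  rcases l with _ | l
  · have := Nat.le_of_dvd (by norm_num) d5
    obtain rfl : j = 0 := by
      rcases j with _ | j
      · rfl
      · rw [pow_succ, pow_succ] at this r0; omega
    omega
  · have := (dvd_pow_self 2 (Nat.succ_ne_zero j)).trans d5
    rw [pow_succ] at this
    omega

end St

end Cfsg.Agent.Bd
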