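import Cfsg.Agent.Lib.Bd.CIB

/-!
# The case `Z ≤ G_y`: the non-affine case with nonabelian Sylow subgroups does not occur
-/

set_option autoImplicit false

namespace Cfsg.Agent.Bd

open MulAction Cfsg.Agent.AIC

variable {G Ω : Type*} [Group G] [MulAction G Ω] {q Q : ℕ}

theorem Loc.tr_of_ce {M : Subgroup G} (L : Loc M q Q) {t g : G} (ht : t ∈ I M) (hQ : Q = q ^ 2)
    (hg : Nm (SS M t) g) (hc : Ce (ZZ M t) g) : Tr M t g := fun s hs =>
  L.sqinj ht hQ (hg s hs) hs (by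
    rw [show g * s * g⁻¹ * (g * s * g⁻¹) = g * (s * s) * g⁻¹ by group,
      conj_eq_of_commute (hc _ (L.sq_mem ht hs))])

namespace St

variable (S : St G Ω q Q) {x y w p r x' y' : Ω} {g t u v b n z a c s k : G}

variable [Finite G] [Finite Ω]

theorem Full.typeA (h : S.Full) (hQ : Q ≠ q) (ht : t ∈ I (S.N x)) (hu : u ∈ I (S.N p))
    (e : Commute u t) (hp : t • p ≠ p) : Ce (ZZ (S.N x) t) u := fun z hz => by
  by_contra hne
  rcases (S.loc x).kind with a | ⟨-, a⟩ | a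
  · exact hQ a
  · exact a ⟨_, by rw [← sq, Full.typeB S h ht hu e hp hz fun e' => hne e'.symm]⟩
  · exact hne ((S.loc x).su1 ht a (Full.nmS S h ht e) hu.2.2 z hz)

theorem Full.bounds (h : S.Full) (hQ : Q ≠ q) (ht : t ∈ I (S.N x)) (hk : (F Ω t).ncard ≠ Q)
    (hu : u ∈ I (S.N p)) (e : Commute u t) (hp : t • p ≠ p) :
    Q ≤ q * Nat.card ↥(SS (S.N x) t ⊓ Subgroup.centralizer {u}) ∧
    Nat.card ↥(SS (S.N p) u ⊓ Subgroup.centralizer {t}) ≤ q + q ∧
    (Q = q ^ 2 → Nat.card ↥(SS (S.N p) u ⊓ Subgroup.centralizer {t}) ≤ q) := by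
  have L := S.loc x
  have L' := S.loc p
  have hx : u • x ≠ x := fun e' => Full.disj S h ht hu e hp e' (S.fixI ht)
  set A := SS (S.N p) u ⊓ Subgroup.centralizer {t}
  have a1 : ∀ a ∈ A, Nm (SS (S.N x) t) a := fun a ha => Full.nmS S h ht (mem_T.1 ha.2)
  have a2 : ∀ a ∈ A, Ce (ZZ (S.N x) t) a := fun a ha z hz =>
    (Full.AA_comm S h ht hu e hp (L.Z_le_S ht hz)
      (comm_fix (Full.typeA S h hQ ht hu e hp z hz).symm (S.fixI hu)) ha.1
      (comm_fix (mem_T.1 ha.2) (S.fixI ht))).symm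
  have a3 : ∀ a ∈ A, ∀ b ∈ A, Tr (S.N x) t a ∨ Tr (S.N x) t b ∨ Tr (S.N x) t (a * b) :=
    fun a ha b hb => L.su2 ht hQ (a1 a ha) (a1 b hb) (a2 a ha) (a2 b hb) (L'.S_four hu ha.1)
      (L'.S_four hu hb.1) (L'.S_four hu (A.mul_mem ha hb).1)
  have a4 : ∀ a ∈ A, a ≠ 1 → ∀ s ∈ SS (S.N x) t, Commute s a → Commute s u := fun a ha a0 s hs e1 =>
    Full.cent_of S h ht hu e hp hs (by
      by_contra hne
      exact a0 (Full.semi S h hu ha.1 hne (comm_fix e1 (S.fixS hu ha.1))))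
  have a5 : ∀ z ∈ ZZ (S.N p) u, z ∈ A := fun z hz =>
    ⟨L'.Z_le_S hu hz, mem_T.2 (Full.typeA S h hQ hu ht e.symm hx z hz).symm⟩
  have a6 : {a | a ∈ A ∧ Tr (S.N x) t a}.ncard ≤ q := by
    obtain ⟨s, hs, s1⟩ := Full.exists_not_comm S h ht hk hu hp
    refine le_trans ?_ (L.cardZ ht).le
    rw [← ncard_sub]
    refine Set.ncard_le_ncard_of_injOn (fun a => a * s * a⁻¹ * s⁻¹) (fun a ha => ha.2 s hs)
      (fun a ha b hb e1 => ?_) (Set.toFinite _)
    by_contra hne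
    refine s1 (a4 _ (A.mul_mem (A.inv_mem hb.1) ha.1) (fun e2 => hne (inv_mul_eq_one.1 e2).symm) s hs
      (commute_of_conj_eq ?_).symm)
    have e2 : a * s * a⁻¹ = b * s * b⁻¹ := mul_right_cancel e1
    rw [show b⁻¹ * a * s * (b⁻¹ * a)⁻¹ = b⁻¹ * (a * s * a⁻¹) * b by group, e2]; group
  refine ⟨?_, ?_, fun hQ2 => ?_⟩
  · obtain ⟨a, ha, a0, a7⟩ : ∃ a ∈ A, a ≠ 1 ∧ Tr (S.N x) t a := by
      obtain ⟨z, hz, z1, z2, -⟩ := L'.exists_Z_ne hu 1 u u
      rcases a3 z (a5 z hz) u (a5 u (L'.self_mem hu)) with b | b | b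
      · exact ⟨z, a5 z hz, z1, b⟩
      · exact ⟨u, a5 u (L'.self_mem hu), hu.2.1, b⟩
      · exact ⟨_, A.mul_mem (a5 z hz) (a5 u (L'.self_mem hu)),
          fun e' => z2 ((mul_self_eq_iff hu.2.2).1 e'), b⟩
    have := card_le_comm (A := SS (S.N x) t) (u := a) (W := ZZ (S.N x) t) fun s hs => by
      have h1 := a7 _ ((SS _ _).inv_mem hs)
      have h2 := conj_eq_of_commute (L.comm ht h1 hs)
      rw [← h2] at h1
      simpa [mul_assoc] using h1
    rw [L.cardS ht, ncard_sub, L.cardZ ht] at this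
    exact this.trans (Nat.mul_le_mul_left _ (Subgroup.card_le_of_le fun s hs =>
      ⟨hs.1, mem_T.2 (a4 a ha a0 s hs.1 (mem_T.1 hs.2))⟩))
  · rw [← ncard_sub]
    by_cases h1 : ∀ a ∈ A, Tr (S.N x) t a
    · refine le_trans (Set.ncard_le_ncard ?_ (Set.toFinite _)) (a6.trans (Nat.le_add_right _ _))
      exact fun a ha => ⟨ha, h1 a ha⟩
    push Not at h1
    obtain ⟨a, ha, h1⟩ := h1
    refine (Set.ncard_le_ncard (t := {a | a ∈ A ∧ Tr (S.N x) t a} ∪
      (fun b => a⁻¹ * b) '' {a | a ∈ A ∧ Tr (S.N x) t a}) (fun b hb => ?_) (Set.toFinite _)).trans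
      ((Set.ncard_union_le _ _).trans
        (Nat.add_le_add a6 ((Set.ncard_image_le (Set.toFinite _)).trans a6)))
    rcases (a3 a ha b hb).resolve_left h1 with h2 | h2
    · exact Or.inl ⟨hb, h2⟩
    · exact Or.inr ⟨a * b, ⟨A.mul_mem ha hb, h2⟩, by simp⟩
  · rw [← ncard_sub]
    refine le_trans (Set.ncard_le_ncard ?_ (Set.toFinite _)) a6
    exact fun a ha => ⟨ha, L.tr_of_ce ht hQ2 (a1 a ha) (a2 a ha)⟩

theorem Full.Q_eq (h : S.Full) (ht : t ∈ I (S.N x)) (hk : (F Ω t).ncard ≠ Q) : Q = q := by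
  by_contra hQ
  have L := S.loc x
  have q4 := L.four_le
  obtain ⟨hQ2, hsq⟩ : Q = q ^ 2 ∧ ¬ IsSquare q := by
    refine ((L.kind.resolve_left hQ).resolve_right fun e3 => ?_)
    obtain ⟨p, hp⟩ := S.exists_not_fix ht
    obtain ⟨u, hu, e⟩ := Full.exists_perp S h ht hp
    have h1 := (Full.bounds S h hQ ht hk hu e hp).2.1
    have h2 := (Full.bounds S h hQ hu (S.ncard_F hu ht ▸ hk) ht e.symm
      fun e' => Full.disj S h ht hu e hp e' (S.fixI ht)).1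
    have h3 := h2.trans (Nat.mul_le_mul_left q h1)
    rw [e3] at h3
    nlinarith
  have q8 : 8 ≤ q := by
    have := L.four_dvd
    have : q ≠ 4 := fun e => hsq ⟨2, e⟩
    omega
  set M := {u | u ∈ S.D ∧ Commute u t ∧ u • x ≠ x}
  have m1 : ∀ u ∈ M, ∃ p, u ∈ I (S.N p) ∧ t • p ≠ p := by
    rintro u ⟨⟨p, hu⟩, e, e1⟩
    exact ⟨p, hu, fun e2 => Full.disj S h hu ht e.symm e1 e2 (S.fixI hu)⟩
  have m2 : ∀ u ∈ M, Ce (ZZ (S.N x) t) u := fun u hu => by
    obtain ⟨p, h1, h2⟩ := m1 u hu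
    exact Full.typeA S h hQ ht h1 hu.2.1 h2
  have m3 : ∀ u ∈ M, SS (S.N x) t ⊓ Subgroup.centralizer {u} = ZZ (S.N x) t := fun u hu => by
    obtain ⟨p, h1, h2⟩ := m1 u hu
    symm
    exact Subgroup.eq_of_le_of_card_ge (fun z hz => ⟨L.Z_le_S ht hz, mem_T.2 (m2 u hu z hz).symm⟩)
      (((Full.bounds S h hQ h1 (S.ncard_F h1 ht ▸ hk) ht hu.2.1.symm hu.2.2).2.2 hQ2).trans
        (L.cardZ ht).ge)
  have m4 : ∀ g : G, g • x = x → Commute (g * t * g⁻¹) t → ∀ u ∈ M, g * u * g⁻¹ ∈ M := by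
    intro g g1 g2 u hu
    have g3 := (S.nm g1).inv
    refine ⟨hu.1.elim fun p hp => ⟨_, S.conjI g hp⟩, ?_, fun e => hu.2.2 (by
      rwa [← g1, conj_fix] at e)⟩
    have := m2 u hu _ (L.nmZ ht g3 (by
      rw [← commute_conj_iff g]; simpa [mul_assoc] using g2.symm) t (L.self_mem ht))
    rw [← commute_conj_iff g] at this
    simpa [mul_assoc] using this
  have c1 : M.ncard * (F Ω t).ncard = Q * ((F Ω t).ncard - 1) * (q - 1) := by
    rw [← Full.ncard_compl S h ht]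
    refine double_count (Set.toFinite _) (Set.toFinite _) (fun u p => u • p = p)
      (fun u hu => ?_) fun p hp => ?_
    · obtain ⟨p, h1, h2⟩ := m1 u hu
      rw [S.ncard_F ht h1]
      congr 1; ext w
      exact ⟨fun hw => hw.2, fun hw => ⟨Full.disj S h ht h1 hu.2.1 h2 hw, hw⟩⟩
    · obtain ⟨u, hu, e⟩ := Full.exists_perp S h ht hp
      have hx : u • x ≠ x := fun e' => Full.disj S h ht hu e hp e' (S.fixI ht)
      have uK : u ∈ S.IK p (t • p) := ⟨hu, comm_fix e.symm (S.fixI hu)⟩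
      rw [← Full.ncard_IK S h (Ne.symm hp)]
      congr 1; ext v
      refine ⟨fun ⟨⟨⟨_, h1⟩, h2, _⟩, h3⟩ => ⟨S.closedI h1 h3, comm_fix h2.symm h3⟩, fun hv => ?_⟩
      have h1 := (Full.typeA S h hQ hu ht e.symm hx v
        ((S.loc p).memZ' hu hv.1 (Full.comm S h (Ne.symm hp) hv uK))).symm
      exact ⟨⟨⟨p, hv.1⟩, h1, fun e' => Full.disj S h ht hv.1 h1 hp e' (S.fixI ht)⟩, S.fixI hv.1⟩
  have k2 := S.two_le_k ht
  obtain ⟨y, hy, hxy⟩ := Set.exists_ne_of_one_lt_ncard k2 x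
  have c2 : M.ncard = ((F Ω t).ncard - 1) * {u ∈ M | u • x = y}.ncard := by
    rw [← Set.ncard_sdiff_singleton_of_mem (show x ∈ F Ω t from S.fixI ht)]
    have key : ∀ y y' : Ω, y ∈ F Ω t \ {x} → y' ∈ F Ω t \ {x} →
        {u ∈ M | u • x = y}.ncard ≤ {u ∈ M | u • x = y'}.ncard := fun y y' h1 h2 => by
      obtain ⟨g, g1, g2, g3, -⟩ := S.exists_map (Ne.symm h1.2) (Ne.symm h2.2) ht ht h1.1 h2.1
      refine Set.ncard_le_ncard_of_injOn (fun u => g * u * g⁻¹) (fun u hu => ⟨m4 g g1 g3 u hu.1, ?_⟩)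
        (fun a _ b _ e => by simpa using e) (Set.toFinite _)
      rw [mul_smul, mul_smul, inv_smul_eq_iff.2 g1.symm, hu.2, g2]
    exact ncard_eq_fibers (Set.toFinite _) (· • x)
      (fun u hu => ⟨comm_fix hu.2.1 (S.fixI ht), hu.2.2⟩)
      (fun p hp => le_antisymm (key _ _ hp ⟨hy, hxy⟩) (key _ _ ⟨hy, hxy⟩ hp)) (Set.toFinite _)
  have c3 : Q ∣ {u ∈ M | u • x = y}.ncard * q := by
    let := cjAct G
    refine (L.cardS ht).symm.dvd.trans (card_dvd_mul (Ω := G) (Set.toFinite _) ?_ fun u hu => ?_)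
    · intro s hs u hu
      refine ⟨m4 s (S.fixS ht hs) (by rw [conj_eq_of_commute (L.S_comm ht hs)]) u hu.1, ?_⟩
      change (s * u * s⁻¹) • x = y
      rw [mul_smul, mul_smul, inv_smul_eq_iff.2 (S.fixS ht hs).symm, hu.2, Full.S_fix S h ht hs hy]
    · refine Eq.trans ?_ ((congrArg (fun H : Subgroup G => Nat.card H) (m3 u hu.1)).trans (L.cardZ ht))
      congr 4; ext s
      exact ⟨fun e => ⟨e.1, mem_T.2 (commute_of_conj_eq e.2)⟩,
        fun e => ⟨e.1, conj_eq_of_commute (mem_T.1 e.2)⟩⟩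
  obtain ⟨c, hc⟩ := Full.k_pow S h ht
  have c4 : q * (q - 1) ≤ {u ∈ M | u • x = y}.ncard := by
    rw [c2, mul_assoc, mul_comm Q, mul_assoc] at c1
    have d1 := Nat.eq_of_mul_eq_mul_left (by omega) c1
    rw [hQ2, sq] at c3 d1
    obtain ⟨φ, hφ⟩ := Nat.dvd_of_mul_dvd_mul_right (by omega) c3
    rw [hφ, mul_assoc, mul_assoc] at d1
    have d2 := Nat.eq_of_mul_eq_mul_left (by omega) d1
    have d3 : q - 1 ∣ φ := Nat.Coprime.dvd_of_dvd_mul_right (n := (F Ω t).ncard) (by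
      rw [hc]
      refine Nat.Coprime.pow_right _ (Nat.coprime_two_right.2 (Nat.odd_iff.2 ?_))
      have := L.four_dvd
      omega) (d2 ▸ dvd_mul_left _ _)
    rw [hφ]
    refine Nat.mul_le_mul_left q (Nat.le_of_dvd (Nat.pos_of_ne_zero ?_) d3)
    rintro rfl
    have : 0 < q * (q - 1) := Nat.mul_pos (by omega) (by omega)
    omega
  obtain ⟨u, hu, u1⟩ : {u ∈ M | u • x = y}.Nonempty := by
    refine (Set.ncard_pos (Set.toFinite _)).1 (lt_of_lt_of_le ?_ c4)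
    exact Nat.mul_pos (by omega) (by omega)
  have sq1 : ∀ u ∈ M, u * u = 1 := fun u hu => hu.1.elim fun _ h => h.2.2
  set σ := {s | s ∈ SS (S.N x) t ∧ u * s * u⁻¹ = s⁻¹}
  have c5 : q * (q - 1) ≤ σ.ncard := by
    refine c4.trans (Set.ncard_le_ncard_of_injOn (fun v => u * v) (fun v hv => ⟨?_, ?_⟩)
      (fun a _ b _ e => by simpa using e) (Set.toFinite _))
    · have f : ∀ v ∈ M, v • x = y → v • y = x := fun v hv e => by
        rw [← e, ← mul_smul, sq1 v hv, one_smul]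
      have g1 : (u * v) • x = x := by rw [mul_smul, hv.2, f u hu u1]
      have g2 : (u * v) • y = y := by rw [mul_smul, f v hv.1 hv.2, u1]
      have g3 := (m2 u hu).mul (m2 v hv.1)
      obtain ⟨s, hs, e⟩ := L.inn ht (S.nm g1) g3
        (L.tr_of_ce ht hQ2 (Full.nmS S h ht (hu.2.1.mul_left hv.1.2.1)) g3)
      rw [← inv_mul_eq_one.1 (Full.ce_semi S h e.ce (by
        rw [mul_smul, g1, inv_smul_eq_iff, S.fixS ht hs]) hxy.symm (by
        rw [mul_smul, g2, inv_smul_eq_iff, Full.S_fix S h ht hs hy]))]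
      exact hs
    · rw [← mul_assoc, sq1 u hu, one_mul, mul_inv_rev, inv_eq_of_mul_eq_one_right (sq1 v hv.1)]
  obtain ⟨s, hs, s1⟩ : ∃ s ∈ σ, s ∉ ZZ (S.N x) t := by
    by_contra hne
    push Not at hne
    have := c5.trans (Set.ncard_le_ncard (t := (ZZ (S.N x) t : Set G)) hne (Set.toFinite _))
    rw [ncard_sub, L.cardZ ht] at this
    have := Nat.le_of_mul_le_mul_left (this.trans (mul_one q).ge) (by omega)
    omega
  have e1 : Nat.card ↥(SS (S.N x) t ⊓ Subgroup.centralizer {s}) * 2 ≤ Q := by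
    obtain ⟨j, hj⟩ := Subgroup.card_dvd_of_le
      (inf_le_left : SS (S.N x) t ⊓ Subgroup.centralizer {s} ≤ _)
    have : j ≠ 1 := fun e => s1 (L.cS ht (L.S_le ht hs.1) fun r hr => by
      rw [← Subgroup.eq_of_le_of_card_ge (inf_le_left : SS (S.N x) t ⊓ Subgroup.centralizer {s} ≤ _)
        (by rw [hj, e, mul_one])] at hr
      exact (mem_T.1 hr.2).symm)
    have : j ≠ 0 := fun e => by
      rw [e, mul_zero] at hj; exact Nat.card_pos.ne' hj
    rw [L.cardS ht] at hj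
    exact (Nat.mul_le_mul_left _ (by omega)).trans hj.ge
  have e2 := Set.ncard_union_add_ncard_inter σ ((fun r => s⁻¹ * r) '' σ)
  have e3 : (σ ∪ (fun r => s⁻¹ * r) '' σ).ncard ≤ Q := by
    refine le_trans (Set.ncard_le_ncard (t := ↑(SS (S.N x) t)) ?_ (Set.toFinite _)) ?_
    · rintro _ (hr | ⟨r, hr, rfl⟩)
      exacts [hr.1, (SS _ _).mul_mem ((SS _ _).inv_mem hs.1) hr.1]
    · rw [ncard_sub, L.cardS ht]
  have e4 : (σ ∩ (fun r => s⁻¹ * r) '' σ).ncard ≤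
      Nat.card ↥(SS (S.N x) t ⊓ Subgroup.centralizer {s}) := by
    rw [← ncard_sub]
    refine Set.ncard_le_ncard ?_ (Set.toFinite _)
    rintro _ ⟨h1, r, hr, rfl⟩
    refine ⟨h1.1, mem_T.2 ?_⟩
    have h2 := h1.2
    rw [show u * (s⁻¹ * r) * u⁻¹ = (u * s * u⁻¹)⁻¹ * (u * r * u⁻¹) by group, hs.2, hr.2, inv_inv,
      mul_inv_rev, inv_inv] at h2
    exact (Commute.refl s).inv_left.mul_left (Commute.inv_right_iff.1 h2).symm
  rw [Set.ncard_image_of_injective _ (mul_right_injective _)] at e2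
  obtain ⟨j, rfl⟩ : ∃ j, q = j + 1 := ⟨q - 1, by omega⟩
  simp only [Nat.add_sub_cancel] at c5
  nlinarith

end St

end Cfsg.Agent.Bd
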