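import Cfsg.Agent.Lib.Bd.Set

/-!
# An involution of `N y` fixing `x` lies in `N x` (non-Borel case)
-/

set_option autoImplicit false

namespace Cfsg.Agent.Bd

open MulAction Cfsg.Agent.AIC

variable {G Ω : Type*} [Group G] [MulAction G Ω] {q Q : ℕ}

theorem card_eq_of_conj {A B : Subgroup G} (g : G) (h : ∀ a, a ∈ A ↔ g * a * g⁻¹ ∈ B) :
    Nat.card A = Nat.card B :=
  Nat.card_congr ⟨fun a => ⟨g * a * g⁻¹, (h a).1 a.2⟩,
    fun b => ⟨g⁻¹ * b * g, (h _).2 (by simp [mul_assoc])⟩, fun a => by simp [mul_assoc],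
    fun b => by simp [mul_assoc]⟩

theorem inverts_of_fpf [Finite G] {D : Subgroup G} {t : G} (ht : t * t = 1) (hn : Nm D t)
    (h : ∀ e ∈ D, Commute t e → e = 1) {d : G} (hd : d ∈ D) : t * d * t⁻¹ = d⁻¹ := by
  have hm : Set.MapsTo (fun a => a⁻¹ * (t * a * t⁻¹)) (D : Set G) D := fun a ha =>
    D.mul_mem (D.inv_mem ha) (hn a ha)
  have hi : Set.InjOn (fun a => a⁻¹ * (t * a * t⁻¹)) (D : Set G) := fun a ha b hb e => by
    have := h (b * a⁻¹) (D.mul_mem hb (D.inv_mem ha)) (commute_of_conj_eq (by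
      have e' : a⁻¹ * (t * a * t⁻¹) = b⁻¹ * (t * b * t⁻¹) := e
      calc _ = b * (b⁻¹ * (t * b * t⁻¹)) * (t * a * t⁻¹)⁻¹ := by group
        _ = _ := by rw [← e']; group))
    exact (mul_inv_eq_one.1 this).symm
  obtain ⟨a, -, rfl⟩ := (((Set.toFinite _).injOn_iff_bijOn_of_mapsTo hm).1 hi).surjOn hd
  calc _ = (t * a * t⁻¹)⁻¹ * ((t * t) * a * (t * t)⁻¹) := by group
    _ = _ := by rw [ht]; group

theorem mem_four [Finite G] {Z : Subgroup G} (h : Nat.card Z = 4) {t z w : G} (ht : t ∈ Z)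
    (hz : z ∈ Z) (h1 : t ≠ 1) (h2 : z ≠ 1) (h3 : z ≠ t) (h4 : t * t = 1) (hw : w ∈ Z) :
    w = 1 ∨ w = t ∨ w = z ∨ w = z * t := by
  have e : ({1, t, z, z * t} : Set G) = Z := by
    refine Set.eq_of_subset_of_ncard_le ?_ ?_ (Set.toFinite _)
    · rintro _ (rfl | rfl | rfl | rfl)
      exacts [Z.one_mem, ht, hz, Z.mul_mem hz ht]
    · have a1 : z * t ≠ 1 := fun e => h3 (by rw [← mul_one z, ← h4, ← mul_assoc, e, one_mul])
      rw [ncard_sub, h, Set.ncard_insert_of_notMem, Set.ncard_insert_of_notMem,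
        Set.ncard_pair] <;> simp [h1.symm, h2.symm, a1.symm, h3.symm, h1, h2]
  have : w ∈ ({1, t, z, z * t} : Set G) := e ▸ hw
  simpa using this

theorem card_le_two [Finite G] {V : Subgroup G} {b : G} (h : ∀ z ∈ V, z = 1 ∨ z = b) :
    Nat.card V ≤ 2 := by
  rw [← ncard_sub]
  refine (Set.ncard_le_ncard (t := {1, b}) (fun z hz => by simpa using h z hz)
    (Set.toFinite _)).trans ?_
  simpa using Set.ncard_insert_le 1 ({b} : Set G)

namespace Loc

variable {M : Subgroup G} (h : Loc M q Q) {t u g : G}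
include h

theorem nc_conj (ht : t ∈ I M) (hu : u ∈ I M) (e : ¬ Commute t u) :
    ¬ Commute (t * u * t⁻¹) u := fun e' =>
  ht.2.1 (h.runiq ht hu e (h.Z_le_S ht (h.self_mem ht)) e')

variable [Finite G]

theorem card_le_of_nc {ι : Type*} [Fintype ι] (f : ι → G) (h1 : ∀ i, f i ∈ I M)
    (h2 : ∀ i j, Commute (f i) (f j) → i = j) : Fintype.card ι ≤ Q + 1 := by
  have := h.ncard_le_of_nc (X := Set.range f) (by rintro _ ⟨i, rfl⟩; exact h1 i) (by
    rintro _ ⟨i, rfl⟩ _ ⟨j, rfl⟩ e; rw [h2 i j e])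
  rwa [← Set.image_univ, Set.ncard_image_of_injective _ (fun i j e => h2 i j (by rw [e])),
    Set.ncard_univ, Nat.card_eq_fintype_card] at this

theorem ce_sq_four (hq : q = 4) (ht : t ∈ I M) (hg : Nm M g) (e : Commute g t) :
    Ce (ZZ M t) (g * g) := fun z hz => by
  by_cases h1 : z = 1
  · rw [h1]; exact Commute.one_right _
  by_cases h2 : z = t
  · rw [h2]; exact e.mul_left e
  have h3 := h.nmZ ht hg (by rw [conj_eq_of_commute e]) z hz
  rcases mem_four (hq ▸ h.cardZ ht) (h.self_mem ht) hz ht.2.1 h1 h2 ht.2.2 h3 with a | a | a | a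
  · exact absurd (by simpa using conj_eq_one_iff.1 a) h1
  · rw [← conj_eq_of_commute e] at a
    exact absurd (by simpa using a) h2
  · exact (commute_of_conj_eq a).mul_left (commute_of_conj_eq a)
  · apply commute_of_conj_eq
    calc _ = g * (g * z * g⁻¹) * g⁻¹ := by group
      _ = (g * z * g⁻¹) * (g * t * g⁻¹) := by rw [a]; nth_rw 2 [← a]; group
      _ = z := by rw [a, conj_eq_of_commute e, mul_assoc, ht.2.2, mul_one]

end Loc

namespace St

variable (S : St G Ω q Q) {x y x' y' : Ω} {g t u b : G}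

/-- the Borel case -/
def Bor : Prop := ∀ x y : Ω, x ≠ y → ∀ t ∈ I (S.N x), ∀ u ∈ I (S.N x), t • y = y → u • y = y →
  Commute t u

/-- common involutions -/
def Com : Prop := ∀ x y : Ω, x ≠ y → ∃ t ∈ I (S.N x), t ∈ S.N y

theorem of_not_bor (h : ¬ S.Bor) (hxy : x ≠ y) :
    ∃ t ∈ I (S.N x), ∃ u ∈ I (S.N x), t • y = y ∧ u • y = y ∧ ¬ Commute t u := by
  unfold Bor at h
  push Not at h
  obtain ⟨a, c, hac, t, ht, u, hu, h1, h2, h3⟩ := h
  obtain ⟨g, rfl, rfl⟩ := S.two a c x y hac hxy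
  exact ⟨_, S.conjI g ht, _, S.conjI g hu, conj_fix.2 h1, conj_fix.2 h2,
    by rwa [commute_conj_iff]⟩

theorem of_not_com (h : ¬ S.Com) (hxy : x ≠ y) (ht : t ∈ I (S.N x)) : t ∉ S.N y := fun e => by
  refine h fun a c hac => ?_
  obtain ⟨g, rfl, rfl⟩ := S.two x y a c hxy hac
  exact ⟨_, S.conjI g ht, S.conj g y t e⟩

theorem cent_fix (h : ¬ S.Com) (hb : b ∈ I (S.N y)) (e : Commute g b) : g • y = y := by
  by_contra hne
  refine S.of_not_com h (Ne.symm hne) hb ?_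
  have := S.conj g y b hb.1
  rwa [conj_eq_of_commute e] at this

variable [Finite G]

theorem exists_map (hxy : x ≠ y) (hxy' : x' ≠ y') (ht : t ∈ I (S.N x)) (hu : u ∈ I (S.N x'))
    (h1 : t • y = y) (h2 : u • y' = y') :
    ∃ g : G, g • x = x' ∧ g • y = y' ∧ Commute (g * t * g⁻¹) u ∧ (¬ S.Bor → g * t * g⁻¹ = u) := by
  obtain ⟨g, rfl, rfl⟩ := S.two x y x' y' hxy hxy'
  by_cases h : S.Bor
  · exact ⟨g, rfl, rfl, h _ _ hxy' _ (S.conjI g ht) u hu (conj_fix.2 h1) h2, fun h' => absurd h h'⟩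
  obtain ⟨a, ha, c, hc, e1, e2, e3⟩ := S.of_not_bor h hxy'
  obtain ⟨k, hk, hk', e⟩ := (S.loc _).conj_in (K := stabilizer G (g • y)) ha hc e3 e1 e2
    (S.conjI g ht) hu (conj_fix.2 h1) h2
  have e' : k * g * t * (k * g)⁻¹ = u := by rw [← e]; group
  exact ⟨k * g, by rw [mul_smul, S.fix _ k hk'], by rw [mul_smul]; exact hk, by rw [e'],
    fun _ => e'⟩

theorem card_V (hxy : x ≠ y) (hxy' : x' ≠ y') (ht : t ∈ I (S.N x)) (hu : u ∈ I (S.N x'))
    (h1 : t • y = y) (h2 : u • y' = y') :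
    Nat.card ↥(ZZ (S.N x) t ⊓ stabilizer G y) = Nat.card ↥(ZZ (S.N x') u ⊓ stabilizer G y') := by
  obtain ⟨g, rfl, rfl, e, -⟩ := S.exists_map hxy hxy' ht hu h1 h2
  refine card_eq_of_conj g fun a => ?_
  rw [← (S.loc _).Z_eq (S.conjI g ht) hu e]
  simp only [Subgroup.mem_inf, mem_stabilizer_iff, S.conjZ_iff g ht, conj_fix]

theorem card_U (hxy : x ≠ y) (hxy' : x' ≠ y') (ht : t ∈ I (S.N x)) (hu : u ∈ I (S.N x'))
    (h1 : t • y = y) (h2 : u • y' = y') :
    Nat.card ↥(ZZ (S.N x) t ⊓ S.N y) = Nat.card ↥(ZZ (S.N x') u ⊓ S.N y') := by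
  obtain ⟨g, rfl, rfl, e, -⟩ := S.exists_map hxy hxy' ht hu h1 h2
  refine card_eq_of_conj g fun a => ?_
  rw [← (S.loc _).Z_eq (S.conjI g ht) hu e]
  simp only [Subgroup.mem_inf, S.conjZ_iff g ht, S.conj_iff]

omit [Finite G] in
theorem not_S_le (h : ¬ S.Bor) (hxy : x ≠ y) (ht : t ∈ I (S.N x)) :
    ¬ SS (S.N x) t ≤ stabilizer G y := fun e => by
  have L := S.loc x
  obtain ⟨a, ha, c, hc, e1, e2, e3⟩ := S.of_not_bor h hxy
  obtain ⟨k, hk, e4, e5⟩ : ∃ k ∈ I (S.N x), k • y = y ∧ ¬ Commute k t := by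
    by_cases e4 : Commute a t
    · exact ⟨c, hc, e2, fun e5 => e3 (L.trans ha ht hc e4 e5.symm)⟩
    · exact ⟨a, ha, e1, e4⟩
  exact S.not_all hxy.symm (L.big ht e e4 hk.1 (L.nc_conj hk ht e5))

theorem com_of_not_bor (h : ¬ S.Bor) : S.Com := by
  by_contra hC
  have nI : ∀ {x y : Ω} {b t : G}, x ≠ y → b ∈ I (S.N y) → t ∈ I (S.N x) → ¬ Inn (S.N x) t b := by
    rintro x y b t hxy hb ht ⟨z, hz, e⟩
    refine S.not_S_le h hxy ht fun s hs => S.cent_fix hC hb ?_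
    exact ((e.commute_iff ((S.loc x).S_le ht hs)).2 ((S.loc x).comm ht hz hs).symm).symm
  have hV : ∀ {x y : Ω} {b : G}, x ≠ y → b ∈ I (S.N y) → b • x = x →
      ∀ z ∈ ZZ (S.N y) b ⊓ stabilizer G x, z = 1 ∨ z = b := by
    intro x y b hxy hb e z hz
    by_contra hne
    push Not at hne
    have L := S.loc y
    obtain ⟨t, ht, e1⟩ := (S.loc x).exists_cent (P := ZZ (S.N y) b ⊓ stabilizer G x)
      ((L.isPGroup_Z hb).to_le inf_le_left) fun g hg => S.nm hg.2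
    have hz' := L.Z_I hb hz.1 hne.1
    refine nI hxy (L.Z_I hb ((ZZ _ _).mul_mem hz.1 (L.self_mem hb)) fun e2 => hne.2 ?_) ht
      ((S.loc x).pair ht (S.nm hz.2) (S.nm e) (Ce.of_eq hz'.2.2) (Ce.of_eq hb.2.2) ?_ ?_
        (L.Z_comm hb hz.1) (nI hxy hz' ht) (nI hxy hb ht))
    · rw [← mul_one z, ← hb.2.2, ← mul_assoc, e2, one_mul]
    · rw [conj_eq_of_commute (e1 z hz)]
    · rw [conj_eq_of_commute (e1 b ⟨L.self_mem hb, e⟩)]
  have key : ∀ x y : Ω, x ≠ y → q = 4 ∧ Q = q ∧ ∃ b ∈ I (S.N y), b • x = x ∧ ∃ t ∈ I (S.N x),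
      ∃ u ∈ I (S.N x), Commute t b ∧ Commute u b ∧ ¬ Commute t u := fun x y hxy => by
    have L := S.loc x
    obtain ⟨b, hb, e⟩ := S.even y x hxy.symm
    obtain ⟨t, ht, e1⟩ := L.exists_cent_elt (k := 1) (by simpa [sq] using hb.2.2) (S.nm e)
    obtain ⟨⟨n, hn, e2, e3⟩, e4⟩ := (L.tri ht (S.nm e) (Ce.of_eq hb.2.2) (by
      rw [conj_eq_of_commute e1])).resolve_left (nI hxy hb ht)
    have e5 : ∀ z ∈ ZZ (S.N x) t ⊓ Subgroup.centralizer {b}, z = 1 ∨ z = t := fun z hz =>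
      hV hxy.symm ht (S.cent_fix hC hb e1.symm) z ⟨hz.1, S.cent_fix hC hb (mem_T.1 hz.2)⟩
    rcases e4 with ⟨-, e4⟩ | ⟨e4, e6⟩
    · obtain ⟨z, hz, a1, a2, -⟩ := L.exists_Z_ne ht 1 t t
      rcases e5 z ⟨hz, mem_T.2 (e4 z hz).symm⟩ with a | a <;> contradiction
    have h7 := card_le_two e5
    have h8 := L.four_le
    refine ⟨by nlinarith, e4, b, hb, e, t, ht, _, (Nm.of_mem hn).I ht, e1.symm, ?_,
      fun e' => e3 e'.symm⟩
    exact (e2.mul_left e1.symm).mul_left e2.inv_left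
  have hD : ∀ x y : Ω, x ≠ y → ∀ d ∈ S.N x, d ∈ S.N y → d = 1 := fun x y hxy d hd hd' => by
    obtain ⟨hq, hQ, b, hb, e, t, ht, u, hu, e1, e2, e3⟩ := key x y hxy
    have L := S.loc x
    by_contra hd1
    have hodd : ∀ c ∈ S.N x ⊓ S.N y, Odd (orderOf c) := fun c hc =>
      odd_orderOf (X := S.N x ⊓ S.N y) (fun a ha hi => S.of_not_com hC hxy ⟨ha.1, hi⟩ ha.2) hc
    have hinv : ∀ v ∈ I (S.N x), Commute v b → v * d * v⁻¹ = d⁻¹ := fun v hv e4 =>
      inverts_of_fpf (D := S.N x ⊓ S.N y) hv.2.2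
        (fun m hm => ⟨Nm.of_mem hv.1 m hm.1, S.nm (S.cent_fix hC hb e4) m hm.2⟩)
        (fun c hc e5 => eq_one_of_odd (hodd c hc) (L.Z_sq hv (L.cC1 hv hQ hc.1 e5.symm)))
        ⟨hd, hd'⟩
    have hbinv : b * d * b⁻¹ = d⁻¹ := inverts_of_fpf (D := S.N x ⊓ S.N y) hb.2.2
        (fun m hm => ⟨S.nm e m hm.1, Nm.of_mem hb.1 m hm.2⟩)
        (fun c hc e5 => eq_one_of_odd (hodd c hc)
          ((S.loc y).Z_sq hb ((S.loc y).cC1 hb hQ hc.2 e5.symm))) ⟨hd, hd'⟩
    let τ : Fin 3 → G := ![t, u, t * u * t⁻¹]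
    have τI : ∀ i, τ i ∈ I (S.N x) := fun i => by
      fin_cases i
      exacts [ht, hu, (Nm.of_mem ht.1).I hu]
    have τb : ∀ i, Commute (τ i) b := fun i => by
      fin_cases i
      exacts [e1, e2, (e1.mul_left e2).mul_left e1.inv_left]
    have a1 : ¬ Commute t (t * u * t⁻¹) := fun e' => e3 (by
      rw [← commute_conj_iff t]; simpa using e')
    have a2 := L.nc_conj ht hu e3
    have τn : ∀ i j, Commute (τ i) (τ j) → i = j := fun i j => by
      intro e'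
      fin_cases i <;> fin_cases j <;>
        first | rfl | exact absurd e' e3 | exact absurd e'.symm e3 | exact absurd e' a1 |
          exact absurd e'.symm a1 | exact absurd e' a2 | exact absurd e'.symm a2
    have τd : ∀ i, τ i * d = d⁻¹ * τ i := fun i => by
      rw [← hinv _ (τI i) (τb i)]; group
    have τd' : ∀ i, τ i * d⁻¹ = d * τ i := fun i => by
      rw [mul_inv_eq_iff_eq_mul, mul_assoc, τd, mul_inv_cancel_left]
    have dI : ∀ i, d * τ i ∈ I (S.N x) := fun i => ⟨(S.N x).mul_mem hd (τI i).1, fun e' =>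
      S.of_not_com hC hxy (τI i) (by
        rw [eq_inv_of_mul_eq_one_right e']; exact (S.N y).inv_mem hd'), by
      rw [mul_assoc, ← mul_assoc (τ i), τd, mul_assoc, (τI i).2.2]; group⟩
    have dn : ∀ i j, ¬ Commute (d * τ i) (τ j) := fun i j e' => by
      have b1 : Commute d (τ i * τ j) := by
        change _ = _
        rw [mul_assoc, τd, ← mul_assoc (τ i), τd', mul_assoc]
      have b2 : Odd (orderOf (τ i * τ j)) := by
        by_cases e4 : i = j
        · rw [e4, (τI j).2.2]; simp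
        · exact L.odd_mul (τI i) (τI j) fun e5 => e4 (τn i j e5)
      have b3 : d * (τ i * τ j) = 1 := by
        refine eq_one_of_odd (Odd.of_dvd_nat ((hodd d ⟨hd, hd'⟩).mul b2)
          b1.orderOf_mul_dvd_mul_orderOf) ?_
        calc _ = d * τ i * (τ j * (d * τ i)) * τ j := by group
          _ = (d * τ i * (d * τ i)) * (τ j * τ j) := by rw [← e'.eq]; group
          _ = 1 := by rw [(dI i).2.2, (τI j).2.2, one_mul]
      have b4 : Commute b d := by
        rw [eq_inv_of_mul_eq_one_left b3]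
        exact ((τb i).mul_left (τb j)).inv_left.symm
      rw [conj_eq_of_commute b4] at hbinv
      exact hd1 (eq_one_of_odd (hodd d ⟨hd, hd'⟩) (by nth_rw 1 [hbinv]; simp))
    have := L.card_le_of_nc (Sum.elim τ fun i => d * τ i) (by rintro (i | i); exacts [τI i, dI i])
      (by
        rintro (i | i) (j | j) e'
        · rw [τn i j e']
        · exact absurd e'.symm (dn j i)
        · exact absurd e' (dn i j)
        · have b1 : ∀ i j, d * τ i * (d * τ j) = τ i * τ j := fun i j => by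
            rw [mul_assoc, ← mul_assoc (τ i), τd]; group
          rw [τn i j (by
            have e'' : d * τ i * (d * τ j) = d * τ j * (d * τ i) := e'
            rwa [b1, b1] at e'')])
    simp at this
    omega
  obtain ⟨x⟩ : Nonempty Ω := by
    unfold Bor at h; push Not at h; exact ⟨h.choose⟩
  obtain ⟨y, hy⟩ := S.exists_ne x
  obtain ⟨hq, hQ, b, hb, e, t, ht, u, hu, e1, e2, e3⟩ := key x y hy.symm
  have L := S.loc x
  obtain ⟨g, hg1, hg2⟩ := S.two x y y x hy.symm hy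
  have f1 := S.cent_fix hC hb e1
  have f2 := S.cent_fix hC hb e2
  set l := g * (t * u) * g⁻¹
  have l1 : l ∈ S.N y := hg1 ▸ S.conj g x _ ((S.N x).mul_mem ht.1 hu.1)
  have l2 : l • x = x := by rw [← hg2, conj_fix, mul_smul, f2, f1]
  have l3 : Commute l t := by
    have := hD x y hy.symm (l * t * l⁻¹ * t⁻¹)
      ((S.N x).mul_mem (S.nm l2 t ht.1) ((S.N x).inv_mem ht.1)) (by
        have := (S.N y).mul_mem l1 (S.nm f1 _ ((S.N y).inv_mem l1))
        simpa [mul_assoc] using this)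
    exact commute_of_conj_eq (mul_inv_eq_one.1 this)
  obtain ⟨z, hz, e4⟩ := L.inn_of_ce ht ((S.nm l2).mul (S.nm l2))
    (L.S_eq_Z ht hQ ▸ L.ce_sq_four hq ht (S.nm l2) l3)
  have l4 : Ce (S.N x) (l ^ 4) := fun m hm => by
    apply commute_of_conj_eq
    calc _ = l * l * (l * l * m * (l * l)⁻¹) * (l * l)⁻¹ := by simp [pow_succ, mul_assoc]
      _ = z * z * m * (z * z)⁻¹ := by rw [e4 m hm, e4 _ (Nm.of_mem (L.Z_le ht hz) m hm)]; group
      _ = m := by rw [L.Z_sq ht hz]; group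
  have l5 : l ^ 4 ≠ 1 := fun e' => by
    have b1 : Odd (orderOf l) := by
      rw [show l = MulAut.conj g (t * u) from rfl, MulEquiv.orderOf_eq]
      exact L.odd_mul ht hu e3
    have b2 := eq_one_of_odd_pow b1 (k := 2) e'
    rw [conj_eq_one_iff] at b2
    exact e3 (by rw [eq_inv_of_mul_eq_one_left b2]; exact (Commute.refl u).inv_left)
  refine S.not_all hy fun v hv => ?_
  by_contra hne
  refine l5 (hD y (v • y) (Ne.symm hne) _ ((S.N y).pow_mem l1 4) ?_)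
  have := S.conj v y _ ((S.N y).pow_mem l1 4)
  rwa [conj_eq_of_commute (l4 v hv.1).symm] at this

theorem closed_of_not_bor (h : ¬ S.Bor) (hb : b ∈ I (S.N y)) (e : b • x = x) : b ∈ S.N x := by
  by_cases hxy : y = x
  · exact hxy ▸ hb.1
  obtain ⟨a, ha, c, hc, e1, e2, e3⟩ := S.of_not_bor h hxy
  obtain ⟨t, ht, ht'⟩ := S.com_of_not_bor h y x hxy
  obtain ⟨k, hk, -, rfl⟩ := (S.loc y).conj_in (K := stabilizer G x) ha hc e3 e1 e2 ht hb
    (S.fix x t ht') e
  exact S.nm hk t ht'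

end St

end Cfsg.Agent.Bd
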