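import Cfsg.Agent.Lib.Bd.Closed

/-!
# An involution of `N y` fixing `x` lies in `N x` (Borel case)
-/

set_option autoImplicit false

namespace Cfsg.Agent.Bd

open MulAction Cfsg.Agent.AIC

variable {G Ω : Type*} [Group G] [MulAction G Ω] {q Q : ℕ}

namespace St

variable (S : St G Ω q Q) {x y w : Ω} {g t u b n : G}

/-- every involution fixes the same points as the centre of its Sylow subgroup -/
def Full : Prop := ∀ x y : Ω, ∀ t ∈ I (S.N x), t • y = y → ∀ z ∈ ZZ (S.N x) t, z • y = y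

theorem bor_comm (h : S.Bor) (hxy : x ≠ y) (ht : t ∈ I (S.N x)) (e : t • y = y) (h1 : g • x = x)
    (h2 : g • y = y) : Commute (g * t * g⁻¹) t :=
  h x y hxy _ ((S.nm h1).I ht) t ht (by rw [← h2, conj_fix]; exact e) e

theorem not_F_eq (h : S.Bor) (hxy : x ≠ y) (ht : t ∈ I (S.N x)) (e : t • y = y)
    (hn : n ∈ S.N x) (h1 : Commute n b) (h2 : ¬ Commute (n * t * n⁻¹) t)
    (h3 : ∀ w : Ω, t • w = w ↔ b • w = w) : False :=
  h2 (h x y hxy _ ((Nm.of_mem hn).I ht) t ht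
    (conj_fix'.2 ((h3 _).2 (comm_fix h1.inv_left ((h3 _).1 e)))) e)

variable [Finite G]

theorem of_not_full (h : ¬ S.Full) (hxy : x ≠ y) (ht : t ∈ I (S.N x)) (e : t • y = y) :
    ∃ z ∈ ZZ (S.N x) t, z • y ≠ y := by
  by_contra hne
  push Not at hne
  refine h fun a c u hu e' z hz => ?_
  by_cases hac : a = c
  · exact hac ▸ S.fixZ hu hz
  have h1 := S.card_V hxy hac ht hu e e'
  rw [inf_eq_left.2 (show ZZ (S.N x) t ≤ stabilizer G y from hne),
    ((S.loc x).cardZ ht).trans ((S.loc a).cardZ hu).symm] at h1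
  have := Subgroup.eq_of_le_of_card_ge (inf_le_left : ZZ (S.N a) u ⊓ stabilizer G c ≤ _) h1.le
  rw [← this] at hz
  exact hz.2

theorem Full.iff [Finite Ω] (h : S.Full) (ht : t ∈ I (S.N x)) (hu : u ∈ I (S.N x))
    (e : Commute t u) (w : Ω) : t • w = w ↔ u • w = w :=
  ⟨fun a => h x w t ht a u ((S.loc x).memZ' ht hu e.symm),
    fun a => h x w u hu a t ((S.loc x).memZ' hu ht e)⟩

theorem iff_of_sub [Finite Ω] (ht : t ∈ I (S.N x)) (hu : u ∈ I (S.N y))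
    (e : ∀ w : Ω, t • w = w → u • w = w) (w : Ω) : t • w = w ↔ u • w = w := by
  have : F Ω t = F Ω u :=
    Set.eq_of_subset_of_ncard_le e (S.ncard_F hu ht).le (Set.toFinite _)
  rw [← mem_F, this, mem_F]

theorem closed_full [Finite Ω] (h : S.Bor) (hF : S.Full) (hb : b ∈ I (S.N y)) (e : b • x = x) :
    b ∈ S.N x := by
  by_cases hxy : x = y
  · exact hxy ▸ hb.1
  obtain ⟨t, ht, e1⟩ := S.even x y hxy
  have L := S.loc x
  have L' := S.loc y
  have key : ∀ w : Ω, t • w = w ↔ b • w = w := by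
    by_cases hC : S.Com
    · obtain ⟨c, hc, hc'⟩ := hC x y hxy
      intro w
      rw [Full.iff S hF ht hc (h x y hxy t ht c hc e1 (S.fix y c hc')),
        Full.iff S hF ⟨hc', hc.2⟩ hb (h y x (Ne.symm hxy) c ⟨hc', hc.2⟩ b hb (S.fixI hc) e)]
    obtain ⟨a, ha, ha1, z, hz, e2⟩ : ∃ a ∈ ZZ (S.N x) t, a ≠ 1 ∧ Inn (S.N y) b a := by
      obtain ⟨z, hz, a1, a2, -⟩ := L.exists_Z_ne ht 1 t t
      by_cases i1 : Inn (S.N y) b z
      · exact ⟨z, hz, a1, i1⟩
      by_cases i2 : Inn (S.N y) b t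
      · exact ⟨t, L.self_mem ht, ht.2.1, i2⟩
      have f1 := hF x y t ht e1 z hz
      refine ⟨z * t, (ZZ _ _).mul_mem hz (L.self_mem ht), fun e' => a2 ?_,
        L'.pair hb (S.nm f1) (S.nm e1) (Ce.of_eq (L.Z_sq ht hz)) (Ce.of_eq ht.2.2)
          (S.bor_comm h (Ne.symm hxy) hb e f1 (S.fixZ ht hz))
          (S.bor_comm h (Ne.symm hxy) hb e e1 (S.fixI ht)) (L.Z_comm ht hz) i1 i2⟩
      rw [← mul_one z, ← ht.2.2, ← mul_assoc, e', one_mul]
    have haI := L.Z_I ht ha ha1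
    have f1 := hF x y t ht e1 a ha
    by_cases hz1 : z = 1
    · exfalso
      refine S.not_all hxy fun v hv => ?_
      by_contra hne
      refine S.of_not_com hC (Ne.symm hne) haI ?_
      have := S.conj v x a haI.1
      rwa [conj_eq_of_commute (((e2.commute_iff hv.1).2 (by rw [hz1]; simp)).symm)] at this
    have hzI := L'.Z_I hb hz hz1
    intro w
    rw [Full.iff S hF ht haI (L.Z_comm ht ha).symm, ← Full.iff S hF hzI hb (L'.Z_comm hb hz)]
    refine S.iff_of_sub haI hzI (fun w hw => ?_) w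
    by_cases hwy : y = w
    · exact hwy ▸ S.fixI hzI
    obtain ⟨u, hu, e3⟩ := S.even y w hwy
    have e4 := S.bor_comm h hwy hu e3 f1 hw
    rw [e2 u hu.1] at e4
    by_cases e5 : Commute z u
    · exact (Full.iff S hF hzI hu e5 w).2 e3
    · exact absurd e4 (L'.nc_conj hzI hu e5)
  rcases L.tri ht (S.nm e) (Ce.of_eq hb.2.2) (S.bor_comm h hxy ht e1 e (S.fixI hb)) with
    ⟨z, hz, e2⟩ | ⟨⟨n, hn, e2, e3⟩, -⟩
  · have := S.ce_eq_one ht e2.ce fun w hw => by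
      rw [mul_smul, (key w).1 hw, inv_smul_eq_iff, hF x w t ht hw z hz]
    rw [← inv_mul_eq_one.1 this]
    exact L.Z_le ht hz
  · exact (S.not_F_eq h hxy ht e1 hn e2 e3 key).elim

theorem closed_not_full (h : S.Bor) (hF : ¬ S.Full) (hb : b ∈ I (S.N y)) (e : b • x = x) :
    b ∈ S.N x := by
  by_contra hbx
  have hxy : x ≠ y := fun e' => hbx (e' ▸ hb.1)
  by_cases hC : ¬ S.Com
  · obtain ⟨t, ht, e1⟩ := S.even x y hxy
    rcases (S.loc x).tri ht (S.nm e) (Ce.of_eq hb.2.2) (S.bor_comm h hxy ht e1 e (S.fixI hb)) with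
      ⟨z, hz, e2⟩ | ⟨⟨n, hn, e2, e3⟩, -⟩
    · obtain ⟨a, ha, e3⟩ := S.of_not_full hF hxy ht e1
      exact e3 (S.cent_fix hC hb ((e2.commute_iff ((S.loc x).Z_le ht ha)).2
        ((S.loc x).ZZ_comm ht hz ha)).symm)
    · exact e3 (S.bor_comm h hxy ht e1 (S.fix x n hn) (S.cent_fix hC hb e2))
  replace hC := not_not.1 hC
  have c1 : ∀ {x y : Ω} {t b z : G}, t ∈ I (S.N x) → t • y = y → b ∈ I (S.N y) → b • x = x →
      b ∉ S.N x → z ∈ ZZ (S.N x) t → Commute z b → z • y = y := by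
    intro x y t b z ht e1 hb e hbx hz e2
    by_contra hne
    have hxy : x ≠ y := fun e' => hbx (e' ▸ hb.1)
    have b1 : b ∈ S.N (z • y) := by
      have := S.conj z y b hb.1
      rwa [conj_eq_of_commute e2] at this
    have := Subgroup.eq_of_le_of_card_ge (H := ZZ (S.N x) t ⊓ S.N y)
      (K := ZZ (S.N y) b ⊓ S.N (z • y)) (fun a ha => ⟨?_, ?_⟩)
      (S.card_U (Ne.symm hne) hxy hb ht (S.fix _ b b1) e1).le
    · have b2 : b ∈ ZZ (S.N x) t ⊓ S.N y := this ▸ ⟨(S.loc y).self_mem hb, b1⟩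
      exact hbx ((S.loc x).Z_le ht b2.1)
    · by_cases a1 : a = 1
      · rw [a1]; exact Subgroup.one_mem _
      have aI : a ∈ I (S.N y) := ⟨ha.2, ((S.loc x).Z_I ht ha.1 a1).2⟩
      exact (S.loc y).memZ' hb aI (h y x hxy.symm a aI b hb (S.fixZ ht ha.1) e)
    · have := S.conj z y a ha.2
      rwa [conj_eq_of_commute ((S.loc x).ZZ_comm ht hz ha.1)] at this
  have c2 : ∀ {x y : Ω} {t b : G}, t ∈ I (S.N x) → t • y = y → b ∈ I (S.N y) → b • x = x →
      b ∉ S.N x → ¬ Ce (ZZ (S.N x) t) b := by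
    intro x y t b ht e1 hb e hbx hc
    have hxy : x ≠ y := fun e' => hbx (e' ▸ hb.1)
    obtain ⟨a, ha, e3⟩ := S.of_not_full hF hxy ht e1
    exact e3 (c1 ht e1 hb e hbx ha (hc a ha).symm)
  have c3 : ∀ {x y : Ω} {t b : G}, t ∈ I (S.N x) → t • y = y → b ∈ I (S.N y) → b • x = x →
      b ∉ S.N x → ¬ Inn (S.N x) t b := by
    rintro x y t b ht e1 hb e hbx ⟨z, hz, e2⟩
    exact c2 ht e1 hb e hbx fun a ha =>
      (e2.commute_iff ((S.loc x).Z_le ht ha)).2 ((S.loc x).ZZ_comm ht hz ha)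
  have c4 : ∀ {x y : Ω} {b a : G}, b ∈ I (S.N y) → b • x = x → b ∉ S.N x → a ∈ ZZ (S.N y) b →
      a • x = x → a ∉ S.N x → a * b ∈ S.N x := by
    intro x y b a hb e hbx ha e2 hax
    have hxy : x ≠ y := fun e' => hbx (e' ▸ hb.1)
    obtain ⟨t, ht, e1⟩ := S.even x y hxy
    have L' := S.loc y
    have aI := L'.Z_I hb ha fun e' => hax (e' ▸ (S.N x).one_mem)
    by_contra hne
    refine c3 ht e1 (L'.Z_I hb ((ZZ _ _).mul_mem ha (L'.self_mem hb))
      fun e' => hne (e' ▸ (S.N x).one_mem)) (by rw [mul_smul, e, e2]) hne ?_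
    exact (S.loc x).pair ht (S.nm e2) (S.nm e) (Ce.of_eq aI.2.2) (Ce.of_eq hb.2.2)
      (S.bor_comm h hxy ht e1 e2 (S.fixI aI)) (S.bor_comm h hxy ht e1 e (S.fixI hb))
      (L'.Z_comm hb ha) (c3 ht e1 aI e2 hax) (c3 ht e1 hb e hbx)
  have c5 : ∀ {x y : Ω} {t b : G}, t ∈ I (S.N x) → t • y = y → b ∈ I (S.N y) → b • x = x →
      b ∉ S.N x → (∃ n ∈ S.N x, Commute n b ∧ ¬ Commute (n * t * n⁻¹) t) ∧
      ∀ z ∈ ZZ (S.N x) t, z • y = y → Commute z b := by
    intro x y t b ht e1 hb e hbx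
    have hxy : x ≠ y := fun e' => hbx (e' ▸ hb.1)
    have L := S.loc x
    have L' := S.loc y
    obtain ⟨⟨n, hn, e2, e3⟩, e4⟩ := (L.tri ht (S.nm e) (Ce.of_eq hb.2.2)
      (S.bor_comm h hxy ht e1 e (S.fixI hb))).resolve_left (c3 ht e1 hb e hbx)
    refine ⟨⟨n, hn, e2, e3⟩, ?_⟩
    obtain ⟨-, e4⟩ := e4.resolve_left fun e4 => c2 ht e1 hb e hbx e4.2
    obtain ⟨u, hu, hu'⟩ := hC x y hxy
    have uI : u ∈ I (S.N y) := ⟨hu', hu.2⟩
    have u1 := h x y hxy u hu t ht (S.fixI uI) e1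
    have u2 := h y x hxy.symm u uI b hb (S.fixI hu) e
    have n1 : n • y ≠ y := fun e' => e3 (S.bor_comm h hxy ht e1 (S.fix x n hn) e')
    have n2 : ¬ Commute u (n * u * n⁻¹) := fun e' => e3 (L.trans ((Nm.of_mem hn).I ht)
      ((Nm.of_mem hn).I hu) ht ((commute_conj_iff n _ _).2 u1.symm)
      (L.trans ((Nm.of_mem hn).I hu) hu ht e'.symm u1))
    have b1 : b ∈ I (S.N (n • y)) := by
      have := S.conjI n hb
      rwa [conj_eq_of_commute e2] at this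
    have d1 : Nat.card ↥(ZZ (S.N y) b ⊓ S.N x) ≤ 2 := by
      rw [S.card_U hxy.symm n1.symm hb hb e (S.fixI b1)]
      refine card_le_two (b := b) fun a ha => ?_
      by_contra hne
      push Not at hne
      have aI := L'.Z_I hb ha.1 hne.1
      have key : ∀ a ∈ ZZ (S.N y) b ⊓ S.N (n • y), a ≠ 1 →
          Commute a u ∧ Commute a (n * u * n⁻¹) := fun a ha a1 =>
        ⟨L'.ZZ_comm hb ha.1 (L'.memZ' hb uI u2), (S.loc _).trans ⟨ha.2, (L'.Z_I hb ha.1 a1).2⟩ b1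
          (S.conjI n uI) (L'.Z_comm hb ha.1) ((e2.mul_left u2).mul_left e2.inv_left).symm⟩
      have key2 : ∀ a ∈ ZZ (S.N y) b ⊓ S.N (n • y), a ∈ S.N x → a = 1 := fun a ha a2 => by
        by_contra a1
        exact n2 (L.trans hu ⟨a2, (L'.Z_I hb ha.1 a1).2⟩ ((Nm.of_mem hn).I hu)
          (key a ha a1).1.symm (key a ha a1).2)
      have a2 : a • x = x := by
        by_contra a2
        have f1 := S.conjI a hu
        have f2 := S.conjI a ((Nm.of_mem hn).I hu)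
        rw [conj_eq_of_commute (key a ha hne.1).1] at f1
        rw [conj_eq_of_commute (key a ha hne.1).2] at f2
        exact n2 (h _ x a2 _ f1 _ f2 (S.fixI hu) (S.fixI ((Nm.of_mem hn).I hu)))
      have := key2 _ ((ZZ _ b ⊓ _).mul_mem ha ⟨L'.self_mem hb, b1.1⟩)
        (c4 hb e hbx ha.1 a2 fun a3 => hne.1 (key2 a ha a3))
      exact hne.2 (by rw [← mul_one a, ← hb.2.2, ← mul_assoc, this, one_mul])
    have d2 : Nat.card ↥(ZZ (S.N y) b ⊓ stabilizer G x) ≤ 4 := by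
      rw [← ncard_sub] at d1 ⊢
      refine (Set.ncard_le_ncard (t := ↑(ZZ (S.N y) b ⊓ S.N x) ∪
        (fun a => a * b) '' ↑(ZZ (S.N y) b ⊓ S.N x)) (fun a ha => ?_) (Set.toFinite _)).trans
        ((Set.ncard_union_le _ _).trans ?_)
      · by_cases a1 : a ∈ S.N x
        · exact Or.inl ⟨ha.1, a1⟩
        · exact Or.inr ⟨a * b, ⟨(ZZ _ _).mul_mem ha.1 (L'.self_mem hb), c4 hb e hbx ha.1 ha.2 a1⟩,
            by simp [mul_assoc, hb.2.2]⟩
      · have := Set.ncard_image_le (f := fun a => a * b) (s := ↑(ZZ (S.N y) b ⊓ S.N x))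
          (Set.toFinite _)
        omega
    have d3 : 3 ≤ Nat.card ↥(ZZ (S.N y) b ⊓ stabilizer G x) := by
      rw [← ncard_sub]
      refine le_trans (le_of_eq ?_) (Set.ncard_le_ncard (s := {1, u, b}) ?_ (Set.toFinite _))
      · have : u ≠ b := fun e' => hbx (e' ▸ hu.1)
        rw [Set.ncard_insert_of_notMem, Set.ncard_pair this]
        simp [hu.2.1.symm, hb.2.1.symm]
      · rintro _ (rfl | rfl | rfl)
        exacts [Subgroup.one_mem _, ⟨L'.memZ' hb uI u2, S.fixI hu⟩, ⟨L'.self_mem hb, e⟩]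
    rw [← S.card_V hxy hxy.symm ht hb e1 e] at d2 d3
    have d4 : ZZ (S.N x) t ⊓ Subgroup.centralizer {b} ≤ ZZ (S.N x) t ⊓ stabilizer G y :=
      fun a ha => ⟨ha.1, c1 ht e1 hb e hbx ha.1 (mem_T.1 ha.2)⟩
    have d5 := Subgroup.card_le_of_le d4
    have d6 := Subgroup.card_dvd_of_le (inf_le_left : ZZ (S.N x) t ⊓ stabilizer G y ≤ _)
    have d7 : Nat.card ↥(ZZ (S.N x) t ⊓ stabilizer G y) ≠ q := fun e' => by
      obtain ⟨a, ha, e3⟩ := S.of_not_full hF hxy ht e1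
      rw [← Subgroup.eq_of_le_of_card_ge (inf_le_left : ZZ (S.N x) t ⊓ stabilizer G y ≤ _)
        (by rw [e', L.cardZ ht])] at ha
      exact e3 ha.2
    rw [L.cardZ ht] at d6
    have d8 := L.four_dvd
    have d9 := L.four_le
    have := Subgroup.eq_of_le_of_card_ge d4 (by
      generalize Nat.card ↥(ZZ (S.N x) t ⊓ stabilizer G y) = a at *
      generalize Nat.card ↥(ZZ (S.N x) t ⊓ Subgroup.centralizer {b}) = c at *
      have : c ≤ 4 := by omega
      subst e4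
      interval_cases c <;> interval_cases a <;> omega)
    intro z hz e5
    have h5 : z ∈ ZZ (S.N x) t ⊓ Subgroup.centralizer {b} := this ▸ ⟨hz, e5⟩
    exact mem_T.1 h5.2
  have c6 : ∀ x' y' : Ω, x' ≠ y' → ∃ b ∈ I (S.N y'), b • x' = x' ∧ b ∉ S.N x' := fun x' y' h' => by
    obtain ⟨g, rfl, rfl⟩ := S.two x y x' y' hxy h'
    exact ⟨_, S.conjI g hb, conj_fix.2 e, by rwa [S.conj_iff]⟩
  have c7 : ∀ {x y : Ω} {t z : G}, x ≠ y → t ∈ I (S.N x) → t • y = y → z ∈ ZZ (S.N x) t →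
      z • y = y → ∀ w : Ω, t • w = w → z • w = w := by
    intro x y t z hxy ht e1 hz e2 w hw
    by_cases hxw : x = w
    · exact hxw ▸ S.fixZ ht hz
    obtain ⟨a, ha, a1, a2⟩ := c6 x y hxy
    obtain ⟨c, hc, a3, a4⟩ := c6 x w hxw
    have L := S.loc x
    have := L.same ht (S.nm a1) (S.nm a3) ((c5 ht e1 ha a1 a2).2 t (L.self_mem ht) e1).symm
      ((c5 ht hw hc a3 a4).2 t (L.self_mem ht) hw).symm (Ce.of_eq ha.2.2) (Ce.of_eq hc.2.2)
      (c2 ht e1 ha a1 a2) (c2 ht hw hc a3 a4)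
    exact c1 ht hw hc a3 a4 hz ((this.commute_iff hz).1 ((c5 ht e1 ha a1 a2).2 z hz e2).symm).symm
  obtain ⟨u, hu, hu'⟩ := hC x y hxy
  have uI : u ∈ I (S.N y) := ⟨hu', hu.2⟩
  have u2 := h y x hxy.symm u uI b hb (S.fixI hu) e
  obtain ⟨⟨n, hn, e2, e3⟩, -⟩ := c5 hu (S.fixI uI) hb e hbx
  exact S.not_F_eq h hxy hu (S.fixI uI) hn e2 e3 fun w =>
    ⟨c7 hxy.symm uI (S.fixI hu) ((S.loc y).memZ' uI hb u2.symm) e w,
      c7 hxy.symm hb e ((S.loc y).memZ' hb uI u2) (S.fixI hu) w⟩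

theorem closed [Finite Ω] (hb : b ∈ I (S.N y)) (e : b • x = x) : b ∈ S.N x := by
  by_cases h : S.Bor
  · by_cases hF : S.Full
    · exact S.closed_full h hF hb e
    · exact S.closed_not_full h hF hb e
  · exact S.closed_of_not_bor h hb e

theorem closedI [Finite Ω] (hb : b ∈ I (S.N y)) (e : b • x = x) : b ∈ I (S.N x) :=
  ⟨S.closed hb e, hb.2⟩

end St

end Cfsg.Agent.Bd
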