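import Cfsg.Agent.Lib.Bd.Basic

/-!
# The local properties of a group `L₂(q)`, `Sz(q)`, `U₃(q)`, `q` even, inside a bigger group
-/

set_option autoImplicit false

namespace Cfsg.Agent.Bd

open MulAction Cfsg.Agent.AIC

variable {G : Type*} [Group G]

/-- the involutions of `M` -/
def I (M : Subgroup G) : Set G := {t | t ∈ M ∧ IsInv t}

/-- the centre of the Sylow subgroup through `t` -/
def ZZ (M : Subgroup G) (t : G) : Subgroup G :=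
  Subgroup.closure {z | z ∈ M ∧ z * z = 1 ∧ Commute z t}

/-- the Sylow subgroup through `t` -/
def SS (M : Subgroup G) (t : G) : Subgroup G :=
  Subgroup.closure {s | s ∈ M ∧ s ^ 4 = 1 ∧ Commute s t}

/-- `g` normalizes `M` -/
def Nm (M : Subgroup G) (g : G) : Prop := ∀ m ∈ M, g * m * g⁻¹ ∈ M

/-- `g` acts on `M` as `s` -/
def As (M : Subgroup G) (g s : G) : Prop := ∀ m ∈ M, g * m * g⁻¹ = s * m * s⁻¹

/-- `g` centralizes `M` -/
def Ce (M : Subgroup G) (g : G) : Prop := ∀ m ∈ M, Commute g m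

/-- `g` is trivial on `S / Z` -/
def Tr (M : Subgroup G) (t g : G) : Prop := ∀ s ∈ SS M t, g * s * g⁻¹ * s⁻¹ ∈ ZZ M t

/-- `g` induces an outer involution -/
def Phi (M : Subgroup G) (q Q : ℕ) (t g : G) : Prop :=
  (∃ n ∈ M, Commute n g ∧ ¬ Commute (n * t * n⁻¹) t) ∧
    ((Q = q ^ 3 ∧ Ce (ZZ M t) g) ∨
      (Q = q ∧ Nat.card ↥(ZZ M t ⊓ Subgroup.centralizer {g}) ^ 2 = q))

/-- `g` acts on `M` as an element of `Z` -/
def Inn (M : Subgroup G) (t g : G) : Prop := ∃ z ∈ ZZ M t, As M g z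

structure Loc (M : Subgroup G) (q Q : ℕ) : Prop where
  pow : ∃ n, 2 ≤ n ∧ q = 2 ^ n
  kind : Q = q ∨ (Q = q ^ 2 ∧ ¬ IsSquare q) ∨ Q = q ^ 3
  memZ : ∀ {t z}, t ∈ I M → (z ∈ ZZ M t ↔ z ∈ M ∧ z * z = 1 ∧ Commute z t)
  memS : ∀ {t s}, t ∈ I M → (s ∈ SS M t ↔ s ∈ M ∧ s ^ 4 = 1 ∧ Commute s t)
  comm : ∀ {t z s}, t ∈ I M → z ∈ ZZ M t → s ∈ SS M t → Commute s z
  cardZ : ∀ {t}, t ∈ I M → Nat.card (ZZ M t) = q
  cardS : ∀ {t}, t ∈ I M → Nat.card (SS M t) = Q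
  two : ∀ {t g k}, t ∈ I M → g ∈ M → Commute g t → g ^ 2 ^ k = 1 → g ∈ SS M t
  rex : ∀ {t u v}, t ∈ I M → u ∈ I M → v ∈ I M → ¬ Commute t u → ¬ Commute t v →
    ∃ s ∈ SS M t, Commute (s * u * s⁻¹) v
  runiq : ∀ {t u s}, t ∈ I M → u ∈ I M → ¬ Commute t u → s ∈ SS M t →
    Commute (s * u * s⁻¹) u → s = 1
  nc : ∃ t ∈ I M, ∃ u ∈ I M, ¬ Commute t u
  cS : ∀ {t g}, t ∈ I M → g ∈ M → Ce (SS M t) g → g ∈ ZZ M t
  lin : ∀ {t} {V : Subgroup G}, t ∈ I M → V ≤ ZZ M t → t ∈ V → V ≠ ZZ M t →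
    (∀ z ∈ ZZ M t, z ∉ V → ∀ z' ∈ ZZ M t, z' ∉ V →
      ∃ g, Nm M g ∧ Ce V g ∧ g * z * g⁻¹ * z' ∈ V) →
    q = 2 * Nat.card V ∨ (q = 8 ∧ Nat.card V = 2)
  tri : ∀ {t g}, t ∈ I M → Nm M g → Ce M (g * g) → Commute (g * t * g⁻¹) t →
    Inn M t g ∨ Phi M q Q t g
  pair : ∀ {t a b}, t ∈ I M → Nm M a → Nm M b → Ce M (a * a) → Ce M (b * b) →
    Commute (a * t * a⁻¹) t → Commute (b * t * b⁻¹) t → Commute a b → ¬ Inn M t a →
    ¬ Inn M t b → Inn M t (a * b)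
  inn : ∀ {t g}, t ∈ I M → Nm M g → Ce (ZZ M t) g → Tr M t g → ∃ s ∈ SS M t, As M g s
  four : ∀ {g}, Q ≠ q → Nm M g → g * g ∈ I M → ∃ s ∈ SS M (g * g), As M g s
  same : ∀ {t a b}, t ∈ I M → Nm M a → Nm M b → Commute a t → Commute b t →
    Ce (ZZ M t) (a * a) → Ce (ZZ M t) (b * b) → ¬ Ce (ZZ M t) a → ¬ Ce (ZZ M t) b →
    As (ZZ M t) a b
  su1 : ∀ {t u}, t ∈ I M → Q = q ^ 3 → Nm (SS M t) u → u * u = 1 → Ce (ZZ M t) u
  su2 : ∀ {t a b}, t ∈ I M → Q ≠ q → Nm (SS M t) a → Nm (SS M t) b → Ce (ZZ M t) a →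
    Ce (ZZ M t) b → a ^ 4 = 1 → b ^ 4 = 1 → (a * b) ^ 4 = 1 →
    Tr M t a ∨ Tr M t b ∨ Tr M t (a * b)
  sq : ∀ {t z}, t ∈ I M → Q ≠ q → z ∈ ZZ M t → ∃ s ∈ SS M t, s * s = z
  sqinj : ∀ {t s r}, t ∈ I M → Q = q ^ 2 → s ∈ SS M t → r ∈ SS M t → s * s = r * r →
    s * r⁻¹ ∈ ZZ M t
  cj : ∀ {t s z}, t ∈ I M → s ∈ SS M t → s * s ≠ 1 → z ∈ ZZ M t →
    ∃ r ∈ SS M t, r * s * r⁻¹ = s * z ∨ r * s * r⁻¹ = (s * z)⁻¹
  c4 : ∀ {t s g}, t ∈ I M → s ∈ SS M t → s * s ≠ 1 → g ∈ M → Commute g s → g ∈ SS M t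
  gen : ∀ {t u s} {K : Subgroup G}, t ∈ I M → u ∈ I M → ¬ Commute t u → ZZ M t ≤ K →
    ZZ M u ≤ K → s ∈ SS M t → s ∈ K → s * s ≠ 1 → ∀ v ∈ I M, v ∈ K
  sig : ∀ {t}, t ∈ I M → Q = q ^ 3 → {s | s ∈ SS M t ∧ s * s = t}.ncard ≤ q * (q + 1)
  cC1 : ∀ {t g}, t ∈ I M → Q = q → g ∈ M → Commute g t → g ∈ ZZ M t
  cC4 : ∀ {t}, t ∈ I M → q = 4 → Q = 64 → Nat.card ↥(M ⊓ Subgroup.centralizer {t}) = 320
  cC8 : ∀ {t}, t ∈ I M → q = 8 → Q = 512 → ∃ h ∈ M, Commute h t ∧ h ≠ 1 ∧ h ^ 3 = 1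

theorem Nm.inv [Finite G] {M : Subgroup G} {g : G} (h : Nm M g) : Nm M g⁻¹ := fun m hm => by
  have := @zpowers_inv G _ G (cjAct G) g M (Set.toFinite _) h g⁻¹
    (Subgroup.inv_mem _ (Subgroup.mem_zpowers g)) m hm
  exact this

theorem Nm.mul {M : Subgroup G} {g k : G} (h : Nm M g) (h' : Nm M k) : Nm M (g * k) :=
  fun m hm => by have := h _ (h' m hm); simpa [mul_assoc] using this

theorem Nm.of_mem {M : Subgroup G} {g : G} (h : g ∈ M) : Nm M g :=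
  fun _ hm => M.mul_mem (M.mul_mem h hm) (M.inv_mem h)

theorem Nm.I {M : Subgroup G} {g t : G} (h : Nm M g) (ht : t ∈ I M) : g * t * g⁻¹ ∈ I M :=
  ⟨h t ht.1, ht.2.conj g⟩

theorem Ce.nm {M : Subgroup G} {g : G} (h : Ce M g) : Nm M g :=
  fun m hm => by rw [conj_eq_of_commute (h m hm)]; exact hm

theorem Ce.mul {M : Subgroup G} {g k : G} (h : Ce M g) (h' : Ce M k) : Ce M (g * k) :=
  fun m hm => (h m hm).mul_left (h' m hm)

theorem Ce.inv {M : Subgroup G} {g : G} (h : Ce M g) : Ce M g⁻¹ := fun m hm => (h m hm).inv_left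

theorem Ce.pow {M : Subgroup G} {g : G} (h : Ce M g) (k : ℕ) : Ce M (g ^ k) :=
  fun m hm => (h m hm).pow_left k

theorem Ce.one (M : Subgroup G) : Ce M 1 := fun _ _ => Commute.one_left _

theorem Ce.of_eq {M : Subgroup G} {g : G} (h : g = 1) : Ce M g := h ▸ Ce.one M

theorem As.ce {M : Subgroup G} {g s : G} (h : As M g s) : Ce M (s⁻¹ * g) := fun m hm => by
  apply commute_of_conj_eq
  rw [mul_inv_rev, inv_inv]
  calc _ = s⁻¹ * (g * m * g⁻¹) * s := by group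
    _ = m := by rw [h m hm]; group

theorem As.commute_iff {M : Subgroup G} {g s m : G} (h : As M g s) (hm : m ∈ M) :
    Commute g m ↔ Commute s m :=
  ⟨fun e => commute_of_conj_eq (by rw [← h m hm, conj_eq_of_commute e]),
    fun e => commute_of_conj_eq (by rw [h m hm, conj_eq_of_commute e])⟩

theorem As.refl (M : Subgroup G) (g : G) : As M g g := fun _ _ => rfl

namespace Loc

variable {M : Subgroup G} {q Q : ℕ} (h : Loc M q Q)
include h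

theorem four_le : 4 ≤ q := by
  obtain ⟨n, h1, rfl⟩ := h.pow
  exact Nat.pow_le_pow_right (by norm_num : 0 < 2) h1

theorem four_dvd : 4 ∣ q := by
  obtain ⟨n, h1, rfl⟩ := h.pow
  exact pow_dvd_pow 2 h1

theorem powQ : ∃ n, 2 ≤ n ∧ Q = 2 ^ n := by
  obtain ⟨n, h1, rfl⟩ := h.pow
  rcases h.kind with e | ⟨e, -⟩ | e
  · exact ⟨n, h1, e⟩
  · exact ⟨n * 2, by omega, by rw [e, pow_mul]⟩
  · exact ⟨n * 3, by omega, by rw [e, pow_mul]⟩

theorem q_dvd : q ∣ Q := by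
  rcases h.kind with e | ⟨e, -⟩ | e
  · exact e ▸ dvd_rfl
  · exact e ▸ dvd_pow_self q (by norm_num)
  · exact e ▸ dvd_pow_self q (by norm_num)

theorem four_leQ : 4 ≤ Q := by
  obtain ⟨n, h1, rfl⟩ := h.powQ
  exact Nat.pow_le_pow_right (by norm_num : 0 < 2) h1

variable {t u v z s g : G}

theorem self_mem (ht : t ∈ I M) : t ∈ ZZ M t := (h.memZ ht).2 ⟨ht.1, ht.2.2, Commute.refl t⟩

theorem memZ' (ht : t ∈ I M) (hu : u ∈ I M) (e : Commute u t) : u ∈ ZZ M t :=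
  (h.memZ ht).2 ⟨hu.1, hu.2.2, e⟩

theorem Z_le (ht : t ∈ I M) : ZZ M t ≤ M := fun _ hz => ((h.memZ ht).1 hz).1

theorem S_le (ht : t ∈ I M) : SS M t ≤ M := fun _ hz => ((h.memS ht).1 hz).1

theorem Z_sq (ht : t ∈ I M) (hz : z ∈ ZZ M t) : z * z = 1 := ((h.memZ ht).1 hz).2.1

theorem Z_comm (ht : t ∈ I M) (hz : z ∈ ZZ M t) : Commute z t := ((h.memZ ht).1 hz).2.2

theorem S_comm (ht : t ∈ I M) (hs : s ∈ SS M t) : Commute s t := ((h.memS ht).1 hs).2.2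

theorem S_four (ht : t ∈ I M) (hs : s ∈ SS M t) : s ^ 4 = 1 := ((h.memS ht).1 hs).2.1

theorem Z_I (ht : t ∈ I M) (hz : z ∈ ZZ M t) (h1 : z ≠ 1) : z ∈ I M :=
  ⟨h.Z_le ht hz, h1, h.Z_sq ht hz⟩

theorem Z_le_S (ht : t ∈ I M) : ZZ M t ≤ SS M t := fun z hz =>
  (h.memS ht).2 ⟨h.Z_le ht hz, by
    rw [show 4 = 2 * 2 from rfl, pow_mul, pow_two z, h.Z_sq ht hz, one_pow], h.Z_comm ht hz⟩

theorem ZZ_comm (ht : t ∈ I M) {z' : G} (hz : z ∈ ZZ M t) (hz' : z' ∈ ZZ M t) : Commute z z' :=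
  h.comm ht hz' (h.Z_le_S ht hz)

theorem sq_mem (ht : t ∈ I M) (hs : s ∈ SS M t) : s * s ∈ ZZ M t :=
  (h.memZ ht).2 ⟨M.mul_mem (h.S_le ht hs) (h.S_le ht hs), by
    have := h.S_four ht hs
    calc s * s * (s * s) = s ^ 4 := by simp [pow_succ, mul_assoc]
      _ = 1 := this, (h.S_comm ht hs).mul_left (h.S_comm ht hs)⟩

theorem memZ_of_sq (ht : t ∈ I M) (hs : s ∈ SS M t) (e : s * s = 1) : s ∈ ZZ M t :=
  (h.memZ ht).2 ⟨h.S_le ht hs, e, h.S_comm ht hs⟩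

theorem trans (ht : t ∈ I M) (hu : u ∈ I M) (hv : v ∈ I M) (e : Commute t u) (e' : Commute u v) :
    Commute t v :=
  h.ZZ_comm hu (h.memZ' hu ht e) (h.memZ' hu hv e'.symm)

theorem Z_eq (ht : t ∈ I M) (hu : u ∈ I M) (e : Commute t u) : ZZ M t = ZZ M u := by
  ext z
  rw [h.memZ ht, h.memZ hu]
  refine and_congr_right fun h1 => and_congr_right fun h2 => ?_
  by_cases h3 : z = 1
  · simp [h3]
  · exact ⟨fun e' => h.trans ⟨h1, h3, h2⟩ ht hu e' e, fun e' => h.trans ⟨h1, h3, h2⟩ hu ht e' e.symm⟩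

theorem S_eq (ht : t ∈ I M) (hu : u ∈ I M) (e : Commute t u) : SS M t = SS M u := by
  have : ∀ {t u : G}, t ∈ I M → u ∈ I M → Commute t u → SS M t ≤ SS M u := fun ht hu e s hs =>
    (h.memS hu).2 ⟨h.S_le ht hs, h.S_four ht hs, h.comm ht (h.memZ' ht hu e.symm) hs⟩
  exact le_antisymm (this ht hu e) (this hu ht e.symm)

theorem eq_one_of_ZZ (ht : t ∈ I M) (hu : u ∈ I M) (e : ¬ Commute t u) (h1 : z ∈ ZZ M t)
    (h2 : z ∈ ZZ M u) : z = 1 := by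
  by_contra h3
  exact e (h.trans ht (h.Z_I ht h1 h3) hu (h.Z_comm ht h1).symm (h.Z_comm hu h2))

theorem eq_one_of_comm (ht : t ∈ I M) (hu : u ∈ I M) (e : ¬ Commute t u) (h1 : s ∈ SS M t)
    (h2 : Commute s u) : s = 1 :=
  h.runiq ht hu e h1 (by rw [conj_eq_of_commute h2])

theorem exists_nc (ht : t ∈ I M) : ∃ u ∈ I M, ¬ Commute t u := by
  obtain ⟨a, ha, b, hb, e⟩ := h.nc
  by_cases h1 : Commute t a
  · exact ⟨b, hb, fun h2 => e (h.trans ha ht hb h1.symm h2)⟩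
  · exact ⟨a, ha, h1⟩

theorem runiq' (ht : t ∈ I M) (hu : u ∈ I M) (hv : v ∈ I M) (e : ¬ Commute t u) {r : G}
    (hs : s ∈ SS M t) (hr : r ∈ SS M t) (h1 : Commute (s * u * s⁻¹) v)
    (h2 : Commute (r * u * r⁻¹) v) : s = r := by
  have h3 : Commute (s * u * s⁻¹) (r * u * r⁻¹) :=
    h.trans ((Nm.of_mem (h.S_le ht hs)).I hu) hv ((Nm.of_mem (h.S_le ht hr)).I hu) h1 h2.symm
  have := h.runiq ht hu e ((SS M t).mul_mem ((SS M t).inv_mem hr) hs) (by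
    rw [← commute_conj_iff r]
    convert h3 using 1
    group)
  exact (inv_mul_eq_one.1 this).symm

theorem conjZ {M' : Subgroup G} (h' : Loc M' q Q) (hg : ∀ m ∈ M, g * m * g⁻¹ ∈ M')
    (ht : t ∈ I M) (hz : z ∈ ZZ M t) : g * z * g⁻¹ ∈ ZZ M' (g * t * g⁻¹) :=
  (h'.memZ ⟨hg t ht.1, ht.2.conj g⟩).2 ⟨hg z (h.Z_le ht hz), by
    calc _ = g * (z * z) * g⁻¹ := by group
      _ = 1 := by rw [h.Z_sq ht hz]; group, (commute_conj_iff g z t).2 (h.Z_comm ht hz)⟩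

theorem conjS {M' : Subgroup G} (h' : Loc M' q Q) (hg : ∀ m ∈ M, g * m * g⁻¹ ∈ M')
    (ht : t ∈ I M) (hs : s ∈ SS M t) : g * s * g⁻¹ ∈ SS M' (g * t * g⁻¹) :=
  (h'.memS ⟨hg t ht.1, ht.2.conj g⟩).2 ⟨hg s (h.S_le ht hs), by
    rw [conj_pow, h.S_four ht hs]; group, (commute_conj_iff g s t).2 (h.S_comm ht hs)⟩

theorem nmZ (ht : t ∈ I M) (hg : Nm M g) (e : Commute (g * t * g⁻¹) t) : Nm (ZZ M t) g :=
  fun _ hz => h.Z_eq (hg.I ht) ht e ▸ h.conjZ h hg ht hz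

theorem nmS (ht : t ∈ I M) (hg : Nm M g) (e : Commute (g * t * g⁻¹) t) : Nm (SS M t) g :=
  fun _ hz => h.S_eq (hg.I ht) ht e ▸ h.conjS h hg ht hz

theorem S_eq_Z (ht : t ∈ I M) (e : Q = q) [Finite G] : SS M t = ZZ M t :=
  (Subgroup.eq_of_le_of_card_ge (h.Z_le_S ht) (by rw [h.cardS ht, h.cardZ ht, e])).symm

theorem isPGroup_S (ht : t ∈ I M) : IsPGroup 2 (SS M t) := fun s =>
  ⟨2, Subtype.ext (h.S_four ht s.2)⟩

theorem isPGroup_Z (ht : t ∈ I M) : IsPGroup 2 (ZZ M t) :=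
  (h.isPGroup_S ht).to_le (h.Z_le_S ht)

variable [Finite G]

theorem odd_mul (ht : t ∈ I M) (hu : u ∈ I M) (e : ¬ Commute t u) : Odd (orderOf (t * u)) := by
  by_contra hne
  obtain ⟨j, h1, h2, h3⟩ := dih_even ht.2.2 hu.2.2 hne
  exact e (h.trans ht ⟨M.pow_mem (M.mul_mem ht.1 hu.1) j, h1⟩ hu h2 h3.symm)

/-- involutions of a subgroup with two non-commuting involutions are conjugate -/
theorem conj_in {K : Subgroup G} {a b : G} (ha : a ∈ I M) (hb : b ∈ I M) (hab : ¬ Commute a b)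
    (haK : a ∈ K) (hbK : b ∈ K) (ht : t ∈ I M) (hu : u ∈ I M) (htK : t ∈ K) (huK : u ∈ K) :
    ∃ k ∈ K, k ∈ M ∧ k * t * k⁻¹ = u := by
  have key : ∀ {t u : G}, t ∈ I M → u ∈ I M → t ∈ K → u ∈ K → ¬ Commute t u →
      ∃ k ∈ K, k ∈ M ∧ k * t * k⁻¹ = u := fun {t u} ht hu htK huK e => by
    obtain ⟨k, hk⟩ := dih_odd hu.2.2 ht.2.2 (h.odd_mul hu ht fun e' => e e'.symm)
    exact ⟨_, K.pow_mem (K.mul_mem huK htK) k, M.pow_mem (M.mul_mem hu.1 ht.1) k, hk⟩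
  by_cases e : Commute t u
  · obtain ⟨c, hc, hcK, e1⟩ : ∃ c ∈ I M, c ∈ K ∧ ¬ Commute t c := by
      by_cases e1 : Commute t a
      · exact ⟨b, hb, hbK, fun e2 => hab (h.trans ha ht hb e1.symm e2)⟩
      · exact ⟨a, ha, haK, e1⟩
    obtain ⟨k, h1, h2, h3⟩ := key ht hc htK hcK e1
    obtain ⟨k', h1', h2', h3'⟩ := key hc hu hcK huK fun e2 => e1 (h.trans ht hu hc e e2.symm)
    exact ⟨k' * k, K.mul_mem h1' h1, M.mul_mem h2' h2, by rw [← h3', ← h3]; group⟩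
  · exact key ht hu htK huK e

theorem conj_all (ht : t ∈ I M) (hu : u ∈ I M) : ∃ k ∈ M, k * t * k⁻¹ = u := by
  obtain ⟨a, ha, b, hb, e⟩ := h.nc
  obtain ⟨k, -, h1, h2⟩ := h.conj_in (K := ⊤) ha hb e trivial trivial ht hu trivial trivial
  exact ⟨k, h1, h2⟩

theorem ncard_Z (ht : t ∈ I M) : ((ZZ M t : Set G) \ {1}).ncard = q - 1 := by
  rw [Set.ncard_sdiff_singleton_of_mem (ZZ M t).one_mem, ncard_sub, h.cardZ ht]

theorem exists_Z_ne (ht : t ∈ I M) (a b c : G) : ∃ z ∈ ZZ M t, z ≠ a ∧ z ≠ b ∧ z ≠ c := by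
  by_contra hne
  push Not at hne
  have : (ZZ M t : Set G) ⊆ {a, b, c} := fun z hz => by
    by_cases h1 : z = a
    · simp [h1]
    by_cases h2 : z = b
    · simp [h2]
    simp [hne z hz h1 h2]
  have h1 := Set.ncard_le_ncard this (Set.toFinite _)
  have h2 : ({a, b, c} : Set G).ncard ≤ 3 := by
    refine (Set.ncard_insert_le _ _).trans ?_
    have := Set.ncard_insert_le b ({c} : Set G)
    rw [Set.ncard_singleton] at this
    omega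
  rw [ncard_sub, h.cardZ ht] at h1
  have := h.four_le
  omega

theorem ncard_nc (ht : t ∈ I M) : {v | v ∈ I M ∧ ¬ Commute t v}.ncard = Q * (q - 1) := by
  obtain ⟨u, hu, e⟩ := h.exists_nc ht
  have key : ∀ v : G, ∃ s, v ∈ I M ∧ ¬ Commute t v → s ∈ SS M t ∧ Commute (s * u * s⁻¹) v :=
    fun v => by
      by_cases hv : v ∈ I M ∧ ¬ Commute t v
      · obtain ⟨s, hs⟩ := h.rex ht hu hv.1 e hv.2
        exact ⟨s, fun _ => hs⟩
      · exact ⟨1, fun h' => absurd h' hv⟩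
  choose f hf using key
  rw [← h.cardS ht, ← ncard_sub]
  refine ncard_eq_fibers (Set.toFinite _) f (fun v hv => (hf v hv).1) (fun s hs => ?_)
    (Set.toFinite _)
  have hsu := (Nm.of_mem (h.S_le ht hs)).I hu
  rw [← h.ncard_Z hsu]
  congr 1
  ext v
  simp only [Set.mem_ofPred_eq, Set.mem_sdiff, SetLike.mem_coe, Set.mem_singleton_iff]
  have e' : ¬ Commute t (s * u * s⁻¹) := fun e' => e (by
    rw [← commute_conj_iff s, conj_eq_of_commute (h.S_comm ht hs)]; exact e')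
  constructor
  · rintro ⟨hv, rfl⟩
    exact ⟨h.memZ' hsu hv.1 (hf v hv).2.symm, hv.1.2.1⟩
  · rintro ⟨h1, h2⟩
    have hv : v ∈ I M ∧ ¬ Commute t v := ⟨h.Z_I hsu h1 h2, fun e2 =>
      e' (h.trans ht (h.Z_I hsu h1 h2) hsu e2 (h.Z_comm hsu h1))⟩
    exact ⟨hv, h.runiq' ht hu hv.1 e (hf v hv).1 hs (hf v hv).2 (h.Z_comm hsu h1).symm⟩

theorem ncard_I : (I M).ncard = (Q + 1) * (q - 1) := by
  obtain ⟨t, ht, -⟩ := h.nc
  have e : I M = ((ZZ M t : Set G) \ {1}) ∪ {v | v ∈ I M ∧ ¬ Commute t v} := by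
    ext v
    simp only [Set.mem_union, Set.mem_sdiff, SetLike.mem_coe, Set.mem_singleton_iff,
      Set.mem_ofPred_eq]
    constructor
    · intro hv
      by_cases e : Commute t v
      · exact Or.inl ⟨h.memZ' ht hv e.symm, hv.2.1⟩
      · exact Or.inr ⟨hv, e⟩
    · rintro (⟨h1, h2⟩ | h1)
      · exact h.Z_I ht h1 h2
      · exact h1.1
  rw [e, Set.ncard_union_eq _ (Set.toFinite _) (Set.toFinite _), h.ncard_Z ht, h.ncard_nc ht]
  · ring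
  · rw [Set.disjoint_left]
    rintro v ⟨h1, -⟩ h2
    exact h2.2 (h.Z_comm ht h1).symm

theorem odd_I : ¬ 2 ∣ (I M).ncard := by
  rw [h.ncard_I]
  obtain ⟨a, ha⟩ := h.four_dvd
  obtain ⟨b, hb⟩ := h.four_dvd.trans h.q_dvd
  have := h.four_le
  rw [← even_iff_two_dvd, Nat.even_mul, Nat.even_iff, Nat.even_iff]
  omega

theorem card_M (ht : t ∈ I M) :
    Nat.card M = (Q + 1) * (q - 1) * Nat.card ↥(M ⊓ Subgroup.centralizer {t}) := by
  rw [card_eq_cls_mul M t, ← h.ncard_I]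
  congr 2
  ext v
  constructor
  · rintro ⟨k, hk, rfl⟩; exact (Nm.of_mem hk).I ht
  · intro hv; exact h.conj_all ht hv

/-- a `2`-group normalizing `M` centralizes an involution -/
theorem exists_cent {P : Subgroup G} (hP : IsPGroup 2 P) (hn : ∀ g ∈ P, Nm M g) :
    ∃ t ∈ I M, ∀ g ∈ P, Commute g t :=
  exists_fixed_cj hP (Set.toFinite _) (fun g hg _ hx => (hn g hg).I hx) h.odd_I

theorem exists_cent_elt {k : ℕ} (hg : g ^ 2 ^ k = 1) (hn : Nm M g) : ∃ t ∈ I M, Commute g t :=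
  exists_fixed_cj_elt hg (Set.toFinite _) (fun _ hx => hn.I hx) h.odd_I

theorem exists_centZ {k : ℕ} (ht : t ∈ I M) (hg : g ^ 2 ^ k = 1) (hn : Nm (ZZ M t) g) :
    ∃ z ∈ ZZ M t, z ≠ 1 ∧ Commute g z := by
  obtain ⟨z, hz, e⟩ := exists_fixed_cj_elt (p := 2) hg (X := (ZZ M t : Set G) \ {1})
    (Set.toFinite _) (fun x hx => ⟨hn x hx.1, fun e => hx.2 (by
      simpa using conj_eq_one_iff.1 e)⟩) (by
      rw [h.ncard_Z ht]
      obtain ⟨a, ha⟩ := h.four_dvd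
      have := h.four_le
      omega)
  exact ⟨z, hz.1, hz.2, e⟩

theorem three (ht : t ∈ I M) (hu : u ∈ I M) (hv : v ∈ I M) (htu : ¬ Commute t u)
    (hg : Nm M g) (h1 : Commute (g * t * g⁻¹) t) (h2 : Commute (g * u * g⁻¹) u)
    (h3 : Commute (g * v * g⁻¹) v) (hs : s ∈ SS M t) (e : Commute (s * u * s⁻¹) v) :
    Commute g s := by
  apply commute_of_conj_eq
  have hs' := h.nmS ht hg h1 s hs
  refine h.runiq' ht hu hv htu hs' hs ?_ e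
  have a1 := (Nm.of_mem (h.S_le ht hs')).I hu
  have a2 := (Nm.of_mem (h.S_le ht hs')).I (hg.I hu)
  refine h.trans a1 a2 hv ((commute_conj_iff _ _ _).2 h2.symm) (h.trans a2 (hg.I hv) hv ?_ h3)
  rw [← commute_conj_iff g] at e
  convert e using 1
  group

theorem ce_of_fix (hg : Nm M g) (e : ∀ u ∈ I M, Commute (g * u * g⁻¹) u) : Ce M g := by
  have key : ∀ t ∈ I M, Ce (SS M t) g := fun t ht s hs => by
    obtain ⟨u, hu, e1⟩ := h.exists_nc ht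
    have hv := (Nm.of_mem (h.S_le ht hs)).I hu
    exact h.three ht hu hv e1 hg (e t ht) (e u hu) (e _ hv) hs (Commute.refl _)
  intro m hm
  have hd : ∀ t ∈ I M, g * m * g⁻¹ * m⁻¹ ∈ ZZ M t := fun t ht => by
    refine h.cS ht (M.mul_mem (hg m hm) (M.inv_mem hm)) fun s hs => ?_
    have hm' := Nm.of_mem (M.inv_mem hm)
    have a1 := key _ (hm'.I ht) _ (h.conjS h hm' ht hs)
    have a2 := key t ht s hs
    apply commute_of_conj_eq
    calc _ = g * m * (g⁻¹ * (m⁻¹ * s * m⁻¹⁻¹) * g⁻¹⁻¹) * m⁻¹ * g⁻¹ := by group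
      _ = g * s * g⁻¹ := by rw [conj_eq_of_commute a1.inv_left]; group
      _ = s := conj_eq_of_commute a2
  obtain ⟨a, ha, b, hb, e1⟩ := h.nc
  apply commute_of_conj_eq
  exact mul_inv_eq_one.1 (h.eq_one_of_ZZ ha hb e1 (hd a ha) (hd b hb))

omit [Finite G] in
theorem inn_of_ce (ht : t ∈ I M) (hg : Nm M g) (e : Ce (SS M t) g) : Inn M t g := by
  obtain ⟨s, hs, h1⟩ := h.inn ht hg (fun z hz => e z (h.Z_le_S ht hz)) fun s hs => by
    rw [conj_eq_of_commute (e s hs), mul_inv_cancel]; exact one_mem _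
  exact ⟨s, h.cS ht (h.S_le ht hs) fun r hr => (h1.commute_iff (h.S_le ht hr)).1 (e r hr), h1⟩

omit [Finite G] in
theorem big {K : Subgroup G} (ht : t ∈ I M) (hK : SS M t ≤ K) {k : G} (hk : k ∈ K) (hkM : k ∈ M)
    (e : ¬ Commute (k * t * k⁻¹) t) : ∀ v ∈ I M, v ∈ K := fun v hv => by
  by_cases e1 : Commute t v
  · exact hK (h.Z_le_S ht (h.memZ' ht hv e1.symm))
  · obtain ⟨s, hs, e2⟩ := h.rex ht ((Nm.of_mem hkM).I ht) hv (fun e' => e e'.symm) e1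
    have h1 : Nm M (s * k)⁻¹ := Nm.of_mem (M.inv_mem (M.mul_mem (h.S_le ht hs) hkM))
    have h2 := hK (h.Z_le_S ht (h.memZ' ht (h1.I hv) (by
      rw [← commute_conj_iff (s * k)]
      convert e2.symm using 1 <;> group)))
    have := K.mul_mem (K.mul_mem (K.mul_mem (hK hs) hk) h2) (K.inv_mem (K.mul_mem (hK hs) hk))
    convert this using 1
    group

theorem ncard_le_of_nc {X : Set G} (hX : X ⊆ I M)
    (e : ∀ a ∈ X, ∀ b ∈ X, Commute a b → a = b) : X.ncard ≤ Q + 1 := by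
  rcases X.eq_empty_or_nonempty with rfl | ⟨t, htX⟩
  · simp
  have ht := hX htX
  obtain ⟨u, hu, e1⟩ := h.exists_nc ht
  have key : ∀ v : G, ∃ s, v ∈ X \ {t} → s ∈ SS M t ∧ Commute (s * u * s⁻¹) v := fun v => by
    by_cases hv : v ∈ X \ {t}
    · obtain ⟨s, hs⟩ := h.rex ht hu (hX hv.1) e1 fun e' => hv.2 (e t htX v hv.1 e').symm
      exact ⟨s, fun _ => hs⟩
    · exact ⟨1, fun h' => absurd h' hv⟩
  choose f hf using key
  have h1 : (X \ {t}).ncard ≤ (SS M t : Set G).ncard := by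
    refine Set.ncard_le_ncard_of_injOn f (fun v hv => (hf v hv).1) (fun a ha b hb e2 => ?_)
      (Set.toFinite _)
    refine e a ha.1 b hb.1 (h.trans (hX ha.1) ((Nm.of_mem (h.S_le ht (hf a ha).1)).I hu)
      (hX hb.1) (hf a ha).2.symm ?_)
    rw [e2]; exact (hf b hb).2
  rw [Set.ncard_sdiff_singleton_of_mem htX, ncard_sub, h.cardS ht] at h1
  omega

end Loc

end Cfsg.Agent.Bd
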