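import Cfsg.Agent.Lib.Bd.TwoE

/-!
# The case `|Z ∩ G_y| = 2`: degree eleven
-/

set_option autoImplicit false

namespace Cfsg.Agent.Bd

open MulAction Cfsg.Agent.AIC

variable {G Ω : Type*} [Group G] [MulAction G Ω] {q Q : ℕ}

namespace St

variable (S : St G Ω q Q) {x y w p x' y' : Ω} {g t u v b n z a c s k : G}

variable [Finite G] [Finite Ω]

theorem Two.m_lt (h : S.Two) (hq : q = 8) (hQ : Q = q) (hxy : x ≠ y)
    (hm : (S.IK x y).ncard ≠ 1) : (S.IK x y).ncard < 4 := by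
  by_contra hlt
  obtain ⟨t, ht, e⟩ := S.even x y hxy
  have tK : t ∈ S.IK x y := ⟨ht, e⟩
  have L := S.loc x
  obtain ⟨u, hu, u1⟩ := S.exists_IK_ne hm tK
  obtain ⟨v, hv, v1⟩ : ∃ v ∈ S.IK x y, v ∉ ({t, u, t * u * t⁻¹} : Set G) := by
    by_contra hne
    push Not at hne
    have h1 := Set.ncard_le_ncard hne (Set.toFinite _)
    have h2 := Set.ncard_insert_le t ({u, t * u * t⁻¹} : Set G)
    have h3 := Set.ncard_insert_le u ({t * u * t⁻¹} : Set G)
    rw [Set.ncard_singleton] at h3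
    omega
  simp only [Set.mem_insert_iff, Set.mem_singleton_iff, not_or] at v1
  have n1 : ¬ Commute t u := fun e' => u1 (Two.eq_of_comm S h hxy tK hu e').symm
  have n2 : ¬ Commute t v := fun e' => v1.1 (Two.eq_of_comm S h hxy tK hv e').symm
  obtain ⟨s, hs, s1⟩ := L.rex ht hu.1 hv.1 n1 n2
  have sT : s ∈ S.TT t x := ⟨L.S_eq_Z ht hQ ▸ hs, fun e' => v1.2.1 (by
      rw [e', one_mul, inv_one, mul_one] at s1
      exact (Two.eq_of_comm S h hxy hu hv s1).symm), fun e' => v1.2.2 (by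
      rw [e'] at s1
      exact (Two.eq_of_comm S h hxy (S.IK_conj' hu (S.fixI ht) e) hv s1).symm)⟩
  obtain ⟨a, ha, a1⟩ : ∃ a ∈ S.TT t x, a ∉ ({s, s * t} : Set G) := by
    by_contra hne
    push Not at hne
    have h1 := Set.ncard_le_ncard hne (Set.toFinite _)
    have h3 := Set.ncard_insert_le s ({s * t} : Set G)
    rw [Set.ncard_singleton] at h3
    rw [S.ncard_TT ht] at h1
    omega
  have ty := S.closedI ht e
  obtain ⟨c, hc⟩ := S.exists_TT ty
  have key : ∀ a ∈ S.TT t x, ∃ r, r • x = y ∧ r • y = x ∧ (∀ v ∈ S.IK x y, Commute r v) ∧ r * r = 1 ∧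
      (r * c * r⁻¹ = a ∨ r * c * r⁻¹ = a * t) := fun a ha => by
    obtain ⟨w, hw, z, hz, z1, z2, -, z3, -⟩ := Two.mid S h ht e hxy ha hc
    obtain ⟨r, hr, r1, r2⟩ := Two.swap_cent S h (Or.inr hq) hQ hxy hm tK hw hz z1 z2
    have hwI := S.closedI ht hw
    have r3 : r * c * r⁻¹ = z * c * z⁻¹ := by
      rcases r1 with rfl | rfl
      · rfl
      · rw [mul_inv_rev, ← mul_assoc, mul_assoc z, mul_assoc z,
          conj_eq_of_commute (S.TT_comm ty hc).symm]
    refine ⟨r, ?_, ?_, r2, (S.TT_I hwI hr).2.2, ?_⟩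
    · rcases r1 with rfl | rfl
      exacts [z1, by rw [mul_smul, S.fixI ht, z1]]
    · rcases r1 with rfl | rfl
      exacts [z2, by rw [mul_smul, e, z2]]
    · have b1 := S.TT_conj ty (S.TT_comm hwI hz) hc
      rw [z2] at b1
      rw [r3]
      rcases h x y hxy t ht e _ ((ZZ _ _).mul_mem ((ZZ _ _).inv_mem ha.1) b1.1) (by
        rw [mul_smul, z3 y e, inv_smul_smul]) with e1 | e1
      · exact Or.inl (inv_mul_eq_one.1 e1).symm
      · exact Or.inr (by rw [← e1]; group)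
  obtain ⟨r, r1, r2, r3, r4, r5⟩ := key s sT
  obtain ⟨r', r1', r2', r3', r4', r5'⟩ := key a ha
  have d0 : ∀ v ∈ S.IK x y, Commute (r' * r) v := fun v hv => (r3' v hv).mul_left (r3 v hv)
  have d1 := L.three ht hu.1 hv.1 n1 (S.nm (show (r' * r) • x = x by rw [mul_smul, r1, r2']))
    (by rw [conj_eq_of_commute (d0 t tK)]) (by rw [conj_eq_of_commute (d0 u hu)])
    (by rw [conj_eq_of_commute (d0 v hv)]) hs s1
  have d2 : r' * c * r'⁻¹ = r * c * r⁻¹ := by
    have : Commute (r' * r) (r * c * r⁻¹) := by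
      rcases r5 with e1 | e1 <;> rw [e1]
      exacts [d1, d1.mul_right (d0 t tK)]
    rw [← conj_eq_of_commute this]
    calc _ = r' * ((r * r) * c * (r * r)⁻¹) * r'⁻¹ := by rw [r4]; group
      _ = _ := by group
  simp only [Set.mem_insert_iff, Set.mem_singleton_iff, not_or] at a1
  rcases r5 with e1 | e1 <;> rcases r5' with e2 | e2 <;> rw [e1, e2] at d2
  · exact a1.1 d2
  · exact a1.2 (by rw [← d2, mul_assoc, ht.2.2, mul_one])
  · exact a1.2 d2
  · exact a1.1 (mul_right_cancel d2)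

theorem Two.params (h : S.Two) (hq : q = 4 ∨ q = 8) (hQ : Q = q) (hxy : x ≠ y)
    (hm : (S.IK x y).ncard ≠ 1) (ht : t ∈ S.IK x y) :
    q = 4 ∧ (S.IK x y).ncard = 3 ∧ (S.LL x y).ncard = 2 ∧ (F Ω t).ncard = 3 := by
  have L := S.loc x
  have ty := S.closedI ht.1 ht.2
  have m1 := Two.m_le S h hxy
  have m2 := Nat.odd_iff.1 (Two.odd_m S h hxy)
  have m3 : (S.IK x y).ncard = 3 ∨ ((S.IK x y).ncard = 5 ∧ q = 4) := by
    rcases hq with hq | hq
    · omega
    · have := Two.m_lt S h hq hQ hxy hm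
      omega
  have m4 : ((S.IK x y).ncard).Prime := by
    rcases m3 with e | ⟨e, -⟩ <;> rw [e] <;> norm_num
  obtain ⟨a, ha⟩ := S.exists_TT ht.1
  obtain ⟨c, hc⟩ := S.exists_TT ty
  obtain ⟨w, hw, z, hz, z1, z2, -⟩ := Two.mid S h ht.1 ht.2 hxy ha hc
  obtain ⟨u, hu, -, u1⟩ := Two.swap_cent S h hq hQ hxy hm ht hw hz z1 z2
  have hwI := S.closedI ht.1 hw
  have uI := S.TT_I hwI hu
  obtain ⟨v, hv, v1⟩ := S.exists_IK_ne hm ht
  have f1 : (S.IK x y).ncard ∣ (F Ω t).ncard := by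
    by_contra hne
    have := Fact.mk m4
    have b1 := S.mul_mem_AA h hQ hxy ht hv
    have b2 := (u1 t ht).mul_right (u1 v hv)
    obtain ⟨r, hr, r1⟩ := exists_fixed_elt (p := (S.IK x y).ncard) (g := t * v) (k := 1)
      (X := F Ω u) (by
      rw [pow_one, ← S.card_AA h hQ hxy]
      exact congrArg Subtype.val (pow_card_eq_one' (x := (⟨_, b1⟩ : S.AA h hQ hxy))))
      (Set.toFinite _) (fun p hp => comm_fix b2.symm hp) (by rwa [S.ncard_F uI ht.1])
    have b3 := S.closedI uI hr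
    have b4 := (S.loc r).Z_sq b3 ((S.loc r).cC1 b3 hQ (Two.closedK S h hQ b1.1.1 r1) b2.symm)
    exact v1 ((mul_self_eq_iff hv.1.2.2).1
      (eq_one_of_odd (Two.odd_mul S h hxy ht hv) b4)).symm
  have f2 : 2 ∣ (S.LL x y).ncard := by
    by_contra hne
    obtain ⟨r, hr, r1⟩ := exists_fixed_elt (g := u) (k := 1) (X := S.LL x y)
      (by simpa [sq] using uI.2.2) (Set.toFinite _)
      (fun p hp v hv => comm_fix (u1 v hv) (hp v hv)) hne
    obtain rfl := Two.uniq S h hwI hu (hr t ht) r1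
    exact v1 (Two.eq_of_comm S h hxy hv ht ((S.loc r).trans (S.closedI hv.1 (hr v hv)) uI hwI
      (u1 v hv).symm (u1 t ht)))
  obtain ⟨r, r1, r2, r3, r4⟩ := Two.lines S h hQ hxy hm ht
  replace r4 := r4 m4
  have k1 : 1 < (S.LL x y).ncard := (Set.one_lt_ncard (Set.toFinite _)).2
    ⟨x, fun u hu => S.fixI hu.1, y, fun u hu => hu.2, hxy⟩
  have k2 : 0 < (F Ω t).ncard := (Set.ncard_pos (Set.toFinite _)).2 ⟨x, S.fixI ht.1⟩
  rcases m3 with m3 | ⟨m3, rfl⟩
  · have br : ∀ p : Ω, p ≠ x → t • p = p → ∀ v ∈ S.IK x p, t * v * t⁻¹ = v * t * v⁻¹ :=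
      fun p p1 p2 v hv => braid ht.1.2.2 hv.1.2.2 (by
        rw [← m3, S.ncard_IK hxy p1.symm, ← S.card_AA h hQ p1.symm]
        exact congrArg Subtype.val (pow_card_eq_one'
          (x := (⟨_, S.mul_mem_AA h hQ p1.symm ⟨ht.1, p2⟩ hv⟩ : S.AA h hQ p1.symm))))
    have := L.ncard_le_of_nc
      (X := insert t {u | ¬ Commute t u ∧ ∃ p, t • p = p ∧ p ≠ x ∧ u ∈ S.IK x p}) (by
      rintro _ (rfl | ⟨-, p, -, -, e⟩); exacts [ht.1, e.1]) (by
      rintro _ (rfl | ⟨e1, p, p1, p2, p3⟩) _ (rfl | ⟨e2, p', p1', p2', p3'⟩) e''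
      exacts [rfl, absurd e'' e2, absurd e''.symm e1,
        L.uniq3 ht.1 p3.1 p3'.1 e1 e'' (br p p2 p1 _ p3) (br p' p2' p1' _ p3')])
    rw [Set.ncard_insert_of_notMem (fun e => e.1 (Commute.refl t)) (Set.toFinite _), ← r4, m3]
      at this
    rw [m3] at f1
    generalize (S.LL x y).ncard = k at *
    generalize (F Ω t).ncard = f at *
    rcases hq with rfl | rfl
    · obtain rfl : r = 2 := by omega
      omega
    · obtain rfl : r = 4 := by omega
      omega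
  · have := Set.ncard_le_ncard (t := {v | v ∈ I (S.N x) ∧ ¬ Commute t v})
      (s := {u | ¬ Commute t u ∧ ∃ p, t • p = p ∧ p ≠ x ∧ u ∈ S.IK x p})
      (fun u ⟨h1, _, _, _, h2⟩ => ⟨h2.1, h1⟩) (Set.toFinite _)
    rw [L.ncard_nc ht.1, ← r4, m3, hQ] at this
    rw [m3] at f1
    obtain rfl : r = 2 := by omega
    omega

theorem Two.eleven (h : S.Two) (hq : q = 4 ∨ q = 8) (hQ : Q = q) (hxy : x ≠ y)
    (hm : (S.IK x y).ncard ≠ 1) : q = 4 ∧ Nat.card Ω = 11 ∧ Nat.card G = 660 := by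
  have par : ∀ {x' y' : Ω} {t : G}, x' ≠ y' → t ∈ S.IK x' y' → _ := fun {x' y' t} h' ht =>
    Two.params S h hq hQ h' (S.ncard_IK hxy h' ▸ hm) ht
  obtain ⟨t, ht, e⟩ := S.even x y hxy
  obtain ⟨hq4, m1, -, m2⟩ := par hxy ⟨ht, e⟩
  have hv : Nat.card Ω = 11 := by
    have := S.count_IK hxy ht
    rw [m1, m2, hQ, hq4] at this
    omega
  refine ⟨hq4, hv, ?_⟩
  have L1 : ∀ {x : Ω} {c : G}, Ce (S.N x) c → c • x = x → c = 1 := fun {x c} hc e => by
    obtain ⟨y, hy⟩ := S.exists_ne x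
    obtain ⟨t, ht, -⟩ := S.even x y hy.symm
    refine S.ce_eq_one ht hc fun p hp => ?_
    by_cases hpx : x = p
    · exact hpx ▸ e
    have : ({x, p} : Set Ω) = S.LL x p := Set.eq_of_subset_of_ncard_le (by
      rintro _ (rfl | rfl) u hu
      exacts [S.fixI hu.1, hu.2]) (by rw [(par hpx ⟨ht, hp⟩).2.2.1, Set.ncard_pair hpx])
      (Set.toFinite _)
    rcases (this ▸ fun u hu => comm_fix (hc u hu.1.1) hu.2 : c • p ∈ ({x, p} : Set Ω)) with a | a
    · exact absurd (smul_left_cancel c (e.trans a.symm)) hpx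
    · exact a
  have L3 : ∀ {x y : Ω} {t g z : G}, x ≠ y → t ∈ S.IK x y → g • x = x → g • y = y → Commute g t →
      g ≠ 1 → g ≠ t → z ∈ S.TT t x → g * z * g⁻¹ = z * t := by
    intro x y t g z hxy ht g1 g2 g3 g4 g5 hz
    have L := S.loc x
    have h3 := S.TT_conj ht.1 g3 hz
    rw [g1] at h3
    have m4 := fun w => mem_four (w := w) ((L.cardZ ht.1).trans hq4) (L.self_mem ht.1) hz.1 ht.1.2.1
      hz.2.1 hz.2.2 ht.1.2.2
    refine (((m4 _ h3.1).resolve_left h3.2.1).resolve_left h3.2.2).resolve_left fun e => ?_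
    obtain ⟨r, hr, e1⟩ := L.inn_of_ce ht.1 (S.nm g1) (by
      rw [L.S_eq_Z ht.1 hQ]
      intro w hw
      rcases m4 w hw with rfl | rfl | rfl | rfl
      exacts [Commute.one_right g, g3, commute_of_conj_eq e,
        (commute_of_conj_eq e).mul_right g3])
    obtain rfl := inv_mul_eq_one.1 (L1 e1.ce (by
      rw [mul_smul, g1, inv_smul_eq_iff, S.fixZ ht.1 hr]))
    rcases h x y hxy t ht.1 ht.2 r hr g2 with a | a <;> contradiction
  have L4 : ∀ {x y : Ω} {t g z : G}, x ≠ y → t ∈ S.IK x y → g • x = x → g • y = y →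
      (∀ u ∈ S.IK x y, Commute g u) → g ≠ 1 → g ≠ t → z ∈ S.TT t x →
      ∀ u ∈ S.IK x (z • y), Commute (g * t) u := by
    intro x y t g z hxy ht g1 g2 g3 g4 g5 hz u hu
    have e1 := L3 hxy ht g1 g2 (g3 t ht) g4 g5 hz
    have e2 := S.IK_conj' hu (inv_smul_eq_iff.2 (S.fixZ ht.1 hz.1).symm) (inv_smul_smul z y)
    have e3 := conj_eq_of_commute (g3 _ (S.IK_conj' e2 (S.fixI ht.1) ht.2))
    have e4 := conj_eq_of_commute (S.TT_comm ht.1 hz)
    apply commute_of_conj_eq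
    calc _ = g * (z * t * z⁻¹) * u * (g * (z * t * z⁻¹))⁻¹ := by rw [e4]
      _ = g * z * g⁻¹ * (g * (t * (z⁻¹ * u * z⁻¹⁻¹) * t⁻¹) * g⁻¹) * (g * z * g⁻¹)⁻¹ := by group
      _ = z * (t * t) * z⁻¹ * u * (z * (t * t) * z⁻¹)⁻¹ := by rw [e1, e3]; group
      _ = u := by rw [ht.1.2.2]; group
  have tK : t ∈ S.IK x y := ⟨ht, e⟩
  have L5 : ∀ g : G, g • x = x → g • y = y → (∀ u ∈ S.IK x y, Commute g u) → g = 1 ∨ g = t := by
    intro g g1 g2 g3
    by_contra hne
    push Not at hne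
    have ty := S.closedI ht e
    obtain ⟨z, hz⟩ := S.exists_TT ht
    have w1 : t • z • y = z • y := comm_fix (S.TT_comm ht hz) e
    have w2 : x ≠ z • y := fun e' => hxy (smul_left_cancel z ((S.fixZ ht hz.1).trans e'))
    have w3 : y ≠ z • y := fun e' => hxy (Two.uniq S h ht hz e e'.symm).symm
    have hF : ({x, y, z • y} : Set Ω) = F Ω t := Set.eq_of_subset_of_ncard_le (by
      rintro _ (rfl | rfl | rfl)
      exacts [S.fixI ht, e, w1]) (by
      rw [m2, Set.ncard_insert_of_notMem (by simp [hxy, w2]), Set.ncard_pair w3]) (Set.toFinite _)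
    have mem : ∀ p : Ω, t • p = p → p = x ∨ p = y ∨ p = z • y := fun p hp =>
      (hF ▸ hp : p ∈ ({x, y, z • y} : Set Ω))
    have c1 := L4 hxy tK g1 g2 g3 hne.1 hne.2 hz
    generalize z • y = w at *
    have tw := S.closedI ht w1
    obtain ⟨z', hz'⟩ := S.exists_TT ty
    obtain ⟨z'', hz''⟩ := S.exists_TT tw
    have e1 : z' • x = w := by
      rcases mem _ (comm_fix (S.TT_comm ty hz') (S.fixI ht)) with a | a | a
      · exact absurd (Two.uniq S h ty hz' (S.fixI ht) a) hxy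
      · exact absurd (smul_left_cancel z' (a.trans (S.fixZ ty hz'.1).symm)) hxy
      · exact a
    have e2 : z'' • x = y := by
      rcases mem _ (comm_fix (S.TT_comm tw hz'') (S.fixI ht)) with a | a | a
      · exact absurd (Two.uniq S h tw hz'' (S.fixI ht) a) w2
      · exact a
      · exact absurd (smul_left_cancel z'' (a.trans (S.fixZ tw hz''.1).symm)) w2
    have e3 : g • w = w := by
      rcases mem _ (comm_fix (g3 t tK) w1) with a | a | a
      · exact absurd (smul_left_cancel g (g1.trans a.symm)) w2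
      · exact absurd (smul_left_cancel g (g2.trans a.symm)) w3
      · exact a
    have c2 := L4 hxy.symm (S.IK_symm tK) g2 g1 (fun u hu => g3 u (S.IK_symm hu)) hne.1 hne.2 hz'
    have c3 := L4 w2.symm ⟨tw, S.fixI ht⟩ (g := g * t) (by rw [mul_smul, w1, e3])
      (by rw [mul_smul, S.fixI ht, g1]) (fun u hu => c1 u (S.IK_symm hu))
      (fun e' => hne.2 ((mul_self_eq_iff ht.2.2).1 e')) (fun e' => hne.1 (by simpa using e')) hz''
    rw [e1] at c2
    rw [e2] at c3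
    obtain ⟨u, hu, u1⟩ := S.exists_IK_ne (S.ncard_IK hxy w3 ▸ hm) (show t ∈ S.IK y w from ⟨ty, w1⟩)
    have := (c2 u hu).inv_left.mul_left (c3 u (S.IK_symm hu))
    rw [inv_mul_cancel_left] at this
    exact u1 (Two.eq_of_comm S h w3 ⟨ty, w1⟩ hu this).symm
  have L6 : (⊤ ⊓ stabilizer G x) ⊓ stabilizer G y = S.KK x y := by
    refine le_antisymm (fun g hg => ?_) fun g hg => ⟨⟨trivial, S.fix x g hg.1⟩, hg.2⟩
    obtain ⟨k, hk, k1⟩ := Two.conjK S h hxy (S.IK_conj' tK hg.1.2 hg.2) tK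
    rw [← (S.KK x y).mul_mem_cancel_left hk]
    have g1 : (k * g) • x = x := by rw [mul_smul, hg.1.2, S.fix x k hk.1]
    have g2 : (k * g) • y = y := by rw [mul_smul, hg.2, hk.2]
    have g3 : Commute (k * g) t := commute_of_conj_eq (by rw [← k1]; nth_rw 1 [k1]; group)
    generalize k * g = r at *
    obtain ⟨u, hu, u1⟩ := S.exists_IK_ne hm tK
    have u2 := S.IK_conj' hu (S.fixI ht) e
    have u3 : t * u * t⁻¹ ≠ u := fun e' =>
      u1 (Two.eq_of_comm S h hxy tK hu (commute_of_conj_eq e')).symm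
    have u4 : t * u * t⁻¹ ≠ t := fun e' => u1 (by simpa [mul_inv_eq_iff_eq_mul] using e')
    have hI : ({t, u, t * u * t⁻¹} : Set G) = S.IK x y := Set.eq_of_subset_of_ncard_le (by
      rintro _ (rfl | rfl | rfl)
      exacts [tK, hu, u2]) (by
      rw [m1, Set.ncard_insert_of_notMem (by simp [u1.symm, u4.symm]), Set.ncard_pair u3.symm])
      (Set.toFinite _)
    have key : ∀ r : G, r • x = x → r • y = y → Commute r t → Commute r u → r ∈ S.KK x y :=
      fun r r1 r2 r3 r4 => by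
        rcases L5 r r1 r2 (by
          rw [← hI]
          rintro _ (rfl | rfl | rfl)
          exacts [r3, r4, (r3.mul_right r4).mul_right r3.inv_right]) with rfl | rfl
        exacts [Subgroup.one_mem _, S.IK_KK tK]
    rcases (hI ▸ S.IK_conj' hu g1 g2 : r * u * r⁻¹ ∈ ({t, u, t * u * t⁻¹} : Set G)) with a | a | a
    · rw [← conj_eq_of_commute g3] at a
      exact absurd (by simpa using a) u1
    · exact key r g1 g2 g3 (commute_of_conj_eq a)
    · rw [← (S.KK x y).mul_mem_cancel_left ((S.KK x y).inv_mem (S.IK_KK tK))]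
      refine key _ (by rw [mul_smul, g1, inv_smul_eq_iff, S.fixI ht])
        (by rw [mul_smul, g2, inv_smul_eq_iff, e]) ((Commute.refl t).inv_left.mul_left g3)
        (commute_of_conj_eq ?_)
      rw [show t⁻¹ * r * u * (t⁻¹ * r)⁻¹ = t⁻¹ * (r * u * r⁻¹) * t by group, a]; group
  have e1 := card_eq_orb_mul (⊤ : Subgroup G) x
  have e2 := card_eq_orb_mul (⊤ ⊓ stabilizer G x) y
  rw [L6, Two.card_K S h hQ hxy, m1, show (fun g : G => g • y) '' ↑(⊤ ⊓ stabilizer G x) =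
    Set.univ \ {x} from ?_, Set.ncard_sdiff_singleton_of_mem (Set.mem_univ _), Set.ncard_univ,
    hv] at e2
  · rwa [e2, Subgroup.card_top, show (fun g : G => g • x) '' ↑(⊤ : Subgroup G) = Set.univ from
      Set.eq_univ_of_forall fun p => (S.trans1 x p).imp fun g hg => ⟨trivial, hg⟩, Set.ncard_univ,
      hv] at e1
  ext p
  refine ⟨?_, fun hp => ?_⟩
  · rintro ⟨g, hg, rfl⟩
    exact ⟨trivial, fun e' => hxy (smul_left_cancel g (hg.2.trans e'.symm))⟩
  · obtain ⟨g, g1, g2⟩ := S.two x y x p hxy (Ne.symm hp.2)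
    exact ⟨g, ⟨trivial, g1⟩, g2⟩

end St

end Cfsg.Agent.Bd
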