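import Cfsg.Agent.Lib.Bd.CIC
import Cfsg.Agent.Lib.Bd.TwoF
import Cfsg.Agent.Lib.BdI.Aff
import Cfsg.Agent.Lib.BdR.M1

/-!
# The abstract theorem
-/

set_option autoImplicit false

namespace Cfsg.Agent.Bd

open MulAction Cfsg.Agent.AIC

variable {G Ω : Type*} [Group G] [MulAction G Ω] {q Q : ℕ}

theorem exists_St (a : Ω) (N : Subgroup G) (hle : N ≤ stabilizer G a)
    (hn : ∀ g ∈ stabilizer G a, ∀ n ∈ N, g * n * g⁻¹ ∈ N)
    (hloc : ∀ M : Subgroup G, (M ≃* N) → Loc M q Q)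
    (two : ∀ x y x' y' : Ω, x ≠ y → x' ≠ y' → ∃ g : G, g • x = x' ∧ g • y = y')
    (faith : ∀ g : G, (∀ x : Ω, g • x = x) → g = 1) : Nonempty (St G Ω q Q) := by
  have tr : ∀ x, ∃ g : G, g • a = x := fun x => by
    by_cases h : a = x
    · exact ⟨1, by rw [one_smul, h]⟩
    · exact (two a x x a h (Ne.symm h)).imp fun _ e => e.1
  choose g hg using tr
  refine ⟨⟨fun x => N.map (MulAut.conj (g x)).toMonoidHom,
    fun x => hloc _ ((MulAut.conj (g x)).subgroupMap N).symm, ?_, ?_, two, faith⟩⟩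
  · rintro x _ ⟨n, hn', rfl⟩
    have := (conj_fix (g := g x)).2 (hle hn')
    rwa [hg] at this
  · rintro k x _ ⟨n, hn', rfl⟩
    refine ⟨_, hn ((g (k • x))⁻¹ * k * g x) ?_ n hn', by simp [mul_assoc]⟩
    rw [mem_stabilizer_iff, mul_smul, mul_smul, hg, inv_smul_eq_iff, hg]

theorem St.main [Finite G] [Finite Ω] (S : St G Ω q Q) (x : Ω) :
    (q = 4 ∧ Q = q ∧ Nat.card Ω = 6 ∧ 360 ≤ Nat.card G) ∨
    (q = 4 ∧ Q = q ∧ Nat.card Ω = 11 ∧ Nat.card G = 660) ∨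
    ∃ R : Subgroup G, R.Normal ∧ (∀ x y : Ω, ∃ r ∈ R, r • x = y) ∧
      ∀ x : Ω, ∀ r ∈ R, r • x = x → r = 1 := by
  obtain ⟨y, hy⟩ := S.exists_ne x
  by_cases hF : S.Full
  · obtain ⟨t, ht, -⟩ := S.even x y hy.symm
    by_cases hk : (F Ω t).ncard = Q
    · exact Or.inr (Or.inr (BdI.affine S hF ht hk))
    have hQ := St.Full.Q_eq S hF ht hk
    obtain ⟨h1, h2⟩ := St.Full.six S hF hQ ht hk
    refine Or.inl ⟨h1, hQ, h2, ?_⟩
    have L := S.loc x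
    have e1 := card_eq_orb_mul (⊤ : Subgroup G) x
    rw [Subgroup.card_top, show (fun g : G => g • x) '' ↑(⊤ : Subgroup G) = Set.univ from
      Set.eq_univ_of_forall fun p => (S.trans1 x p).imp fun g hg => ⟨trivial, hg⟩, Set.ncard_univ,
      h2] at e1
    have e2 := Subgroup.card_le_of_le (H := S.N x) (K := ⊤ ⊓ stabilizer G x)
      fun n hn => ⟨trivial, S.fix x n hn⟩
    have e3 := Subgroup.card_le_of_le (H := ZZ (S.N x) t) (K := S.N x ⊓ Subgroup.centralizer {t})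
      fun z hz => ⟨L.Z_le ht hz, mem_T.2 (L.Z_comm ht hz)⟩
    rw [L.card_M ht] at e2
    rw [L.cardZ ht] at e3
    generalize Nat.card ↥(S.N x ⊓ Subgroup.centralizer {t}) = c at *
    rw [hQ, h1] at e2
    omega
  · obtain ⟨h, hq⟩ := S.two_of_not_full hF
    have hQ := St.Two.Q_eq S h hq x
    obtain ⟨h1, h2, h3⟩ := St.Two.eleven S h hq hQ hy.symm (BdR.not_m_one S h hq hQ hy.symm)
    exact Or.inr (Or.inl ⟨h1, hQ, h2, h3⟩)

end Cfsg.Agent.Bd
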