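import Cfsg.Agent.Lib.Bd.Closed2

/-!
# The order of `Z ∩ G_y`
-/

set_option autoImplicit false

namespace Cfsg.Agent.Bd

open MulAction Cfsg.Agent.AIC

variable {G Ω : Type*} [Group G] [MulAction G Ω] {q Q : ℕ}

theorem card_mul_le_of_inf [Finite G] {A B Z : Subgroup G} (hA : A ≤ Z) (hB : B ≤ Z)
    (h : ∀ a ∈ A, a ∈ B → a = 1) : Nat.card A * Nat.card B ≤ Nat.card Z := by
  rw [← Nat.card_prod]
  refine Nat.card_le_card_of_injective
    (fun p : A × B => (⟨p.1 * p.2, Z.mul_mem (hA p.1.2) (hB p.2.2)⟩ : Z)) ?_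
  rintro ⟨a, b⟩ ⟨c, d⟩ e
  have e1 : (a : G) * b = c * d := congrArg Subtype.val e
  have e2 : (c : G)⁻¹ * a = d * b⁻¹ := by
    rw [inv_mul_eq_iff_eq_mul, ← mul_assoc, ← e1]; simp
  have e3 := h _ (A.mul_mem (A.inv_mem c.2) a.2) (by rw [e2]; simpa using B.mul_mem d.2 (B.inv_mem b.2))
  rw [e3] at e2
  exact Prod.ext (Subtype.ext (inv_mul_eq_one.1 e3).symm) (Subtype.ext (mul_inv_eq_one.1 e2.symm).symm)

namespace St

variable (S : St G Ω q Q) {x y w : Ω} {g t u b n z : G}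

/-- only `t` fixes a further point -/
def Two : Prop := ∀ x y : Ω, x ≠ y → ∀ t ∈ I (S.N x), t • y = y → ∀ z ∈ ZZ (S.N x) t, z • y = y →
  z = 1 ∨ z = t

variable [Finite G] [Finite Ω]

theorem Z_move (ht : t ∈ I (S.N x)) (e : t • y = y) (hz : z ∈ ZZ (S.N x) t) (e' : z • y = y) :
    z ∈ ZZ (S.N y) t := by
  by_cases h1 : z = 1
  · rw [h1]; exact Subgroup.one_mem _
  exact (S.loc y).memZ' (S.closedI ht e) (S.closedI ((S.loc x).Z_I ht hz h1) e')
    ((S.loc x).Z_comm ht hz)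

theorem Full.Z_eq (h : S.Full) (ht : t ∈ I (S.N x)) (e : t • y = y) :
    ZZ (S.N x) t = ZZ (S.N y) t :=
  le_antisymm (fun z hz => S.Z_move ht e hz (h x y t ht e z hz)) fun z hz =>
    S.Z_move (S.closedI ht e) (S.fixI ht) hz (h y x t (S.closedI ht e) (S.fixI ht) z hz)

theorem bor_of_full (hF : S.Full) : S.Bor := by
  by_contra h
  have hR : ∀ {x y : Ω} {t s : G}, x ≠ y → t ∈ I (S.N x) → t • y = y → s ∈ SS (S.N x) t →
      s • y = y → s ∈ ZZ (S.N x) t := by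
    intro x y t s hxy ht e hs e'
    have L := S.loc x
    by_contra hne
    obtain ⟨a, ha, c, hc, e1, e2, e3⟩ := S.of_not_bor h hxy
    obtain ⟨k, hk, e4, e5⟩ : ∃ k ∈ I (S.N x), k • y = y ∧ ¬ Commute t k := by
      by_cases e4 : Commute a t
      · exact ⟨c, hc, e2, fun e5 => e3 (L.trans ha ht hc e4 e5)⟩
      · exact ⟨a, ha, e1, fun e5 => e4 e5.symm⟩
    exact S.not_all hxy.symm (L.gen (K := stabilizer G y) ht hk e5 (hF x y t ht e) (hF x y k hk e4)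
      hs e' fun e6 => hne (L.memZ_of_sq ht hs e6))
  obtain ⟨x⟩ : Nonempty Ω := by
    unfold Bor at h; push Not at h; exact ⟨h.choose⟩
  obtain ⟨y, hy⟩ := S.exists_ne x
  obtain ⟨t, ht, e⟩ := S.even x y hy.symm
  have L := S.loc x
  have hQ : Q ≠ q := fun e' => S.not_S_le h hy.symm ht (by
    rw [L.S_eq_Z ht e']; exact hF x y t ht e)
  have se : SE (F Ω t) (Subgroup.centralizer (ZZ (S.N x) t))
      fun w => {s | s ∈ SS (S.N w) t ∧ s ∉ ZZ (S.N x) t} := by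
    have c1 : ∀ g ∈ Subgroup.centralizer (ZZ (S.N x) t : Set G), Commute g t := fun g hg =>
      (hg t (L.self_mem ht)).symm
    refine ⟨fun g hg p hp => comm_fix (c1 g hg) hp, fun w hw a ha z hz => ?_,
      fun w hw a ha => S.fixS (S.closedI ht hw) ha.1, fun w hw a ha p hp => ?_,
      fun w hw a ha p hp e1 => ?_, fun g hg w hw a ha => ⟨?_, fun e1 => ha.2 ?_⟩,
      fun w hw a ha b hb _ p hp e1 e2 r hr => ?_⟩
    · rw [SetLike.mem_coe, Full.Z_eq S hF ht hw] at hz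
      exact ((S.loc w).comm (S.closedI ht hw) hz ha.1).symm
    · exact hF w p t (S.closedI ht hw) hp _ ((S.loc w).sq_mem (S.closedI ht hw) ha.1)
    · by_contra hne
      exact ha.2 (Full.Z_eq S hF ht hw ▸ hR (Ne.symm hne) (S.closedI ht hw) hp ha.1 e1)
    · have := S.conjS g (S.closedI ht hw) ha.1
      rwa [conj_eq_of_commute (c1 g hg)] at this
    · have e2 : Commute g (g * a * g⁻¹) := (hg _ e1).symm
      rwa [← conj_eq_of_commute e2.inv_left,
        show g⁻¹ * (g * a * g⁻¹) * g⁻¹⁻¹ = a by group] at e1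
    · exact hF w r t (S.closedI ht hw) hr _ (hR e1.symm (S.closedI ht hw) hp
        ((SS _ _).mul_mem ha.1 hb.1) e2)
  have nz : ∀ {w : Ω} {s : G}, t • w = w → s * s ≠ 1 → s ∉ ZZ (S.N x) t := fun _ h1 h2 =>
    h1 (L.Z_sq ht h2)
  obtain ⟨z, hz, z1, z2, -⟩ := L.exists_Z_ne ht 1 t t
  obtain ⟨a, ha, a1⟩ := L.sq ht hQ (L.self_mem ht)
  obtain ⟨a', ha', a2⟩ := L.sq ht hQ hz
  obtain ⟨c, hc, a3⟩ := (S.loc y).sq (S.closedI ht e) hQ ((S.loc y).self_mem (S.closedI ht e))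
  obtain ⟨w, hw, s, hs, w', hw', s', hs', f1, f2, f3, f4, f5⟩ := se.conj2 (S.fixI ht) e hy.symm
    (a := a) (a' := a') (c := c) ⟨ha, nz e (a1 ▸ ht.2.1)⟩ ⟨ha', nz e (a2 ▸ z1)⟩
    ⟨hc, nz e (a3 ▸ ht.2.1)⟩
  have g1 : Commute (s' * s) t :=
    ((Subgroup.mul_mem _ (se.mem w' hw' s' hs') (se.mem w hw s hs)) t (L.self_mem ht)).symm
  have g2 : s' * s * a * (s' * s)⁻¹ ∈ SS (S.N x) t := by
    have := S.conjS (s' * s) ht ha
    rwa [conj_eq_of_commute g1, mul_smul, f1, f4] at this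
  have g3 := hR hy.symm ht e ((SS _ _).mul_mem ((SS _ _).inv_mem g2) ha') (by
    rw [mul_smul, ← f5 y e, inv_smul_smul])
  have g4 : s' * s * a * (s' * s)⁻¹ * (s' * s * a * (s' * s)⁻¹) = t := by
    rw [← conj_eq_of_commute g1, ← a1]; group
  generalize s' * s * a * (s' * s)⁻¹ = r at *
  refine z2 ?_
  rw [← a2, ← mul_inv_cancel_left r a', mul_assoc r, ← mul_assoc _ r, ← (L.comm ht g3 g2).eq,
    mul_assoc r, L.Z_sq ht g3, mul_one, g4]

theorem V_eq (hxy : x ≠ y) (ht : t ∈ I (S.N x)) (e : t • y = y) {w p : Ω} (hwp : w ≠ p)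
    (hw : ∀ v ∈ ZZ (S.N x) t ⊓ stabilizer G y, v • w = w)
    (hp : ∀ v ∈ ZZ (S.N x) t ⊓ stabilizer G y, v • p = p) :
    ZZ (S.N x) t ⊓ stabilizer G y = ZZ (S.N w) t ⊓ stabilizer G p := by
  have t1 := hw t ⟨(S.loc x).self_mem ht, e⟩
  exact Subgroup.eq_of_le_of_card_ge (fun v hv => ⟨S.Z_move ht t1 hv.1 (hw v hv), hp v hv⟩)
    (S.card_V hwp hxy (S.closedI ht t1) ht (hp t ⟨(S.loc x).self_mem ht, e⟩) e).le

theorem se_V (hxy : x ≠ y) (ht : t ∈ I (S.N x)) (e : t • y = y) :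
    SE {w : Ω | ∀ v ∈ ZZ (S.N x) t ⊓ stabilizer G y, v • w = w}
      (Subgroup.centralizer ↑(ZZ (S.N x) t ⊓ stabilizer G y))
      fun w => {s | s ∈ ZZ (S.N w) t ∧ s ∉ ZZ (S.N x) t ⊓ stabilizer G y} := by
  have tV : t ∈ ZZ (S.N x) t ⊓ stabilizer G y := ⟨(S.loc x).self_mem ht, e⟩
  refine ⟨fun g hg p hp v hv => comm_fix (hg v hv).symm (hp v hv), fun w hw a ha z hz => ?_,
    fun w hw a ha => S.fixZ (S.closedI ht (hw t tV)) ha.1, fun w hw a ha p hp => ?_,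
    fun w hw a ha p hp e1 => ?_, fun g hg w hw a ha => ⟨?_, fun e1 => ha.2 ?_⟩,
    fun w hw a ha b hb _ p hp e1 e2 r hr => ?_⟩
  · exact (S.loc w).ZZ_comm (S.closedI ht (hw t tV)) (S.Z_move ht (hw t tV) hz.1 (hw z hz)) ha.1
  · rw [(S.loc w).Z_sq (S.closedI ht (hw t tV)) ha.1, one_smul]
  · by_contra hne
    exact ha.2 (S.V_eq hxy ht e (Ne.symm hne) hw hp ▸ ⟨ha.1, e1⟩)
  · have := S.conjZ g (S.closedI ht (hw t tV)) ha.1
    rwa [conj_eq_of_commute (hg t tV).symm] at this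
  · have e2 : Commute g (g * a * g⁻¹) := (hg _ e1).symm
    rwa [← conj_eq_of_commute e2.inv_left,
      show g⁻¹ * (g * a * g⁻¹) * g⁻¹⁻¹ = a by group] at e1
  · exact hr _ (S.V_eq hxy ht e e1.symm hw hp ▸ ⟨(ZZ _ _).mul_mem ha.1 hb.1, e2⟩)

theorem two_of_not_full (hF : ¬ S.Full) : S.Two ∧ (q = 4 ∨ q = 8) := by
  have key : ∀ {x y : Ω} {t : G}, x ≠ y → t ∈ I (S.N x) → t • y = y →
      Nat.card ↥(ZZ (S.N x) t ⊓ stabilizer G y) = 2 ∧ (q = 4 ∨ q = 8) := by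
    intro x y t hxy ht e
    have L := S.loc x
    have ty := S.closedI ht e
    have tV : t ∈ ZZ (S.N x) t ⊓ stabilizer G y := ⟨L.self_mem ht, e⟩
    have se := S.se_V hxy ht e
    have hx : ∀ v ∈ ZZ (S.N x) t ⊓ stabilizer G y, v • x = x := fun v hv => S.fixZ ht hv.1
    obtain ⟨z, hz, z1⟩ := S.of_not_full hF hxy ht e
    obtain ⟨c, hc, c1⟩ := S.of_not_full hF hxy.symm ty (S.fixI ht)
    have := L.lin ht (V := ZZ (S.N x) t ⊓ stabilizer G y) inf_le_left tV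
      (fun e' => z1 (by rw [← e'] at hz; exact hz.2)) fun a ha a1 a' ha' a2 => by
        obtain ⟨w, hw, s, hs, w', hw', s', hs', f1, f2, f3, f4, f5⟩ := se.conj2 hx
          (fun v hv => hv.2) hxy (a := a) (a' := a') (c := c) ⟨ha, a1⟩ ⟨ha', a2⟩
          ⟨hc, fun e' => c1 (hx c e')⟩
        have g0 := Subgroup.mul_mem _ (se.mem w' hw' s' hs') (se.mem w hw s hs)
        have g1 : (s' * s) • x = x := by rw [mul_smul, f1, f4]
        refine ⟨s' * s, S.nm g1, fun v hv => (g0 v hv).symm, (ZZ _ _).mul_mem ?_ ha', ?_⟩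
        · have := S.conjZ (s' * s) ht ha
          rwa [conj_eq_of_commute (g0 t tV).symm, g1] at this
        · change _ • y = y
          rw [mul_smul, f5 _ (se.inv _ (se.mem x hx a' ⟨ha', a2⟩) y fun v hv => hv.2), ← mul_smul,
            L.Z_sq ht ha', one_smul]
    refine this.elim (fun hq => ?_) fun hq => ⟨hq.2, Or.inr hq.1⟩
    suffices q = 4 by omega
    by_contra hq4
    have zI := L.Z_I ht hz fun e' => z1 (by rw [e', one_smul])
    obtain ⟨k, hk, k1⟩ := L.conj_all zI ht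
    have kx := S.fix x k hk
    have k2 : ∀ a, k * a * k⁻¹ ∈ ZZ (S.N x) t ↔ a ∈ ZZ (S.N x) t := fun a => by
      have := S.conjZ_iff k zI (z := a)
      rwa [kx, k1, L.Z_eq zI ht (L.Z_comm ht hz)] at this
    have t1 : t • k • y ≠ k • y := by rw [← k1]; exact fun e' => z1 (conj_fix.1 e')
    have w1 : x ≠ k • y := fun e' => hxy (smul_left_cancel k (kx.trans e'))
    obtain ⟨a, ha, a1, a2⟩ : ∃ a ∈ ZZ (S.N x) t ⊓ stabilizer G y,
        a ∈ ZZ (S.N x) t ⊓ stabilizer G (k • y) ∧ a ≠ 1 := by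
      by_contra hne
      push Not at hne
      have h1 := card_mul_le_of_inf inf_le_left inf_le_left hne
      rw [← card_eq_of_conj (A := ZZ (S.N x) t ⊓ stabilizer G y)
        (B := ZZ (S.N x) t ⊓ stabilizer G (k • y)) k (fun a => by
        simp only [Subgroup.mem_inf, k2, mem_stabilizer_iff, conj_fix]), L.cardZ ht] at h1
      have h2 := L.four_dvd
      have h3 := L.four_le
      generalize Nat.card ↥(ZZ (S.N x) t ⊓ stabilizer G y) = c at *
      have : 4 ≤ c := by omega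
      nlinarith
    have aI := L.Z_I ht ha.1 a2
    have ay := S.closedI aI ha.2
    have w2 : y ≠ k • y := fun e' => t1 (e' ▸ e)
    have ta := L.memZ' aI ht (L.Z_comm ht ha.1).symm
    have b1 := S.V_eq w1 aI a1.2 t1.symm (fun v hv => hv.2) fun v hv =>
      comm_fix (L.ZZ_comm aI ta hv.1) hv.2
    have b2 := S.V_eq w2 ay a1.2 t1.symm (fun v hv => hv.2) fun v hv =>
      comm_fix ((S.loc y).ZZ_comm ay (S.Z_move aI ha.2 ta e) hv.1) hv.2
    have b3 := S.V_eq w1 aI a1.2 hxy (fun v hv => S.fixZ aI hv.1) fun v hv => by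
      rw [b1, ← b2] at hv
      exact S.fixZ ay hv.1
    exact t1 (b3 ▸ (⟨ta, e⟩ : t ∈ ZZ (S.N x) a ⊓ stabilizer G y) :
      t ∈ ZZ (S.N x) a ⊓ stabilizer G (k • y)).2
  refine ⟨fun x y hxy t ht e z hz e' => ?_, ?_⟩
  · by_contra hne
    push Not at hne
    have h1 := (key hxy ht e).1
    rw [← ncard_sub] at h1
    have h2 := Set.ncard_le_ncard (s := {1, t, z}) (t := ↑(ZZ (S.N x) t ⊓ stabilizer G y)) (by
      rintro _ (rfl | rfl | rfl)
      exacts [Subgroup.one_mem _, ⟨(S.loc x).self_mem ht, e⟩, ⟨hz, e'⟩]) (Set.toFinite _)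
    rw [Set.ncard_insert_of_notMem (by simp [ht.2.1.symm, hne.1.symm]),
      Set.ncard_pair hne.2.symm] at h2
    omega
  · obtain ⟨x⟩ : Nonempty Ω := by
      unfold Full at hF; push Not at hF; exact ⟨hF.choose⟩
    obtain ⟨y, hy⟩ := S.exists_ne x
    obtain ⟨t, ht, e⟩ := S.even x y hy.symm
    exact (key hy.symm ht e).2

end St

end Cfsg.Agent.Bd
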