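import Cfsg.Agent.Lib.Bd.Loc

/-!
# The doubly transitive group: setting, and the case of odd two point stabilizers
-/

set_option autoImplicit false

namespace Cfsg.Agent.Bd

open MulAction Cfsg.Agent.AIC

/-- the setting -/
structure St (G Ω : Type*) [Group G] [MulAction G Ω] (q Q : ℕ) where
  /-- the normal subgroups of the point stabilizers -/
  N : Ω → Subgroup G
  loc : ∀ x, Loc (N x) q Q
  fix : ∀ x, ∀ n ∈ N x, n • x = x
  conj : ∀ (g : G) x, ∀ n ∈ N x, g * n * g⁻¹ ∈ N (g • x)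
  two : ∀ x y x' y' : Ω, x ≠ y → x' ≠ y' → ∃ g : G, g • x = x' ∧ g • y = y'
  faith : ∀ g : G, (∀ x : Ω, g • x = x) → g = 1

variable {G Ω : Type*} [Group G] [MulAction G Ω] {q Q : ℕ}

/-- fixed points -/
def F (Ω : Type*) [MulAction G Ω] (t : G) : Set Ω := {w | t • w = w}

theorem mem_F {t : G} {w : Ω} : w ∈ F Ω t ↔ t • w = w := Iff.rfl

theorem conj_fix {g t : G} {w : Ω} : (g * t * g⁻¹) • g • w = g • w ↔ t • w = w := by
  simp [mul_smul]

theorem conj_fix' {g t : G} {w : Ω} : (g * t * g⁻¹) • w = w ↔ t • g⁻¹ • w = g⁻¹ • w := by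
  rw [← conj_fix (g := g) (t := t) (w := g⁻¹ • w), smul_inv_smul]

theorem comm_fix {g t : G} {w : Ω} (e : Commute g t) (h : t • w = w) : t • g • w = g • w := by
  rw [← mul_smul, ← e.eq, mul_smul, h]

theorem F_conj (g t : G) : F Ω (g * t * g⁻¹) = (fun w => g • w) '' F Ω t := by
  ext w
  rw [mem_F, conj_fix']
  exact ⟨fun h => ⟨_, h, smul_inv_smul g w⟩, by rintro ⟨v, hv, rfl⟩; simpa [F] using hv⟩

theorem ncard_F_conj (g t : G) : (F Ω (g * t * g⁻¹)).ncard = (F Ω t).ncard := by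
  rw [F_conj, Set.ncard_image_of_injective _ (MulAction.injective g)]

namespace St

variable (S : St G Ω q Q) {x y : Ω} {g t u : G}

theorem nm (h : g • x = x) : Nm (S.N x) g := fun m hm => by
  have := S.conj g x m hm
  rwa [h] at this

theorem conjI (g : G) (ht : t ∈ I (S.N x)) : g * t * g⁻¹ ∈ I (S.N (g • x)) :=
  ⟨S.conj g x t ht.1, ht.2.conj g⟩

theorem conjI' (ht : t ∈ I (S.N x)) (h : g • x = y) : g * t * g⁻¹ ∈ I (S.N y) :=
  h ▸ S.conjI g ht

theorem conjZ (g : G) (ht : t ∈ I (S.N x)) {z : G} (hz : z ∈ ZZ (S.N x) t) :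
    g * z * g⁻¹ ∈ ZZ (S.N (g • x)) (g * t * g⁻¹) :=
  (S.loc x).conjZ (S.loc _) (S.conj g x) ht hz

theorem conjS (g : G) (ht : t ∈ I (S.N x)) {z : G} (hz : z ∈ SS (S.N x) t) :
    g * z * g⁻¹ ∈ SS (S.N (g • x)) (g * t * g⁻¹) :=
  (S.loc x).conjS (S.loc _) (S.conj g x) ht hz

theorem conjZ_iff (g : G) (ht : t ∈ I (S.N x)) {z : G} :
    g * z * g⁻¹ ∈ ZZ (S.N (g • x)) (g * t * g⁻¹) ↔ z ∈ ZZ (S.N x) t :=
  ⟨fun h => by simpa [mul_assoc] using S.conjZ g⁻¹ (S.conjI g ht) h, S.conjZ g ht⟩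

theorem conjS_iff (g : G) (ht : t ∈ I (S.N x)) {z : G} :
    g * z * g⁻¹ ∈ SS (S.N (g • x)) (g * t * g⁻¹) ↔ z ∈ SS (S.N x) t :=
  ⟨fun h => by simpa [mul_assoc] using S.conjS g⁻¹ (S.conjI g ht) h, S.conjS g ht⟩

theorem conj_iff (g : G) {n : G} : g * n * g⁻¹ ∈ S.N (g • x) ↔ n ∈ S.N x :=
  ⟨fun h => by simpa [mul_assoc] using S.conj g⁻¹ _ _ h, S.conj g x n⟩

theorem fixI (ht : t ∈ I (S.N x)) : t • x = x := S.fix x t ht.1

theorem fixZ (ht : t ∈ I (S.N x)) {z : G} (hz : z ∈ ZZ (S.N x) t) : z • x = x :=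
  S.fix x z ((S.loc x).Z_le ht hz)

theorem fixS (ht : t ∈ I (S.N x)) {z : G} (hz : z ∈ SS (S.N x) t) : z • x = x :=
  S.fix x z ((S.loc x).S_le ht hz)

theorem not_all (h : y ≠ x) : ¬ ∀ v ∈ I (S.N x), v • y = y := fun e => by
  obtain ⟨t, ht, -⟩ := (S.loc x).nc
  refine ht.2.1 (S.faith t fun w => ?_)
  by_cases hw : w = x
  · rw [hw]; exact S.fixI ht
  obtain ⟨g, h1, h2⟩ := S.two x w x y (Ne.symm hw) h.symm
  have := e _ (S.conjI' ht h1)
  rwa [← h2, conj_fix] at this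

include S in
theorem exists_ne (x : Ω) : ∃ y, y ≠ x := by
  by_contra hne
  push Not at hne
  obtain ⟨t, ht, -⟩ := (S.loc x).nc
  exact ht.2.1 (S.faith t fun w => by rw [hne w, hne (t • x)])

include S in
theorem trans1 (x y : Ω) : ∃ g : G, g • x = y := by
  obtain ⟨x', h1⟩ := S.exists_ne x
  obtain ⟨y', h2⟩ := S.exists_ne y
  obtain ⟨g, h, -⟩ := S.two x x' y y' h1.symm h2.symm
  exact ⟨g, h⟩

variable [Finite G]

theorem conjD (ht : t ∈ I (S.N x)) (hu : u ∈ I (S.N y)) :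
    ∃ g : G, g • x = y ∧ g * t * g⁻¹ = u := by
  obtain ⟨g, hg⟩ := S.trans1 x y
  obtain ⟨k, hk, e⟩ := (S.loc y).conj_all (S.conjI' ht hg) hu
  exact ⟨k * g, by rw [mul_smul, hg, S.fix y k hk], by rw [← e]; group⟩

theorem ncard_F (ht : t ∈ I (S.N x)) (hu : u ∈ I (S.N y)) : (F Ω t).ncard = (F Ω u).ncard := by
  obtain ⟨g, -, rfl⟩ := S.conjD ht hu
  exact (ncard_F_conj g t).symm

theorem mem_norm_iff (ht : t ∈ I (S.N x)) (hg : g • x = x) :
    g ∈ Subgroup.normalizer (ZZ (S.N x) t : Set G) ↔ Commute (g * t * g⁻¹) t := by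
  constructor
  · intro h
    exact (S.loc x).Z_comm ht ((Subgroup.mem_normalizer_iff.1 h t).1 ((S.loc x).self_mem ht))
  · intro h
    have h1 := (S.loc x).nmZ ht (S.nm hg) h
    rw [Subgroup.mem_normalizer_iff]
    exact fun z => ⟨h1 z, fun hz => by simpa [mul_assoc] using h1.inv _ hz⟩

/-- an odd order subgroup of a point stabilizer is not transitive on the involutions -/
theorem not_trans {J : Subgroup G} (hJ : ¬ 2 ∣ Nat.card J) (hx : ∀ g ∈ J, g • x = x)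
    (htr : ∀ t ∈ I (S.N x), ∀ u ∈ I (S.N x), ∃ j ∈ J, j * t * j⁻¹ = u) : False := by
  have L := S.loc x
  have h4 := L.four_le
  obtain ⟨p, hp, hpq⟩ := Nat.exists_prime_and_dvd (show q - 1 ≠ 1 by omega)
  have : Fact p.Prime := ⟨hp⟩
  have cJ : ∀ t ∈ I (S.N x), Nat.card J =
      (Q + 1) * (q - 1) * Nat.card ↥(J ⊓ Subgroup.centralizer {t}) := fun t ht => by
    rw [card_eq_cls_mul J t, ← L.ncard_I]
    congr 2
    ext v
    exact ⟨by rintro ⟨k, hk, rfl⟩; exact S.conjI' ht (hx k hk), fun hv => htr t ht v hv⟩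
  have cA : ∀ t ∈ I (S.N x), Nat.card ↥(J ⊓ Subgroup.normalizer (ZZ (S.N x) t : Set G)) =
      (q - 1) * Nat.card ↥(J ⊓ Subgroup.centralizer {t}) := fun t ht => by
    rw [card_eq_cls_mul _ t, ← L.ncard_Z ht]
    congr 2
    · ext v
      constructor
      · rintro ⟨k, hk, rfl⟩
        have h1 := S.conjI' ht (hx k hk.1)
        exact ⟨L.memZ' ht h1 ((S.mem_norm_iff ht (hx k hk.1)).1 hk.2), h1.2.1⟩
      · rintro ⟨h1, h2⟩
        obtain ⟨j, hj, e⟩ := htr t ht v (L.Z_I ht h1 h2)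
        exact ⟨j, ⟨hj, (S.mem_norm_iff ht (hx j hj)).2 (e ▸ L.Z_comm ht h1)⟩, e⟩
    · have : J ⊓ Subgroup.normalizer (ZZ (S.N x) t : Set G) ⊓ Subgroup.centralizer {t} =
          J ⊓ Subgroup.centralizer {t} := by
        refine le_antisymm (inf_le_inf_right _ inf_le_left) fun g hg => ⟨⟨hg.1, ?_⟩, hg.2⟩
        exact (S.mem_norm_iff ht (hx g hg.1)).2 (by
          rw [conj_eq_of_commute (mem_T.1 hg.2)])
      rw [this]
  have cC : ∀ t ∈ I (S.N x), ∀ u ∈ I (S.N x), Nat.card ↥(J ⊓ Subgroup.centralizer {t}) =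
      Nat.card ↥(J ⊓ Subgroup.centralizer {u}) := fun t ht u hu =>
    Nat.eq_of_mul_eq_mul_left (Nat.mul_pos (Nat.succ_pos Q) (by omega))
      ((cJ t ht).symm.trans (cJ u hu))
  obtain ⟨t, ht, -⟩ := L.nc
  obtain ⟨P, hPA, hP⟩ := exists_sylow p (J ⊓ Subgroup.normalizer (ZZ (S.N x) t : Set G))
  have hPp : IsPGroup p P := IsPGroup.of_card hP
  have noC : ∀ z ∈ I (S.N x), ¬ ∀ g ∈ P, Commute g z := fun z hz e => by
    have h1 : Nat.card P ∣ Nat.card ↥(J ⊓ Subgroup.centralizer {z}) :=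
      Subgroup.card_dvd_of_le fun g hg => ⟨(hPA hg).1, mem_T.2 (e g hg)⟩
    rw [hP, cA t ht, cC z hz t ht] at h1
    have hc : Nat.card ↥(J ⊓ Subgroup.centralizer {t}) ≠ 0 := Nat.card_pos.ne'
    have h2 := (hp.pow_dvd_iff_le_factorization hc).1 h1
    rw [Nat.factorization_mul (by omega) hc, Finsupp.add_apply] at h2
    have h3 := hp.factorization_pos_of_dvd (show q - 1 ≠ 0 by omega) hpq
    omega
  have hPt : ∀ g ∈ P, Commute (g * t * g⁻¹) t := fun g hg =>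
    (S.mem_norm_iff ht (hx g (hPA hg).1)).1 (hPA hg).2
  -- a second fixed class
  obtain ⟨u, hu, htu, hPu⟩ : ∃ u ∈ I (S.N x), ¬ Commute t u ∧
      ∀ g ∈ P, Commute (g * u * g⁻¹) u := by
    let B : G → Set G := fun v => (ZZ (S.N x) v : Set G) \ {1}
    have h1 := ncard_eq_blocks (X := {v | v ∈ I (S.N x) ∧ ¬ Commute t v}) (Set.toFinite _) B
      (k := q - 1) (fun w hw => ⟨L.self_mem hw.1, hw.1.2.1⟩)
      (fun w hw v hv => ⟨L.Z_I hw.1 hv.1 hv.2, fun e =>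
        hw.2 (L.trans ht (L.Z_I hw.1 hv.1 hv.2) hw.1 e (L.Z_comm hw.1 hv.1))⟩)
      (fun w hw => L.ncard_Z hw.1) (fun w hw v hv => by
        simp only [B]; rw [L.Z_eq (L.Z_I hw.1 hv.1 hv.2) hw.1 (L.Z_comm hw.1 hv.1)])
    rw [L.ncard_nc ht] at h1
    have h2 := Nat.eq_of_mul_eq_mul_right (by omega) h1
    have hB : ∀ g ∈ P, ∀ v ∈ I (S.N x), (fun a => g * a * g⁻¹) '' B v = B (g * v * g⁻¹) :=
      fun g hg v hv => by
        have e := hx g (hPA hg).1
        ext a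
        constructor
        · rintro ⟨b, hb, rfl⟩
          refine ⟨by have := S.conjZ g hv hb.1; rwa [e] at this, fun e' => hb.2 ?_⟩
          simpa using conj_eq_one_iff.1 e'
        · rintro ⟨h1, h2⟩
          refine ⟨g⁻¹ * a * g, ⟨?_, fun e' => h2 ?_⟩, by group⟩
          · rw [SetLike.mem_coe, ← S.conjZ_iff g hv, e]
            simpa [mul_assoc] using h1
          · have : a = g * (g⁻¹ * a * g) * g⁻¹ := by group
            rw [this, Set.mem_singleton_iff.1 e']; simp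
    obtain ⟨_, ⟨u, hu, rfl⟩, h3⟩ := @exists_fixed G _ (Set G) (cjSet G) p _ P hPp
      (B '' {v | v ∈ I (S.N x) ∧ ¬ Commute t v}) (Set.toFinite _) (by
        rintro g hg _ ⟨v, hv, rfl⟩
        have a1 := S.conjI' hv.1 (hx g (hPA hg).1)
        refine ⟨g * v * g⁻¹, ⟨a1, fun e => hv.2 ?_⟩, (hB g hg v hv.1).symm⟩
        rw [← commute_conj_iff g]
        exact L.trans (S.conjI' ht (hx g (hPA hg).1)) ht a1 (hPt g hg) e) (by
        rw [← h2]
        obtain ⟨n, -, rfl⟩ := L.powQ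
        intro e
        have h5 := (Nat.prime_dvd_prime_iff_eq hp Nat.prime_two).1 (hp.dvd_of_dvd_pow e)
        obtain ⟨a, ha⟩ := L.four_dvd
        subst h5
        omega)
    refine ⟨u, hu.1, hu.2, fun g hg => ?_⟩
    have h5 : (fun a => g * a * g⁻¹) '' B u = B u := h3 g hg
    have h6 : g * u * g⁻¹ ∈ B u := h5 ▸ ⟨u, ⟨L.self_mem hu.1, hu.1.2.1⟩, rfl⟩
    exact L.Z_comm hu.1 h6.1
  obtain ⟨j, hj, e⟩ := htr t ht u hu
  have hcard : Nat.card ↥(J ⊓ Subgroup.normalizer (ZZ (S.N x) t : Set G)) =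
      Nat.card ↥(J ⊓ Subgroup.normalizer (ZZ (S.N x) u : Set G)) := by
    rw [cA t ht, cA u hu, cC t ht u hu]
  obtain ⟨k, hk, hkP⟩ := sylow_conj p (A := J ⊓ Subgroup.normalizer (ZZ (S.N x) u : Set G))
    (P := P.map (MulAut.conj j).toMonoidHom) (P' := P) (by
      rintro _ ⟨g, hg, rfl⟩
      have a1 : j * g * j⁻¹ ∈ J := J.mul_mem (J.mul_mem hj (hPA hg).1) (J.inv_mem hj)
      refine ⟨a1, (S.mem_norm_iff hu (hx _ a1)).2 ?_⟩
      have := (commute_conj_iff j _ _).2 (hPt g hg)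
      rw [← e]
      convert this using 1
      group)
    (fun g hg => ⟨(hPA hg).1, (S.mem_norm_iff hu (hx g (hPA hg).1)).2 (hPu g hg)⟩)
    (by rw [Subgroup.card_map_of_injective (MulAut.conj j).injective, hP, hcard])
    (by rw [hP, hcard])
  set n := k * j with hn
  have hnJ : n ∈ J := J.mul_mem hk.1 hj
  have hnP : Nm P n := fun g hg => by
    have := hkP _ ⟨g, hg, rfl⟩
    simpa [hn, mul_assoc] using this
  have hnt : Commute (n * t * n⁻¹) u := by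
    have := (S.mem_norm_iff hu (hx k hk.1)).1 hk.2
    rw [← e] at this ⊢
    simpa [hn, mul_assoc] using this
  have hv := S.conjI' hu (hx n hnJ)
  have hnt' := S.conjI' ht (hx n hnJ)
  have huv : ¬ Commute u (n * u * n⁻¹) := fun e' =>
    htu ((commute_conj_iff n _ _).1 (L.trans hnt' hu hv hnt e'))
  have hPv : ∀ g ∈ P, Commute (g * (n * u * n⁻¹) * g⁻¹) (n * u * n⁻¹) := fun g hg => by
    have := (commute_conj_iff n _ _).2 (hPu _ (hnP.inv g hg))
    convert this using 1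
    group
  have htv : Commute t (n * u * n⁻¹) := by
    by_contra htv
    obtain ⟨s, hs, e1⟩ := L.rex ht hu hv htu htv
    have h1 : ∀ g ∈ P, Commute g s := fun g hg =>
      L.three ht hu hv htu (S.nm (hx g (hPA hg).1)) (hPt g hg) (hPu g hg) (hPv g hg) hs e1
    have h2 : s ≠ 1 := by rintro rfl; exact huv (by simpa using e1)
    by_cases h3 : s * s = 1
    · exact noC s ⟨L.S_le ht hs, h2, h3⟩ h1
    · exact noC _ (L.Z_I ht (L.sq_mem ht hs) h3) fun g hg => (h1 g hg).mul_right (h1 g hg)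
  have h2 : n * n ∈ Subgroup.normalizer (ZZ (S.N x) t : Set G) := by
    rw [S.mem_norm_iff ht (hx _ (J.mul_mem hnJ hnJ))]
    have := (commute_conj_iff n _ _).2 hnt
    refine L.trans (S.conjI' ht (hx _ (J.mul_mem hnJ hnJ))) hv ht ?_ htv.symm
    convert this using 1
    group
  have hodd : Odd (orderOf n) := by
    rw [← Nat.not_even_iff_odd, even_iff_two_dvd]
    exact fun e' => hJ (e'.trans (J.orderOf_dvd_natCard hnJ))
  have h3 := (S.mem_norm_iff ht (hx n hnJ)).1 (mem_of_sq_mem hodd h2)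
  exact htu (L.trans ht hnt' hu h3.symm hnt)

/-- the setwise stabilizer of two points -/
def pairStab (x y : Ω) : Subgroup G where
  carrier := {g | (g • x = x ∧ g • y = y) ∨ (g • x = y ∧ g • y = x)}
  one_mem' := Or.inl ⟨one_smul _ _, one_smul _ _⟩
  mul_mem' := by
    rintro a b (⟨h1, h2⟩ | ⟨h1, h2⟩) (⟨h3, h4⟩ | ⟨h3, h4⟩) <;> simp [mul_smul, *]
  inv_mem' := by
    rintro a (⟨h1, h2⟩ | ⟨h1, h2⟩)
    · exact Or.inl ⟨inv_smul_eq_iff.2 h1.symm, inv_smul_eq_iff.2 h2.symm⟩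
    · exact Or.inr ⟨inv_smul_eq_iff.2 h2.symm, inv_smul_eq_iff.2 h1.symm⟩

theorem even (x y : Ω) (hxy : x ≠ y) : ∃ t ∈ I (S.N x), t • y = y := by
  by_contra hne
  have h0 : ∀ a b : Ω, ∀ t ∈ I (S.N a), t • b = b → b = a := fun a b t ht e => by
    by_contra hab
    obtain ⟨g, h1, h2⟩ := S.two a b x y (Ne.symm hab) hxy
    exact hne ⟨_, S.conjI' ht h1, by rw [← h2, conj_fix]; exact e⟩
  have hse : SE (Set.univ : Set Ω) (⊤ : Subgroup G) fun a => I (S.N a) :=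
    { inv := fun _ _ _ _ => trivial
      mem := fun _ _ _ _ => trivial
      fix := fun a _ t ht => S.fixI ht
      sq := fun a _ t ht p _ => by rw [ht.2.2, one_smul]
      uniq := fun a _ t ht p _ e => h0 a p t ht e
      conj := fun g _ a _ t ht => S.conjI g ht
      prod := fun a _ t ht u hu e b _ hb e' p _ => by
        have h1 : Commute t u := by
          have := S.faith ((u * t)⁻¹ * (t * u)) fun w => by
            rw [mul_smul, e w trivial, inv_smul_smul]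
          exact (inv_mul_eq_one.1 this).symm
        by_cases h2 : t * u = 1
        · rw [h2, one_smul]
        · refine absurd (h0 a b _ ⟨(S.N a).mul_mem ht.1 hu.1, h2, ?_⟩ e') hb
          rw [mul_assoc, ← mul_assoc u, ← h1.eq, mul_assoc, hu.2.2, mul_one, ht.2.2] }
  let W : Set G := {s | (∃ w, s ∈ I (S.N w)) ∧ s • x = y ∧ s • y = x}
  have hodd : ∀ s ∈ W, ∀ s' ∈ W, Odd (orderOf (s * s')) := by
    rintro s ⟨⟨w, hw⟩, h1, h2⟩ s' ⟨⟨w', hw'⟩, h1', h2'⟩
    by_cases e : w = w'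
    · subst e
      refine odd_orderOf (X := S.N w ⊓ stabilizer G x) (fun a ha hi => ?_)
        ⟨(S.N w).mul_mem hw.1 hw'.1, show (s * s') • x = x by rw [mul_smul, h1', h2]⟩
      have := h0 w x a ⟨ha.1, hi⟩ ha.2
      rw [this, S.fixI hw] at h1
      exact hxy (this.trans h1)
    · obtain ⟨⟨m, hm, e'⟩, -⟩ := hse.swap trivial trivial e hw hw'
      exact Odd.of_dvd_nat hm (orderOf_dvd_of_pow_eq_one (S.faith _ fun p => e' p trivial))
  obtain ⟨a, ha, -⟩ := (S.loc x).nc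
  obtain ⟨c, hc, -⟩ := (S.loc y).nc
  obtain ⟨-, w, -, u, hu, h1, h2, -⟩ := hse.swap trivial trivial hxy ha hc
  have huW : u ∈ W := ⟨⟨w, hu⟩, h1, h2⟩
  let Y : Subgroup G := pairStab x y
  have hWY : ∀ s ∈ W, s ∈ Y := fun s hs => Or.inr hs.2
  have hYW : ∀ g ∈ Y, ∀ s ∈ W, g * s * g⁻¹ ∈ W := by
    rintro g hg s ⟨⟨w, hw⟩, h1, h2⟩
    refine ⟨⟨_, S.conjI g hw⟩, ?_⟩
    rcases hg with ⟨h3, h4⟩ | ⟨h3, h4⟩
    · have h5 := inv_smul_eq_iff.2 h3.symm
      have h6 := inv_smul_eq_iff.2 h4.symm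
      simp [mul_smul, *]
    · have h5 := inv_smul_eq_iff.2 h3.symm
      have h6 := inv_smul_eq_iff.2 h4.symm
      simp [mul_smul, *]
  let u' : Y := ⟨u, hWY u huW⟩
  have hz := Blk.zstar (t := u') (Subtype.ext hu.2.2) fun g => by
    rw [Blk.Reg, ← Subgroup.orderOf_coe, ← even_iff_two_dvd, Nat.not_even_iff_odd]
    exact hodd _ (hYW g g.2 u huW) u huW
  have hJ : ∀ s ∈ W, s * u ∈ (Blk.cK u').map Y.subtype := fun s hs => by
    obtain ⟨w', hw'⟩ := hs.1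
    obtain ⟨k, hk⟩ := dih_odd hw'.2.2 hu.2.2 (hodd s hs u huW)
    refine ⟨_, Blk.mem_cK u' ⟨(s * u) ^ k, Y.pow_mem (Y.mul_mem (hWY s hs) (hWY u huW)) k⟩, ?_⟩
    change (s * u) ^ k * u * ((s * u) ^ k)⁻¹ * u = _
    rw [hk]
  refine S.not_trans (x := x) (J := (Blk.cK u').map Y.subtype) ?_ ?_ ?_
  · rwa [Subgroup.card_map_of_injective Y.subtype_injective]
  · rintro _ ⟨g, hg, rfl⟩
    have : Blk.cK u' ≤ (stabilizer G x).comap Y.subtype := by
      rw [Blk.cK, Subgroup.closure_le]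
      rintro _ ⟨k, rfl⟩
      change (k.1 * u * k.1⁻¹ * u) • x = x
      rw [mul_smul, h1]
      exact (hYW k k.2 u huW).2.2
    exact this hg
  · intro t ht t' ht'
    obtain ⟨w1, -, s, hs, w2, -, s', hs', e1, e2, e3, e4, e5⟩ :=
      hse.conj2 trivial trivial hxy ht ht' hc
    refine ⟨s' * s, ?_, ?_⟩
    · have := Subgroup.mul_mem _ (hJ s' ⟨⟨w2, hs'⟩, e3, e4⟩)
        (Subgroup.inv_mem _ (hJ s ⟨⟨w1, hs⟩, e1, e2⟩))
      rwa [mul_inv_rev, hs.2.inv_eq, mul_assoc, mul_inv_cancel_left] at this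
    · have := S.faith (t'⁻¹ * (s' * s * t * (s' * s)⁻¹)) fun p => by
        rw [mul_smul, e5 p trivial, inv_smul_smul]
      exact (inv_mul_eq_one.1 this).symm

theorem ce_eq_one (ht : t ∈ I (S.N x)) {c : G} (hc : Ce (S.N x) c)
    (e : ∀ w : Ω, t • w = w → c • w = w) : c = 1 := by
  refine S.faith c fun w => ?_
  by_cases hw : w = x
  · rw [hw]; exact e x (S.fixI ht)
  obtain ⟨v, hv, e1⟩ := S.even x w (Ne.symm hw)
  obtain ⟨k, hk, rfl⟩ := (S.loc x).conj_all hv ht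
  have := e (k • w) (conj_fix.2 e1)
  rw [← mul_smul, (hc k hk).eq, mul_smul] at this
  exact (MulAction.injective k) this

end St

end Cfsg.Agent.Bd
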