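import Cfsg.Agent.Lib.Bd.Nu

/-!
# The case `|Z ∩ G_y| = 2`: generalities
-/

set_option autoImplicit false

namespace Cfsg.Agent.Bd

open MulAction Cfsg.Agent.AIC

variable {G Ω : Type*} [Group G] [MulAction G Ω] {q Q : ℕ}

theorem card_dvd_mul [Finite G] {H : Subgroup G} {X : Set Ω} (hX : X.Finite) {k : ℕ}
    (h1 : ∀ g ∈ H, ∀ x ∈ X, g • x ∈ X) (h2 : ∀ x ∈ X, Nat.card ↥(H ⊓ stabilizer G x) = k) :
    Nat.card H ∣ X.ncard * k := by
  rcases X.eq_empty_or_nonempty with rfl | ⟨x, hx⟩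
  · simp
  have hk : 0 < k := h2 x hx ▸ Nat.card_pos
  have := dvd_ncard_of_blocks hX (fun w => (fun g : G => g • w) '' H)
    (k := ((fun g : G => g • x) '' H).ncard) (fun w _ => ⟨1, H.one_mem, one_smul _ _⟩)
    (by rintro w hw _ ⟨g, hg, rfl⟩; exact h1 g hg w hw) (fun w hw => by
      have e1 := card_eq_orb_mul H w
      rw [card_eq_orb_mul H x, h2 x hx, h2 w hw] at e1
      exact (Nat.eq_of_mul_eq_mul_right hk e1).symm) (by
      rintro w - _ ⟨g, hg, rfl⟩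
      ext p
      exact ⟨fun ⟨a, ha, e⟩ => ⟨a * g, H.mul_mem ha hg, by simpa [mul_smul] using e⟩,
        fun ⟨a, ha, e⟩ => ⟨a * g⁻¹, H.mul_mem ha (H.inv_mem hg), by simpa [mul_smul] using e⟩⟩)
  rw [card_eq_orb_mul H x, h2 x hx]
  exact Nat.mul_dvd_mul_right this k

theorem card_eq_two {V : Subgroup G} {b : G} (hb : b ∈ V) (h1 : b ≠ 1)
    (h : ∀ z ∈ V, z = 1 ∨ z = b) : Nat.card V = 2 := by
  rw [← ncard_sub, show (V : Set G) = {1, b} from Set.ext fun z =>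
    ⟨fun hz => by simpa using h z hz, by rintro (rfl | rfl); exacts [V.one_mem, hb]⟩,
    Set.ncard_pair h1.symm]

namespace St

variable (S : St G Ω q Q) {x y w p : Ω} {g t u b n z a c s : G}

/-- the class of the involutions of the groups `N x` -/
def D : Set G := {u | ∃ x, u ∈ I (S.N x)}

/-- `Z ∖ ⟨t⟩` -/
def TT (t : G) (w : Ω) : Set G := {z | z ∈ ZZ (S.N w) t ∧ z ≠ 1 ∧ z ≠ t}

theorem TT_conj (ht : t ∈ I (S.N w)) (hg : Commute g t) (ha : a ∈ S.TT t w) :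
    g * a * g⁻¹ ∈ S.TT t (g • w) := by
  refine ⟨?_, fun e => ha.2.1 (conj_eq_one_iff.1 e), fun e => ha.2.2 ?_⟩
  · have := S.conjZ g ht ha.1
    rwa [conj_eq_of_commute hg] at this
  · rw [← conj_eq_of_commute hg] at e
    simpa using e

theorem TT_mul (ht : t ∈ I (S.N w)) (ha : a ∈ S.TT t w) : a * t ∈ S.TT t w :=
  ⟨(ZZ _ _).mul_mem ha.1 ((S.loc w).self_mem ht),
    fun e => ha.2.2 (by rw [← mul_one a, ← ht.2.2, ← mul_assoc, e, one_mul]),
    fun e => ha.2.1 (by simpa using e)⟩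

theorem TT_I (ht : t ∈ I (S.N w)) (ha : a ∈ S.TT t w) : a ∈ I (S.N w) :=
  (S.loc w).Z_I ht ha.1 ha.2.1

theorem TT_comm (ht : t ∈ I (S.N w)) (ha : a ∈ S.TT t w) : Commute a t :=
  (S.loc w).Z_comm ht ha.1

theorem Two.uniq (h : S.Two) (ht : t ∈ I (S.N w)) (ha : a ∈ S.TT t w) (e : t • p = p)
    (e' : a • p = p) : p = w := by
  by_contra hne
  rcases h w p (Ne.symm hne) t ht e a ha.1 e' with e1 | e1
  exacts [ha.2.1 e1, ha.2.2 e1]

variable [Finite G]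

theorem exists_TT (ht : t ∈ I (S.N w)) : ∃ a, a ∈ S.TT t w := by
  obtain ⟨z, hz, a1, a2, -⟩ := (S.loc w).exists_Z_ne ht 1 t t
  exact ⟨z, hz, a1, a2⟩

theorem ncard_TT (ht : t ∈ I (S.N w)) : (S.TT t w).ncard = q - 2 := by
  have : S.TT t w = ((ZZ (S.N w) t : Set G) \ {1}) \ {t} := by
    ext a; simp [TT, and_assoc]
  rw [this, Set.ncard_sdiff_singleton_of_mem
    (show t ∈ (ZZ (S.N w) t : Set G) \ {1} from ⟨(S.loc w).self_mem ht, ht.2.1⟩),
    (S.loc w).ncard_Z ht]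
  omega

theorem Two.map (h : S.Two) {x' y' : Ω} (hxy : x ≠ y) (hxy' : x' ≠ y') (ht : t ∈ I (S.N x))
    (hu : u ∈ I (S.N x')) (h1 : t • y = y) (h2 : u • y' = y') :
    ∃ g : G, g • x = x' ∧ g • y = y' ∧ g * t * g⁻¹ = u := by
  obtain ⟨g, rfl, rfl, e, -⟩ := S.exists_map hxy hxy' ht hu h1 h2
  exact ⟨g, rfl, rfl, (h _ _ hxy' u hu h2 _ ((S.loc _).memZ' hu (S.conjI g ht) e)
    (conj_fix.2 h1)).resolve_left (S.conjI g ht).2.1⟩

theorem Two.card_V (h : S.Two) (hxy : x ≠ y) (ht : t ∈ I (S.N x)) (e : t • y = y) :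
    Nat.card ↥(ZZ (S.N x) t ⊓ stabilizer G y) = 2 :=
  card_eq_two ⟨(S.loc x).self_mem ht, e⟩ ht.2.1 fun z hz => h x y hxy t ht e z hz.1 hz.2

variable [Finite Ω]

theorem card_D (ht : t ∈ I (S.N x)) :
    S.D.ncard * (F Ω t).ncard = Nat.card Ω * ((Q + 1) * (q - 1)) := by
  rw [← Set.ncard_univ]
  refine double_count (Set.toFinite _) (Set.toFinite _) (fun u w => u • w = w) ?_ fun w _ => ?_
  · rintro u ⟨y, hu⟩
    rw [S.ncard_F ht hu]
    congr 1; ext w; simp [F]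
  · rw [← (S.loc w).ncard_I]
    congr 1; ext u
    exact ⟨fun ⟨⟨_, hu⟩, e⟩ => S.closedI hu e, fun hu => ⟨⟨w, hu⟩, S.fixI hu⟩⟩

theorem Two.se (h : S.Two) (ht : t ∈ I (S.N x)) :
    SE (F Ω t) (Subgroup.centralizer {t}) (S.TT t) := by
  refine ⟨fun g hg p hp => comm_fix (mem_T.1 hg) hp,
    fun w hw a ha => mem_T.2 (S.TT_comm (S.closedI ht hw) ha),
    fun w hw a ha => S.fixZ (S.closedI ht hw) ha.1, fun w hw a ha p hp => ?_,
    fun w hw a ha p hp e1 => Two.uniq S h (S.closedI ht hw) ha hp e1,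
    fun g hg w hw a ha => S.TT_conj (S.closedI ht hw) (mem_T.1 hg) ha,
    fun w hw a ha b hb _ p hp e1 e2 r hr => ?_⟩
  · rw [(S.loc w).Z_sq (S.closedI ht hw) ha.1, one_smul]
  · rcases h w p e1.symm t (S.closedI ht hw) hp _ ((ZZ _ _).mul_mem ha.1 hb.1) e2 with e | e <;>
      rw [e]
    exacts [one_smul _ _, hr]

/-- the middle involution of the dihedral group generated by `a` and `c` -/
theorem Two.mid (h : S.Two) (ht : t ∈ I (S.N x)) (e : t • y = y) (hxy : x ≠ y) (ha : a ∈ S.TT t x)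
    (hc : c ∈ S.TT t y) : ∃ w : Ω, t • w = w ∧ ∃ z ∈ S.TT t w, z • x = y ∧ z • y = x ∧
      (∀ g, Commute g a → Commute g c → Commute g z) ∧
      (∀ p : Ω, t • p = p → (z * c * z⁻¹) • p = a • p) ∧
      ∀ s, Commute s t → s * a * s⁻¹ = c → s * c * s⁻¹ = a → s • w = w := by
  have se := Two.se S h ht
  have hy := S.closedI ht e
  obtain ⟨⟨m, ⟨k, rfl⟩, hm⟩, -⟩ := se.swap (S.fixI ht) e hxy ha hc
  have a2 := (S.TT_I ht ha).2.2
  have c2 := (S.TT_I hy hc).2.2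
  have ai := inv_eq_of_mul_eq_one_right a2
  have ci := inv_eq_of_mul_eq_one_right c2
  have act := (S.TT_comm ht ha).mul_left (S.TT_comm hy hc)
  obtain ⟨w, hw, hz⟩ : ∃ w : Ω, t • w = w ∧ a * (a * c) ^ (k + 1) ∈ S.TT t w := by
    obtain ⟨i, hi | hi⟩ := mul_pow_eq_conj a2 c2 (k + 1) <;> rw [hi]
    · exact ⟨_, comm_fix (act.pow_left i).inv_left (S.fixI ht), by
        simpa using S.TT_conj ht (act.pow_left i).inv_left ha⟩
    · exact ⟨_, comm_fix (act.pow_left i).inv_left e, by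
        simpa using S.TT_conj hy (act.pow_left i).inv_left hc⟩
  have e1 : c * (a * c) * c⁻¹ = (a * c)⁻¹ := by
    rw [mul_inv_rev, ai, ci, mul_assoc, mul_assoc, c2, mul_one]
  have e2 : a * (a * c) * a⁻¹ = (a * c)⁻¹ := by
    rw [mul_inv_rev, ai, ci, ← mul_assoc, a2, one_mul]
  have e3 : c = a * (a * c) := by rw [← mul_assoc, a2, one_mul]
  have e4 : ∀ j : ℕ, a * (a * c) ^ j * a⁻¹ = ((a * c) ^ j)⁻¹ := fun j => by
    rw [← conj_pow, e2, inv_pow]
  have e5 : ∀ p : Ω, t • p = p →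
      (a * (a * c) ^ (k + 1) * c * (a * (a * c) ^ (k + 1))⁻¹) • p = a • p := fun p hp => by
    have : a * (a * c) ^ (k + 1) * c * (a * (a * c) ^ (k + 1))⁻¹ = a * (a * c) ^ (2 * k + 1) := by
      rw [mul_inv_rev, ← e4]
      generalize a * c = r at *
      rw [e3]
      calc _ = a * r ^ (k + 1) * (a * r * a⁻¹) * (a * a) * r ^ (k + 1) * (a * a)⁻¹ := by group
        _ = _ := by rw [e2, a2]; group
    rw [this, mul_smul, hm p hp]
  have hwI := S.closedI ht hw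
  have e6 : (a * (a * c) ^ (k + 1)) • y = x :=
    (Two.uniq S h (S.closedI ht (comm_fix (S.TT_comm hwI hz) e))
      (S.TT_conj hy (S.TT_comm hwI hz) hc) (S.fixI ht)
      (by rw [e5 x (S.fixI ht)]; exact S.fixZ ht ha.1)).symm
  refine ⟨w, hw, _, hz, ?_, e6, fun g h1 h2 => h1.mul_right ((h1.mul_right h2).pow_right _), e5,
    fun s h1 h2 h3 => ?_⟩
  · rw [← e6, ← mul_smul, (S.TT_I hwI hz).2.2, one_smul]
  · refine (Two.uniq S h (S.closedI ht (comm_fix h1 hw)) (S.TT_conj hwI h1 hz) hw ?_).symm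
    have f1 : s * (a * c) * s⁻¹ = (a * c)⁻¹ := by
      calc _ = s * a * s⁻¹ * (s * c * s⁻¹) := by group
        _ = _ := by rw [h2, h3, mul_inv_rev, ai, ci]
    have : s * (a * (a * c) ^ (k + 1)) * s⁻¹ =
        a * (a * c) ^ (k + 1) * ((a * c) ^ (2 * k + 1))⁻¹ := by
      calc _ = s * a * s⁻¹ * (s * (a * c) * s⁻¹) ^ (k + 1) := by rw [conj_pow]; group
        _ = _ := by
          rw [f1, h2]
          generalize a * c = r at *
          rw [e3]; group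
    rw [this, mul_smul, inv_smul_eq_iff.2 (hm w hw).symm]
    exact S.fixZ hwI hz.1

end St

end Cfsg.Agent.Bd
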