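import Cfsg.Agent.Lib.Bd.TwoB

/-!
# The case `|Z ∩ G_y| = 2` with abelian Sylow subgroups: the two-point stabilizers
-/

set_option autoImplicit false

namespace Cfsg.Agent.Bd

open MulAction Cfsg.Agent.AIC

variable {G Ω : Type*} [Group G] [MulAction G Ω] {q Q : ℕ}

theorem fix_of_lt [Finite G] {p : ℕ} (hp : p.Prime) {g : G} (hg : g ^ p = 1) {X : Set Ω}
    (hX : X.Finite) (h : ∀ x ∈ X, g • x ∈ X) (hlt : X.ncard < p) {x : Ω} (hx : x ∈ X) :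
    g • x = x := by
  have h1 := card_eq_orb_mul (Subgroup.zpowers g) x
  have h2 : ((fun g : G => g • x) '' Subgroup.zpowers g).ncard ≤ X.ncard :=
    Set.ncard_le_ncard (by rintro _ ⟨a, ha, rfl⟩; exact zpowers_inv hX h a ha x hx) hX
  have h3 := (Dvd.intro _ h1.symm).trans (Nat.card_zpowers g ▸ orderOf_dvd_of_pow_eq_one hg)
  obtain ⟨w, hw⟩ := Set.ncard_eq_one.1 (((Nat.dvd_prime hp).1 h3).resolve_right (by omega))
  have a1 : g • x ∈ ({w} : Set Ω) := hw ▸ ⟨g, Subgroup.mem_zpowers g, rfl⟩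
  have a2 : x ∈ ({w} : Set Ω) := hw ▸ ⟨1, Subgroup.one_mem _, one_smul _ _⟩
  rw [a1, a2]

theorem Loc.uniq3 {M : Subgroup G} (L : Loc M q Q) {t a b : G} (ht : t ∈ I M) (ha : a ∈ I M)
    (hb : b ∈ I M) (h : ¬ Commute t a) (e : Commute a b) (h1 : t * a * t⁻¹ = a * t * a⁻¹)
    (h2 : t * b * t⁻¹ = b * t * b⁻¹) : a = b :=
  L.runiq' ha ht ((Nm.of_mem ht.1).I ha) (fun e' => h e'.symm) (L.Z_le_S ha (L.self_mem ha))
    (L.Z_le_S ha (L.memZ' ha hb e.symm)) (by rw [h1]) (by rw [← h2, commute_conj_iff]; exact e.symm)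

namespace St

variable (S : St G Ω q Q) {x y w p x' y' : Ω} {g t u v b n z a c s k : G}

/-- the involutions fixing two points -/
def IK (x y : Ω) : Set G := {u | u ∈ I (S.N x) ∧ u • y = y}

/-- the stabilizer of `y` in `N x` -/
def KK (x y : Ω) : Subgroup G := S.N x ⊓ stabilizer G y

theorem IK_conj (g : G) (hu : u ∈ S.IK x y) : g * u * g⁻¹ ∈ S.IK (g • x) (g • y) :=
  ⟨S.conjI g hu.1, conj_fix.2 hu.2⟩

theorem IK_conj' (hu : u ∈ S.IK x y) (h1 : g • x = x') (h2 : g • y = y') :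
    g * u * g⁻¹ ∈ S.IK x' y' := h1 ▸ h2 ▸ S.IK_conj g hu

theorem KK_conj (g : G) (hk : k ∈ S.KK x y) : g * k * g⁻¹ ∈ S.KK (g • x) (g • y) :=
  ⟨S.conj g x k hk.1, conj_fix.2 hk.2⟩

theorem IK_KK (hu : u ∈ S.IK x y) : u ∈ S.KK x y := ⟨hu.1.1, hu.2⟩

theorem ncard_IK (hxy : x ≠ y) (hxy' : x' ≠ y') : (S.IK x y).ncard = (S.IK x' y').ncard := by
  obtain ⟨g, rfl, rfl⟩ := S.two x y x' y' hxy hxy'
  rw [← Set.ncard_image_of_injective (S.IK x y) (MulAut.conj g).injective]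
  congr 1; ext u
  refine ⟨by rintro ⟨a, ha, rfl⟩; exact S.IK_conj g ha, fun hu => ⟨g⁻¹ * u * g, ?_, by
    simp [mul_assoc]⟩⟩
  simpa using S.IK_conj g⁻¹ hu

theorem Two.eq_of_comm (h : S.Two) (hxy : x ≠ y) (hu : u ∈ S.IK x y) (hv : v ∈ S.IK x y)
    (e : Commute u v) : u = v :=
  (h x y hxy v hv.1 hv.2 u ((S.loc x).memZ' hv.1 hu.1 e) hu.2).resolve_left hu.1.2.1

variable [Finite G]

theorem Two.m_le (h : S.Two) (hxy : x ≠ y) : (S.IK x y).ncard ≤ Q + 1 :=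
  (S.loc x).ncard_le_of_nc (fun _ hu => hu.1) fun _ ha _ hb => Two.eq_of_comm S h hxy ha hb

theorem Two.conjK (h : S.Two) (hxy : x ≠ y) (hu : u ∈ S.IK x y) (hv : v ∈ S.IK x y) :
    ∃ k ∈ S.KK x y, k * u * k⁻¹ = v := by
  by_cases e : Commute v u
  · exact ⟨1, Subgroup.one_mem _, by simp [Two.eq_of_comm S h hxy hv hu e]⟩
  obtain ⟨k, hk⟩ := dih_odd hv.1.2.2 hu.1.2.2 ((S.loc x).odd_mul hv.1 hu.1 e)
  exact ⟨_, Subgroup.pow_mem _ (Subgroup.mul_mem _ (S.IK_KK hv) (S.IK_KK hu)) k, hk⟩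

theorem Two.odd_mul (h : S.Two) (hxy : x ≠ y) (hu : u ∈ S.IK x y) (hv : v ∈ S.IK x y) :
    Odd (orderOf (u * v)) := by
  by_cases e : Commute u v
  · rw [Two.eq_of_comm S h hxy hu hv e, hv.1.2.2]; simp
  · exact (S.loc x).odd_mul hu.1 hv.1 e

theorem Two.odd_m (h : S.Two) (hxy : x ≠ y) : Odd (S.IK x y).ncard := by
  obtain ⟨t, ht, e⟩ := S.even x y hxy
  have := @ncard_modEq_elt G _ G (cjAct G) 2 _ t 1 (by simpa [sq] using ht.2.2) (S.IK x y)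
    (Set.toFinite _) fun u hu => S.IK_conj' hu (S.fixI ht) e
  exact Nat.odd_iff.2 (this.trans (congrArg (· % 2) (Set.ncard_eq_one.2 ⟨t,
    Set.eq_singleton_iff_unique_mem.2 ⟨⟨⟨ht, e⟩, mul_inv_cancel_right t t⟩,
    fun u hu => (Two.eq_of_comm S h hxy ⟨ht, e⟩ hu.1 (commute_of_conj_eq hu.2)).symm⟩⟩)))

theorem Two.card_K (h : S.Two) (hQ : Q = q) (hxy : x ≠ y) :
    Nat.card (S.KK x y) = (S.IK x y).ncard * 2 := by
  obtain ⟨t, ht, e⟩ := S.even x y hxy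
  rw [card_eq_cls_mul (S.KK x y) t, card_eq_two (V := S.KK x y ⊓ Subgroup.centralizer {t})
    (b := t) ⟨⟨ht.1, e⟩, mem_T.2 (Commute.refl t)⟩
    ht.2.1 fun z hz => h x y hxy t ht e z ((S.loc x).cC1 ht hQ hz.1.1 (mem_T.1 hz.2)) hz.1.2]
  congr 2; ext u
  exact ⟨by rintro ⟨k, hk, rfl⟩; exact S.IK_conj' ⟨ht, e⟩ (S.fix x k hk.1) hk.2,
    fun hu => Two.conjK S h hxy ⟨ht, e⟩ hu⟩

theorem Two.memK (h : S.Two) (hQ : Q = q) (hxy : x ≠ y) (ht : t ∈ S.IK x y) (hk : k ∈ S.KK x y) :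
    k ∈ S.IK x y ∨ t * k ∈ S.IK x y := by
  have : S.IK x y ∪ (fun u => t * u) '' S.IK x y = S.KK x y := by
    refine Set.eq_of_subset_of_ncard_le ?_ ?_ (Set.toFinite _)
    · rintro _ (hu | ⟨u, hu, rfl⟩)
      exacts [S.IK_KK hu, Subgroup.mul_mem _ (S.IK_KK ht) (S.IK_KK hu)]
    · rw [Set.ncard_union_eq _ (Set.toFinite _) (Set.toFinite _), ncard_sub, Two.card_K S h hQ hxy,
        Set.ncard_image_of_injective _ (mul_right_injective t)]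
      · omega
      rw [Set.disjoint_left]
      rintro _ ha ⟨u, hu, rfl⟩
      exact ha.1.2.1 (eq_one_of_odd (Two.odd_mul S h hxy ht hu) ha.1.2.2)
  rcases (this ▸ hk : k ∈ S.IK x y ∪ (fun u => t * u) '' S.IK x y) with e | ⟨u, hu, rfl⟩
  · exact Or.inl e
  · exact Or.inr (by rwa [← mul_assoc, ht.1.2.2, one_mul])

theorem Two.invert (h : S.Two) (hQ : Q = q) (hxy : x ≠ y) (ht : t ∈ S.IK x y) (hk : k ∈ S.KK x y)
    (hk' : k ∉ S.IK x y) : t * k * t⁻¹ = k⁻¹ ∧ Odd (orderOf k) := by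
  have h1 := (Two.memK S h hQ hxy ht hk).resolve_left hk'
  refine ⟨?_, ?_⟩
  · rw [inv_eq_of_mul_eq_one_right ht.1.2.2, eq_inv_iff_mul_eq_one, mul_assoc]; exact h1.1.2.2
  · have := Two.odd_mul S h hxy ht h1
    rwa [← mul_assoc, ht.1.2.2, one_mul] at this

/-- the elements of odd order of `K` -/
def AA (h : S.Two) (hQ : Q = q) (hxy : x ≠ y) : Subgroup G where
  carrier := {k | k ∈ S.KK x y ∧ k ∉ S.IK x y}
  one_mem' := ⟨Subgroup.one_mem _, fun e => e.1.2.1 rfl⟩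
  mul_mem' := fun {a b} ha hb => ⟨Subgroup.mul_mem _ ha.1 hb.1, fun e => by
    have h1 := (Two.invert S h hQ hxy e hb.1 hb.2).1
    have h2 : a * a = 1 := by
      calc _ = (a * b) * b⁻¹ * (a * b) * b⁻¹ := by group
        _ = (a * b) * (a * b * b * (a * b)⁻¹) * (a * b) * b⁻¹ := by rw [h1]
        _ = (a * b * (a * b)) := by group
        _ = 1 := e.1.2.2
    rw [eq_one_of_odd (Two.invert S h hQ hxy e ha.1 ha.2).2 h2, one_mul] at e
    exact hb.2 e⟩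
  inv_mem' := fun {a} ha => ⟨Subgroup.inv_mem _ ha.1, fun e => ha.2 (by
    rwa [eq_inv_of_mul_eq_one_left e.1.2.2, inv_inv] at e)⟩

theorem card_AA (h : S.Two) (hQ : Q = q) (hxy : x ≠ y) :
    Nat.card (S.AA h hQ hxy) = (S.IK x y).ncard := by
  rw [← ncard_sub, show (S.AA h hQ hxy : Set G) = (S.KK x y : Set G) \ S.IK x y from rfl,
    Set.ncard_sdiff (fun _ => S.IK_KK) (Set.toFinite _), ncard_sub, Two.card_K S h hQ hxy]
  omega

theorem AA_comm (h : S.Two) (hQ : Q = q) (hxy : x ≠ y) (ha : a ∈ S.AA h hQ hxy)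
    (hb : b ∈ S.AA h hQ hxy) : Commute a b := by
  obtain ⟨t, ht, e⟩ := S.even x y hxy
  have h1 := (Two.invert S h hQ hxy ⟨ht, e⟩ ha.1 ha.2).1
  have h2 := (Two.invert S h hQ hxy ⟨ht, e⟩ hb.1 hb.2).1
  have h3 := Subgroup.mul_mem _ ha hb
  have h4 := (Two.invert S h hQ hxy ⟨ht, e⟩ h3.1 h3.2).1
  rw [show t * (a * b) * t⁻¹ = t * a * t⁻¹ * (t * b * t⁻¹) by group, h1, h2, ← mul_inv_rev,
    inv_inj] at h4
  exact h4.symm

theorem mul_mem_AA (h : S.Two) (hQ : Q = q) (hxy : x ≠ y) (hu : u ∈ S.IK x y)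
    (hv : v ∈ S.IK x y) : u * v ∈ S.AA h hQ hxy :=
  ⟨Subgroup.mul_mem _ (S.IK_KK hu) (S.IK_KK hv),
    fun e => e.1.2.1 (eq_one_of_odd (Two.odd_mul S h hxy hu hv) e.1.2.2)⟩

theorem AA_eq_one (h : S.Two) (hQ : Q = q) (hxy : x ≠ y) (ha : a ∈ S.AA h hQ hxy)
    (hu : u ∈ I (S.N x)) (e : Commute a u) : a = 1 := by
  obtain ⟨t, ht, e1⟩ := S.even x y hxy
  exact eq_one_of_odd (Two.invert S h hQ hxy ⟨ht, e1⟩ ha.1 ha.2).2
    ((S.loc x).Z_sq hu ((S.loc x).cC1 hu hQ ha.1.1 e))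

variable [Finite Ω]

theorem IK_symm (hu : u ∈ S.IK x y) : u ∈ S.IK y x := ⟨S.closedI hu.1 hu.2, S.fixI hu.1⟩

theorem Two.closedK (h : S.Two) (hQ : Q = q) (hk : k ∈ S.N x) (e : k • y = y) : k ∈ S.N y := by
  by_cases hxy : x = y
  · exact hxy ▸ hk
  obtain ⟨t, ht, e1⟩ := S.even x y hxy
  rcases Two.memK S h hQ hxy ⟨ht, e1⟩ ⟨hk, e⟩ with a | a
  · exact (S.IK_symm a).1.1
  · exact ((S.N y).mul_mem_cancel_left (S.closed ht e1)).1 (S.IK_symm a).1.1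

theorem IK_eq (hxy : x ≠ y) (hxy' : x' ≠ y') (h1 : ∀ u ∈ S.IK x y, u • x' = x')
    (h2 : ∀ u ∈ S.IK x y, u • y' = y') : S.IK x y = S.IK x' y' :=
  Set.eq_of_subset_of_ncard_le (fun u hu => ⟨S.closedI hu.1 (h1 u hu), h2 u hu⟩)
    (S.ncard_IK hxy' hxy).le (Set.toFinite _)

theorem count_IK (hxy : x ≠ y) (ht : t ∈ I (S.N x)) :
    (Q + 1) * (q - 1) * ((F Ω t).ncard - 1) = (Nat.card Ω - 1) * (S.IK x y).ncard := by
  rw [← (S.loc x).ncard_I, ← Set.ncard_univ, ← Set.ncard_sdiff_singleton_of_mem (Set.mem_univ x)]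
  refine double_count (Set.toFinite _) (Set.toFinite _) (fun u p => u • p = p) (fun u hu => ?_)
    fun p hp => S.ncard_IK (Ne.symm hp.2) hxy
  rw [S.ncard_F ht hu, ← Set.ncard_sdiff_singleton_of_mem (show x ∈ F Ω u from S.fixI hu)]
  congr 1; ext p; simp [F, and_comm]

theorem Two.odd_f (h : S.Two) (ht : t ∈ I (S.N x)) : Odd (F Ω t).ncard := by
  obtain ⟨z, hz⟩ := S.exists_TT ht
  have := ncard_modEq_elt (p := 2) (g := z) (k := 1) (by simpa [sq] using (S.TT_I ht hz).2.2)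
    (X := F Ω t) (Set.toFinite _) fun p hp => comm_fix (S.TT_comm ht hz) hp
  exact Nat.odd_iff.2 (this.trans (congrArg (· % 2) (Set.ncard_eq_one.2 ⟨x,
    Set.eq_singleton_iff_unique_mem.2 ⟨⟨S.fixI ht, S.fixZ ht hz.1⟩,
    fun p hp => Two.uniq S h ht hz hp.1 hp.2⟩⟩)))

theorem Two.perp (h : S.Two) (ht : t ∈ I (S.N x)) (hu : u ∈ I (S.N y)) (e : Commute u t)
    (hne : u ≠ t) : ∃ w : Ω, t • w = w ∧ u ∈ S.TT t w := by
  obtain ⟨w, hw, e1⟩ := exists_fixed_elt (p := 2) (g := u) (k := 1) (by simpa [sq] using hu.2.2)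
    (X := F Ω t) (Set.toFinite _) (fun p hp => comm_fix e hp) (by
      rw [← even_iff_two_dvd, Nat.not_even_iff_odd]; exact Two.odd_f S h ht)
  exact ⟨w, hw, (S.loc w).memZ' (S.closedI ht hw) (S.closedI hu e1) e, hu.2.1, hne⟩

end St

end Cfsg.Agent.Bd
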